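import Mathlib

set_option autoImplicit false

namespace H17.Mw
open Subgroup Pointwise

variable {G : Type*} [Group G]

/-- Every elementary abelian section inside `X` has order at most `m`. -/
def R (X : Subgroup G) (m : ℕ) : Prop :=
  ∀ H K : Subgroup G, H ≤ X → (∀ h ∈ H, h ^ 2 ∈ K) → K.relIndex H ≤ m

/-- Every elementary abelian section above `N` has order at most `m`. -/
def Q (N : Subgroup G) (m : ℕ) : Prop :=
  ∀ H K : Subgroup G, N ≤ K → (∀ h ∈ H, h ^ 2 ∈ K) → K.relIndex H ≤ m

theorem nrm {H K : Subgroup G} (h : ∀ x ∈ H, x ^ 2 ∈ K) : (K.subgroupOf H).Normal := by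
  refine ⟨fun n hn g => ?_⟩
  rw [mem_subgroupOf] at hn ⊢
  have e : ((g * n * g⁻¹ : H) : G) = ((g : G) * n) ^ 2 * (n : G)⁻¹ * ((g : G)⁻¹) ^ 2 := by
    simp only [coe_mul, coe_inv, pow_two]; group
  rw [e]
  exact K.mul_mem (K.mul_mem (h _ (H.mul_mem g.2 n.2)) (K.inv_mem hn)) (h _ (H.inv_mem g.2))

theorem comb {H K : Subgroup G} (N : Subgroup G) [N.Normal] (h : ∀ x ∈ H, x ^ 2 ∈ K) :
    K.relIndex H = K.relIndex (N ⊓ H) * ((K ⊓ H) ⊔ N).relIndex H := by
  have := nrm h
  have e1 : ((K ⊓ H) ⊔ N).subgroupOf H = K.subgroupOf H ⊔ N.subgroupOf H := by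
    apply le_antisymm
    · intro x hx
      rw [mem_subgroupOf] at hx
      have : (x : G) ∈ ((K ⊓ H : Subgroup G) : Set G) * (N : Set G) := by
        rw [← mul_normal]; exact hx
      obtain ⟨k, hk, n, hn, e⟩ := this
      have nH : n ∈ H := by
        have : n = k⁻¹ * x := by rw [← e]; group
        rw [this]; exact H.mul_mem (H.inv_mem hk.2) x.2
      have : x = (⟨k, hk.2⟩ : H) * ⟨n, nH⟩ := Subtype.ext e.symm
      rw [this]
      exact mul_mem_sup (by rw [mem_subgroupOf]; exact hk.1) (by rw [mem_subgroupOf]; exact hn)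
    · refine sup_le (fun x hx => ?_) (fun x hx => ?_)
      · rw [mem_subgroupOf] at hx ⊢
        exact mem_sup_left ⟨hx, x.2⟩
      · rw [mem_subgroupOf] at hx ⊢
        exact mem_sup_right hx
  have e2 : K.relIndex (N ⊓ H) = (K.subgroupOf H).relIndex (N.subgroupOf H) := by
    rw [← inf_subgroupOf_right N H, relIndex_subgroupOf inf_le_right]
  rw [e2, ← relIndex_sup_left (N.subgroupOf H) (K.subgroupOf H), relIndex, relIndex, relIndex, e1]
  exact (relIndex_mul_index (le_sup_left : K.subgroupOf H ≤ _)).symm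

theorem RQ {N : Subgroup G} [N.Normal] {a b : ℕ} (h1 : R N a) (h2 : Q N b) :
    R (⊤ : Subgroup G) (a * b) := by
  intro H K _ h
  rw [comb N h]
  refine Nat.mul_le_mul (h1 _ _ inf_le_left fun x hx => h x hx.2) (h2 _ _ le_sup_right ?_)
  intro x hx
  exact mem_sup_left ⟨h x hx, H.pow_mem hx 2⟩

theorem rel_le [Finite G] (K H : Subgroup G) : K.relIndex H ≤ K.index := by
  rw [← relIndex_top_right]
  exact relIndex_le_of_le_right le_top (by rw [relIndex_top_right]; exact index_ne_zero_of_finite)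

theorem Q4 [Finite G] {N : Subgroup G} (h : N.index ≤ 4) : Q N 4 := by
  intro H K hK _
  exact (rel_le K H).trans ((index_antitone hK).trans h)

theorem Q8 [Finite G] {N : Subgroup G} [N.Normal] (h : N.index ≤ 8) {g : G} (hg : g ^ 2 ∉ N) :
    Q N 4 := by
  intro H K hK hs
  by_contra h4
  push Not at h4
  have h5 := rel_le K H
  have e := relIndex_mul_index hK
  have n0 : N.index ≠ 0 := index_ne_zero_of_finite
  have r1 : N.relIndex K = 1 := by
    rcases Nat.lt_trichotomy (N.relIndex K) 1 with h | h | h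
    · have : N.relIndex K = 0 := by omega
      rw [this] at e; omega
    · exact h
    · nlinarith
  have KN : K = N := le_antisymm (relIndex_eq_one.mp r1) hK
  subst KN
  have e2 := relIndex_mul_index (le_sup_right : K ≤ H ⊔ K)
  rw [relIndex_sup_right] at e2
  have r2 : (H ⊔ K).index = 1 := by
    rcases Nat.lt_trichotomy (H ⊔ K).index 1 with h | h | h
    · have : (H ⊔ K).index = 0 := by omega
      rw [this] at e2; omega
    · exact h
    · nlinarith
  have : g ∈ (H : Set G) * (K : Set G) := by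
    rw [← mul_normal, index_eq_one.mp r2]; trivial
  obtain ⟨x, hx, n, hn, rfl⟩ := this
  apply hg
  have e3 : (x * n) ^ 2 = x ^ 2 * (x⁻¹ * n * x⁻¹⁻¹) * n := by simp only [pow_two]; group
  simp only at *
  rw [e3]
  exact K.mul_mem (K.mul_mem (hs x hx) (Normal.conj_mem inferInstance n hn _)) hn

theorem le_two {L H : Subgroup G} {x : G} (hx : x ∈ H) (h : ∀ y ∈ H, y ∈ L ∨ x⁻¹ * y ∈ L) :
    L.relIndex H ≤ 2 := by
  rw [relIndex, index]
  have : Function.Surjective
      (fun b : Bool => if b then ((1 : H) : H ⧸ L.subgroupOf H) else ((⟨x, hx⟩ : H) : H ⧸ L.subgroupOf H)) := by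
    intro q
    obtain ⟨y, rfl⟩ := QuotientGroup.mk_surjective q
    rcases h y y.2 with h | h
    · refine ⟨true, ?_⟩
      simp only [if_true]
      rw [QuotientGroup.eq, mem_subgroupOf]; simpa using h
    · refine ⟨false, ?_⟩
      simp only [Bool.false_eq_true, if_false]
      rw [QuotientGroup.eq, mem_subgroupOf]; simpa using h
  simpa using Nat.card_le_card_of_surjective _ this

theorem pow2 [Finite G] (hG : IsPGroup 2 G) (K H : Subgroup G) : ∃ n, K.relIndex H = 2 ^ n :=
  (hG.to_subgroup H).index (K.subgroupOf H)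

theorem lt8 {n : ℕ} (h : 2 ^ n < 8) : 2 ^ n ≤ 4 := by
  have : n < 3 := (Nat.pow_lt_pow_iff_right (by norm_num : 1 < 2)).mp h
  interval_cases n <;> norm_num

theorem cidx [Finite G] (x : G) (s : Set G) (h : ∀ g, g * x * g⁻¹ ∈ s) :
    (centralizer ({x} : Set G)).index ≤ s.ncard := by
  rw [index]
  let f : G ⧸ centralizer ({x} : Set G) → s := Quotient.lift (fun g => ⟨g * x * g⁻¹, h g⟩) (by
    intro a b hab
    have : a⁻¹ * b ∈ centralizer ({x} : Set G) := QuotientGroup.leftRel_apply.mp hab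
    rw [mem_centralizer_singleton_iff] at this
    apply Subtype.ext
    simp only
    calc a * x * a⁻¹ = a * (x * (a⁻¹ * b)) * b⁻¹ := by group
      _ = b * x * b⁻¹ := by rw [← this]; group)
  have hf : Function.Injective f := by
    intro p q hpq
    obtain ⟨a, rfl⟩ := QuotientGroup.mk_surjective p
    obtain ⟨b, rfl⟩ := QuotientGroup.mk_surjective q
    have : a * x * a⁻¹ = b * x * b⁻¹ := congrArg Subtype.val hpq
    rw [QuotientGroup.eq, mem_centralizer_singleton_iff]
    calc a⁻¹ * b * x = a⁻¹ * (b * x * b⁻¹) * b := by group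
      _ = x * (a⁻¹ * b) := by rw [← this]; group
  exact Nat.card_le_card_of_injective f hf

/-- two non-members of an index two subgroup multiply into it -/
theorem two_mul [Finite G] {Γ T : Subgroup G} (h : Γ ≤ T) (hc : Nat.card T ≤ 2 * Nat.card Γ) {x y : G}
    (hx : x ∈ T) (hy : y ∈ T) (x' : x ∉ Γ) (y' : y ∉ Γ) : x * y ∈ Γ := by
  have e := (Γ.subgroupOf T).card_mul_index
  rw [Nat.card_congr (subgroupOfEquivOfLe h).toEquiv] at e
  have p : 0 < Nat.card Γ := Nat.card_pos
  have n0 : (Γ.subgroupOf T).index ≠ 0 := index_ne_zero_of_finite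
  have n1 : (Γ.subgroupOf T).index ≠ 1 := by
    intro h1
    have : (⟨x, hx⟩ : T) ∈ Γ.subgroupOf T := by rw [index_eq_one.mp h1]; trivial
    exact x' this
  have n2 : (Γ.subgroupOf T).index = 2 := by
    by_contra h2
    have : 3 ≤ (Γ.subgroupOf T).index := by omega
    nlinarith
  have := (mul_mem_iff_of_index_two n2 (a := ⟨x, hx⟩) (b := ⟨y, hy⟩)).mpr (by
    simp only [mem_subgroupOf]; tauto)
  exact this

end H17.Mw
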