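import Cfsg.Agent.H12.Tate
import Cfsg.Agent.H7.MinAct
import Cfsg.Agent.H2.Wielandt
import Cfsg.Agent.H2.BG34
import Cfsg.Agent.H8.Sdp
import Cfsg.Agent.H16.QNil
import Cfsg.Agent.H15.Pi

/-! Flavell: `C_{[K,x]}(x)` is generated by the subgroups `C_{[h,x]}(x)`. -/

set_option autoImplicit false
set_option linter.unusedSectionVars false

open Subgroup Cfsg H1 H16
open scoped commutatorElement

namespace H17.Fv

universe u

variable {G : Type*} [Group G] {K U V T : Subgroup G} {x h c : G} {p : ℕ}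

theorem pi_le {π : Set ℕ} (h : Pi[π] K) (e : U ≤ K) : Pi[π] U := H15.Cfsg.IsPiSubgroup.of_le h e

/-- `[h, ⟨x⟩]` -/
def Bx (x h : G) : Subgroup G := closure {c | ∃ i : ℕ, c = h⁻¹ * (x ^ i * h * (x ^ i)⁻¹)}

def Dx (x : G) (K : Subgroup G) : Subgroup G := ⨆ h ∈ K, (Bx x h ⊓ C1[x])

theorem mem_Bx (i : ℕ) : h⁻¹ * (x ^ i * h * (x ^ i)⁻¹) ∈ Bx x h := subset_closure ⟨i, rfl⟩

theorem mem_Bx1 : h⁻¹ * (x * h * x⁻¹) ∈ Bx x h := by simpa using mem_Bx (x := x) (h := h) 1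

theorem Bx_le_iff : Bx x h ≤ T ↔ ∀ i : ℕ, h⁻¹ * (x ^ i * h * (x ^ i)⁻¹) ∈ T :=
  ⟨fun e i => e (mem_Bx i), fun e => (closure_le _).2 (by rintro _ ⟨i, rfl⟩; exact e i)⟩

theorem Bx_le (hx : x ∈ N[U]) (hh : h ∈ U) : Bx x h ≤ U :=
  Bx_le_iff.2 fun i => mul_mem (inv_mem hh) (conj_mem (pow_mem hx i) hh)

theorem Bx_le_comm (hh : h ∈ K) : Bx x h ≤ ⁅K, zpowers x⁆ := Bx_le_iff.2 fun i => by
  have := commutator_mem_commutator (K.inv_mem hh) (pow_mem (mem_zpowers x) i)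
  rwa [commutatorElement_def, inv_inv, mul_assoc, mul_assoc, ← mul_assoc (x ^ i)] at this

theorem Bx_map {Y : Type*} [Group Y] (f : G →* Y) : (Bx x h).map f = Bx (f x) (f h) := by
  rw [Bx, MonoidHom.map_closure]
  congr 1
  ext y
  constructor
  · rintro ⟨_, ⟨i, rfl⟩, rfl⟩; exact ⟨i, by simp⟩
  · rintro ⟨i, rfl⟩; exact ⟨_, ⟨i, rfl⟩, by simp⟩

theorem Bx_cj (hc : c ∈ C1[x]) : Bx x h :^ c = Bx x (c * h * c⁻¹) := by
  rw [Bx_map]
  exact congrArg (Bx · _) (mul_inv_eq_iff_eq_mul.2 (mem_cent1.1 hc))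

theorem le_Dx (hh : h ∈ K) : Bx x h ⊓ C1[x] ≤ Dx x K := le_iSup₂_of_le (f := fun h (_ : h ∈ K) => Bx x h ⊓ C1[x]) h hh le_rfl

theorem Dx_le_iff : Dx x K ≤ T ↔ ∀ h ∈ K, Bx x h ⊓ C1[x] ≤ T := iSup₂_le_iff

theorem Dx_mono (h : U ≤ K) : Dx x U ≤ Dx x K := Dx_le_iff.2 fun _ e => le_Dx (h e)

theorem Dx_le (hx : x ∈ N[K]) : Dx x K ≤ K ⊓ C1[x] := Dx_le_iff.2 fun _ e => inf_le_inf_right _ (Bx_le hx e)

variable [Finite G]

theorem norm_Bx : x ∈ N[Bx x h] := mem_norm_of_cj_le (cj_le_iff.2 (Bx_le_iff.2 fun i => H16.mem_cj.2 (by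
  have := mul_mem (inv_mem (mem_Bx1 (x := x) (h := h))) (mem_Bx (i + 1))
  convert this using 1
  rw [pow_succ']; group)))

theorem norm_Dx : K ⊓ C1[x] ≤ N[Dx x K] := fun c hc =>
  mem_norm_of_cj_le (cj_le_iff.2 (Dx_le_iff.2 fun h e => cj_le_iff.1 (by
    rw [cj_inf, Bx_cj hc.2, cj_self hc.2]
    exact le_Dx (conj_mem (le_norm _ hc.1) e))))

theorem comm_le_of (hx : x ∈ N[K]) (h : ∀ k ∈ K, k⁻¹ * (x * k * x⁻¹) ∈ T) : ⁅K, zpowers x⁆ ≤ T := by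
  have k : ∀ i : ℕ, ∀ k ∈ K, k⁻¹ * (x ^ i * k * (x ^ i)⁻¹) ∈ T := fun i => by
    induction i with
    | zero => simp
    | succ i ih =>
      intro k hk
      convert mul_mem (ih k hk) (h _ (conj_mem (pow_mem hx i) hk)) using 1
      rw [pow_succ']; group
  refine commutator_le.2 fun a ha b hb => ?_
  obtain ⟨i, rfl⟩ := (mem_powers_iff_mem_zpowers.2 hb)
  simpa [commutatorElement_def, mul_assoc] using k i _ (K.inv_mem ha)

theorem cop (hp : p.Prime) (hx : x ^ p = 1) (hK : Pg'[p] K) : (Nat.card (zpowers x)).Coprime (Nat.card K) :=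
  (card_zpowers x ▸ ((isPiNat_compl_singleton_iff hp).1 hK).symm.coprime_dvd_left (orderOf_dvd_of_pow_eq_one hx) :)

theorem Dx_map {Y : Type*} [Group Y] (f : G →* Y) (hp : p.Prime) (hx : x ^ p = 1) (hK : Pg'[p] K)
    (hn : x ∈ N[K]) : Dx (f x) (K.map f) ≤ (Dx x K).map f := Dx_le_iff.2 (by
  rintro _ ⟨h, e, rfl⟩
  rw [← Bx_map, ← cent_zpowers, ← MonoidHom.map_zpowers, ← map_inf_centralizer_of_coprime f (zpowers_le.2 norm_Bx)
    (cop hp hx (pi_le hK (Bx_le hn e))) (Or.inl (sol_of_comm inferInstance)), cent_zpowers]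
  exact map_mono (le_Dx e))

theorem z2_not_le {X : Subgroup G} (hX : Group.IsNilpotent X) (h : ¬ X ≤ C[X]) :
    ¬ H2.commInto X (X ⊓ C[X]) (cent_symm inf_le_right) ≤ C[X] := fun hc => by
  obtain ⟨n, hn⟩ := hX.nilpotent'
  have : ∀ n, ∀ x ∈ Subgroup.upperCentralSeries X n, (x : G) ∈ C[X] := by
    intro n
    induction n with
    | zero => intro x hx; rw [show x = 1 from hx]; exact one_mem _
    | succ n ih =>
      intro x hx
      refine hc ⟨x.2, fun g hg => ⟨commutator_mem_commutator x.2 hg |> der_le X, ?_⟩⟩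
      exact ih _ (Subgroup.mem_upperCentralSeries_succ_iff.1 hx ⟨g, hg⟩)
  exact h fun x hx => this n ⟨x, hx⟩ (hn ▸ mem_top _)

/-- the case of a nilpotent group -/
theorem nilp (hp : p.Prime) (h2 : p ≠ 2) (hx : x ^ p = 1) (hK : Pg'[p] K) (hn : x ∈ N[K])
    (h0 : ⁅K, zpowers x⁆ = K) (h1 : K ⊓ C[K] ≤ C1[x]) (h3 : K ⊓ C[K] ⊓ Dx x K = ⊥) :
    H2.commInto K (K ⊓ C[K]) (cent_symm inf_le_right) ≤ C[K] := by
  set Z := K ⊓ C[K]
  have hs : Group.IsSolvable (zpowers x) := sol_of_comm inferInstance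
  have k1 : ∀ k ∈ K, ∀ z ∈ Z, z ∈ Bx x k → z = 1 := fun k hk z hz e =>
    eq_one_of_mem_bot h3 ⟨hz, le_Dx hk ⟨e, h1 hz⟩⟩
  have k2 : ∀ k ∈ K, ∀ l ∈ K, ∀ b ∈ Bx x k, ∀ z ∈ Z, z * b ∈ Bx x l → z = 1 := fun k hk l hl b hb z hz e => by
    have a1 : Bx x l ≤ N[Z] := norm_of_cent' (inf_le_right.trans (cent_anti (Bx_le hn hl)))
    have a2 : zpowers x ≤ N[Bx x k ⊓ (Z ⊔ Bx x l)] := norm_inf (zpowers_le.2 norm_Bx)
      (norm_sup (norm_of_cent' (by rwa [cent_zpowers])) (zpowers_le.2 norm_Bx))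
    have a3 : Bx x k ⊓ (Z ⊔ Bx x l) ≤ Bx x l := by
      rw [← cop_comm_sup_cent a2 (cop hp hx (pi_le hK (inf_le_left.trans (Bx_le hn hk)))) (Or.inl hs), cent_zpowers]
      refine sup_le ((commutator_mono inf_le_right le_rfl).trans (sup_comm_le ?_ (comm_le_left (zpowers_le.2 norm_Bx))
        (norm_of_cent (inf_le_right.trans (cent_anti (Bx_le hn hl)))) (le_norm _))) fun c hc => ?_
      · rw [comm_eq_bot.2 (by rwa [cent_zpowers])]; exact bot_le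
      obtain ⟨y, a4, d, a5, rfl⟩ := (mem_sup_l a1).1 hc.1.2
      have a6 : d ∈ C1[x] := (Subgroup.mul_mem_cancel_left _ (h1 a4)).1 hc.2
      rw [eq_one_of_mem_bot h3 (mem_inf.2 ⟨a4, (Subgroup.mul_mem_cancel_right _ (le_Dx hl ⟨a5, a6⟩)).1
        (le_Dx hk ⟨hc.1.1, hc.2⟩)⟩), one_mul]
      exact a5
    exact k1 l hl z hz ((Subgroup.mul_mem_cancel_right _ (a3 ⟨hb, (Subgroup.mul_mem_cancel_left _
      (mem_sup_left hz)).1 (mem_sup_right e)⟩)).1 e)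
  have gen : ∀ u, (∀ k ∈ K, Commute u (k⁻¹ * (x * k * x⁻¹))) → u ∈ C[K] := fun u hu =>
    le_cent1.1 (h0.ge.trans (comm_le_of hn fun k hk => mem_cent1.2 (hu k hk).symm))
  have hN := H2.le_norm_commInto (cent_symm (inf_le_right : Z ≤ C[K])) (zpowers_le.2 hn)
    (norm_inf (zpowers_le.2 hn) (norm_cent (zpowers_le.2 hn))) (mem_zpowers x)
  intro e he
  have zc : ∀ z ∈ Z, ∀ k ∈ K, k * z = z * k := fun z hz k hk => hz.2 k hk
  have zx : ∀ z ∈ Z, x * z * x⁻¹ = z := fun z hz => mul_inv_eq_iff_eq_mul.2 (mem_cent1.1 (h1 hz)).symm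
  obtain ⟨w, hw⟩ : ∃ w, w = e⁻¹ * (x * e * x⁻¹) := ⟨_, rfl⟩
  have w1 := hw ▸ mul_mem (inv_mem he) (conj_mem hN he)
  have w2 := conj_mem hN w1
  have w3 := conj_mem hN w2
  have w4 : ⁅w, x * w * x⁻¹⁆ = 1 := k1 e he.1 _ (w1.2 _ w2.1) (der_le _ (commutator_mem_commutator (hw ▸ mem_Bx1)
    (conj_mem norm_Bx (hw ▸ mem_Bx1))))
  have k3 : w⁻¹ * (x * (x * w * x⁻¹) * x⁻¹) ∈ C[K] := gen _ fun k hk => by
    obtain ⟨l, hl, rfl⟩ : ∃ l ∈ K, k = x * l * x⁻¹ := ⟨_, conj_mem' hn hk, by group⟩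
    clear hk
    rename' l => k, hl => hk
    obtain ⟨a, ha⟩ : ∃ a, a = k⁻¹ * (x * k * x⁻¹) := ⟨_, rfl⟩
    have a1 : a ∈ Bx x k := ha ▸ mem_Bx1
    have a2 := Bx_le hn hk a1
    have a3 := conj_mem hn a2
    rw [show (x * k * x⁻¹)⁻¹ * (x * (x * k * x⁻¹) * x⁻¹) = x * a * x⁻¹ by rw [ha]; group]
    have a4 : ⁅e⁻¹, a⁆ * (a * w) ∈ Bx x (k * e) := by
      convert mem_Bx1 (x := x) (h := k * e) using 1
      rw [ha, hw, commutatorElement_def]; group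
    have a5 := (inv_mem he).2 a a2
    have a6 := der_le _ (commutator_mem_commutator a4 (conj_mem norm_Bx a4))
    generalize ⁅e⁻¹, a⁆ = z at a4 a5 a6
    rw [show x * (z * (a * w)) * x⁻¹ = x * z * x⁻¹ * (x * a * x⁻¹ * (x * w * x⁻¹)) by group, zx z a5] at a6
    have a7 := zx _ (w2.2 _ (inv_mem a2))
    rw [show x * ⁅x * w * x⁻¹, a⁻¹⁆ * x⁻¹ = ⁅x * (x * w * x⁻¹) * x⁻¹, (x * a * x⁻¹)⁻¹⁆ by
      simp only [commutatorElement_def]; group] at a7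
    have a8 := der_le _ (commutator_mem_commutator a1 (conj_mem norm_Bx a1))
    generalize x * (x * w * x⁻¹) * x⁻¹ = w'' at *
    generalize x * w * x⁻¹ = w' at *
    generalize x * a * x⁻¹ = b at *
    have b1 := w1.2 b a3
    have b2 := w2.2 _ (inv_mem a2)
    have b3 : ⁅z * (a * w), z * (b * w')⁆ = ⁅w, b⁆ * ⁅w', a⁻¹⁆ * ⁅a, b⁆ := by
      have c1 : ∀ k ∈ K, z * k * z⁻¹ = k := fun k hk => by rw [← zc z a5 k hk, mul_inv_cancel_right]
      have c2 := mul_mem a2 w1.1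
      have c3 := mul_mem a3 w2.1
      calc ⁅z * (a * w), z * (b * w')⁆
          = z * (a * w * (z * (b * w' * (a * w)⁻¹) * z⁻¹) * (b * w')⁻¹) * z⁻¹ := by rw [commutatorElement_def]; group
        _ = a * ⁅w, b⁆ * b * ⁅w, w'⁆ * ⁅w', a⁻¹⁆ * a⁻¹ * b⁻¹ := by
          rw [c1 _ (mul_mem c3 (inv_mem c2)), c1 _ (mul_mem (mul_mem c2 (mul_mem c3 (inv_mem c2))) (inv_mem c3))]
          simp only [commutatorElement_def]; group
        _ = _ := by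
          rw [w4, mul_one, zc _ b1 a a2, mul_assoc ⁅w, b⁆, mul_assoc ⁅w, b⁆, zc _ b2 _ (mul_mem a2 a3),
            commutatorElement_def a]; group
    have b4 := k2 k hk _ (mul_mem hk he.1) _ a8 _ (mul_mem b1 b2) (b3 ▸ a6)
    rw [← a7, mul_eq_one_iff_eq_inv] at b4
    have b5 : w'' * b * w''⁻¹ = w * b * w⁻¹ := by
      rw [show w * b * w⁻¹ = ⁅w, b⁆ * b by rw [commutatorElement_def]; group, ← zc _ b1 b a3, b4,
        commutatorElement_def]; group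
    exact (show w⁻¹ * w'' * b = b * (w⁻¹ * w'') by
      rw [show w⁻¹ * w'' * b = w⁻¹ * (w'' * b * w''⁻¹) * w'' by group, b5]; group)
  have co : ∀ y ∈ zpowers x, ∀ k ∈ K, (orderOf y).Coprime (orderOf k) := fun y hy k hk =>
    ((cop hp hx hK).coprime_dvd_left (orderOf_dvd_card hy)).coprime_dvd_right (orderOf_dvd_card hk)
  have k4 : w⁻¹ * (x * (x * w * x⁻¹) * x⁻¹) ∈ Z := mem_inf.2 ⟨K.mul_mem (K.inv_mem w1.1) w3.1, k3⟩
  rw [show w⁻¹ * (x * (x * w * x⁻¹) * x⁻¹) = ⁅w⁻¹, x ^ 2⁆ by rw [commutatorElement_def, pow_two]; group] at k4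
  have k5 := commute_of_commutator_commute (Commute.pow_right (mem_cent1.1 (h1 k4)) 2)
    (co _ (pow_mem (mem_zpowers x) 2) _ k4.1)
  have k6 : Commute ⁅e⁻¹, x⁆ x := by
    obtain ⟨m, hm⟩ := hp.odd_of_ne_two h2
    have : x = (x ^ 2) ^ (m + 1) := by rw [← pow_mul, show 2 * (m + 1) = p + 1 by omega, pow_succ, hx, one_mul]
    rw [show ⁅e⁻¹, x⁆ = w by rw [hw, commutatorElement_def]; group, this]
    exact (Commute.inv_left_iff.1 k5).pow_right _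
  have k7 := Commute.inv_left_iff.1 (commute_of_commutator_commute k6 (co _ (mem_zpowers x) _ (by
    rw [show ⁅e⁻¹, x⁆ = w by rw [hw, commutatorElement_def]; group]; exact w1.1)))
  refine gen e fun k hk => mul_inv_eq_iff_eq_mul.1 ?_
  have k8 := zx _ (he.2 k hk)
  calc e * (k⁻¹ * (x * k * x⁻¹)) * e⁻¹ = (⁅e, k⁆ * k)⁻¹ * (e * x * k * (e * x)⁻¹) := by
        rw [commutatorElement_def]; group
    _ = (⁅e, k⁆ * k)⁻¹ * (x * ⁅e, k⁆ * x⁻¹ * (x * k * x⁻¹)) := by rw [k7.eq, commutatorElement_def]; group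
    _ = _ := by rw [k8]; group

end H17.Fv
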