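import Cfsg.Agent.H17.Ct2a
import Cfsg.Prelude.Def_Local

/-! Splitting of an involution centralizer over `Sym(6)`. -/

set_option autoImplicit false
open Subgroup Equiv H3S

namespace H17.Ct2

theorem core {C : Type*} [Group C] (π : C →* S6) (hs : Function.Surjective π) {t r r' : C}
    (hk : ∀ x, π x = 1 ↔ x = 1 ∨ x = t) (tc : ∀ x, x * t = t * x) (r2 : r * r = 1)
    (hr : π r = swap 0 1) (hr' : π r' = swap 3 4) (rr : r' * r = r * r') :
    ∃ ψ : S6 →* C, (∀ s, π (ψ s) = s) ∧
      ∀ c i j, i ≠ j → π (c * r * c⁻¹) = swap i j → ψ (swap i j) = c * r * c⁻¹ := by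
  have tt : t * t = 1 := by
    rcases (hk (t * t)).1 (by rw [map_mul, (hk t).2 (Or.inr rfl), one_mul]) with e | e
    · exact e
    · have : t = 1 := by simpa using e
      rw [this, one_mul]
  have sq : ∀ u, π u * swap 0 1 = swap 0 1 * π u → Commute (u * u) r := by
    intro u hu
    have : u * r * u⁻¹ * r⁻¹ = 1 ∨ u * r * u⁻¹ * r⁻¹ = t := (hk _).1 (by
      rw [map_mul, map_mul, map_mul, map_inv, map_inv, hr, hu]; group)
    rcases this with e | e
    · have : Commute u r := by
        calc u * r = (u * r * u⁻¹ * r⁻¹) * (r * u) := by group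
          _ = r * u := by rw [e, one_mul]
      exact this.mul_left this
    · have e' : u * r = t * r * u := by rw [← e]; group
      calc u * u * r = u * (u * r) := by group
        _ = (u * t) * r * u := by rw [e']; group
        _ = t * (u * r) * u := by rw [tc]; group
        _ = (t * t) * r * (u * u) := by rw [e']; group
        _ = r * (u * u) := by rw [tt, one_mul]
  have A : ∀ c, π c * swap 0 1 = swap 0 1 * π c → Commute c r := by
    intro c hc
    obtain ⟨e, he, u, -, u1, u2⟩ := sq6 _ hc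
    obtain ⟨u, rfl⟩ := hs u
    obtain ⟨e, rfl, ce⟩ : ∃ x, π x = e ∧ Commute x r := by
      simp only [List.mem_cons, List.not_mem_nil, or_false] at he
      rcases he with rfl | rfl | rfl | rfl
      · exact ⟨1, map_one _, Commute.one_left _⟩
      · exact ⟨r, hr, Commute.refl _⟩
      · exact ⟨r', hr', rr⟩
      · exact ⟨r * r', by rw [map_mul, hr, hr'], (Commute.refl r).mul_left rr⟩
    have k : Commute (c * e * (u * u)⁻¹) r := by
      rcases (hk (c * e * (u * u)⁻¹)).1 (by
        rw [map_mul, map_mul, map_inv, map_mul, u2, mul_inv_cancel]) with h | h <;> rw [h]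
      · exact Commute.one_left _
      · exact (tc r).symm
    have : c = c * e * (u * u)⁻¹ * (u * u) * e⁻¹ := by group
    rw [this]
    exact (k.mul_left (sq u u1)).mul_left ce.inv_left
  have un : ∀ c d, π (c * r * c⁻¹) = π (d * r * d⁻¹) → c * r * c⁻¹ = d * r * d⁻¹ := by
    intro c d h
    have := A (d⁻¹ * c) (by
      simp only [map_mul, map_inv, hr] at h ⊢
      calc _ = (π d)⁻¹ * (π c * swap 0 1 * (π c)⁻¹) * π c := by group
        _ = _ := by rw [h]; group)
    calc _ = d * (d⁻¹ * c * r) * c⁻¹ := by group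
      _ = _ := by rw [this.eq]; group
  have ex : ∀ i j : Fin 6, ∃ c, i ≠ j → π (c * r * c⁻¹) = swap i j := by
    intro i j
    by_cases h : i = j
    · exact ⟨1, fun h' => (h' h).elim⟩
    · obtain ⟨p, hp⟩ := isConj_iff.1 (Perm.isConj_swap (show (0 : Fin 6) ≠ 1 by decide) h)
      obtain ⟨c, rfl⟩ := hs p
      exact ⟨c, fun _ => by rw [map_mul, map_mul, map_inv, hr, hp]⟩
  choose c hc using ex
  have i2 : ∀ x : C, x * r * x⁻¹ * (x * r * x⁻¹) = 1 := fun x => by
    calc _ = x * (r * r) * x⁻¹ := by group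
      _ = 1 := by rw [r2]; group
  have cj : ∀ x y : C, x * r * x⁻¹ * (y * r * y⁻¹) * (x * r * x⁻¹) =
      (x * r * x⁻¹ * y) * r * (x * r * x⁻¹ * y)⁻¹ := fun x y => by
    rw [mul_inv_rev, inv_eq_of_mul_eq_one_right (i2 x)]; group
  obtain ⟨ψ, hψ⟩ := H7.exists_hom_transp_fin (n := 5) (fun i j => c i j * r * (c i j)⁻¹)
    (fun i j => by
      by_cases h : i = j
      · rw [h]
      · exact un _ _ (by rw [hc _ _ h, hc _ _ (Ne.symm h), swap_comm]))
    (fun i j _ => i2 _)
    (fun i j k a b d => by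
      rw [cj]
      refine un _ _ ?_
      rw [← cj, map_mul, map_mul, hc _ _ a, hc _ _ b, hc _ _ d, sw2 i j k a b d])
    (fun i j k l a b d e f g => by
      have : c i j * r * (c i j)⁻¹ * (c k l * r * (c k l)⁻¹) * (c i j * r * (c i j)⁻¹) =
          c k l * r * (c k l)⁻¹ := by
        rw [cj]
        refine un _ _ ?_
        rw [← cj, map_mul, map_mul, hc _ _ a, hc _ _ b, sw3 i j k l d e f g]
      calc _ = c i j * r * (c i j)⁻¹ * (c k l * r * (c k l)⁻¹) *
            (c i j * r * (c i j)⁻¹ * (c i j * r * (c i j)⁻¹)) := by rw [i2, mul_one]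
        _ = _ := by rw [← mul_assoc, this])
  refine ⟨ψ, id_of (f := π.comp ψ) fun i j h => ?_, fun x i j h e => ?_⟩
  · rw [MonoidHom.comp_apply, hψ i j h, hc i j h]
  · rw [hψ i j h]; exact un _ _ (by rw [hc i j h, e])

variable {G : Type*} [Group G] [Finite G] {φ : P →* G} {σ : G}

theorem ct2 (h : Hy φ σ) (hc : σ * φ r0 * σ = φ r1 ∨ σ * φ r0 * σ = φ (r1 * t0))
    (π : centralizer ({φ t0} : Set G) →* Perm (Fin 6)) (hs : Function.Surjective π)
    (hk : ∀ x, π x = 1 ↔ x.1 = 1 ∨ x.1 = φ t0) : ∃ ψ, Ps φ σ ψ := by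
  have mem : ∀ x : P, x * t0 = t0 * x → φ x ∈ centralizer ({φ t0} : Set G) := fun x hx =>
    mem_centralizer_singleton_iff.2 (by rw [← map_mul, hx, map_mul])
  have sm : σ ∈ centralizer ({φ t0} : Set G) := mem_centralizer_singleton_iff.2 (by
    calc σ * φ t0 = σ * φ t0 * (σ * σ) := by rw [h.ss, mul_one]
      _ = _ := by rw [← mul_assoc, h.st])
  let z : centralizer ({φ t0} : Set G) := ⟨φ z0, mem _ (by decide)⟩
  let r : centralizer ({φ t0} : Set G) := ⟨φ r0, mem _ (by decide)⟩
  let t : centralizer ({φ t0} : Set G) := ⟨φ t0, mem _ rfl⟩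
  let w : centralizer ({φ t0} : Set G) := ⟨σ, sm⟩
  have hk' : ∀ x, π x = 1 ↔ x = 1 ∨ x = t := fun x => by
    rw [hk, Subtype.ext_iff, Subtype.ext_iff]; rfl
  have tc : ∀ x, x * t = t * x := fun x => Subtype.ext (mem_centralizer_singleton_iff.1 x.2)
  have w2 : w * w = 1 := Subtype.ext h.ss
  have r2 : r * r = 1 := Subtype.ext (by
    change φ r0 * φ r0 = 1
    rw [← map_mul, ← map_one φ]; congr 1; decide)
  have z3 : z * z * z = 1 := Subtype.ext (by
    change φ z0 * φ z0 * φ z0 = 1
    rw [← map_mul, ← map_mul, ← map_one φ]; congr 1; decide)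
  have zz : z * (w * z * w) = w * z * w * z := Subtype.ext (by
    change φ z0 * (σ * φ z0 * σ) = σ * φ z0 * σ * φ z0
    rw [h.sz, ← map_mul, ← map_mul]; congr 1)
  have rz : r * z * r * z = 1 := Subtype.ext (by
    change φ r0 * φ z0 * φ r0 * φ z0 = 1
    rw [← map_mul, ← map_mul, ← map_mul, ← map_one φ]; congr 1; decide)
  have rz' : r * (w * z * w) = w * z * w * r := Subtype.ext (by
    change φ r0 * (σ * φ z0 * σ) = σ * φ z0 * σ * φ r0
    rw [h.sz, ← map_mul, ← map_mul]; congr 1)
  have rr : w * r * w * r = r * (w * r * w) := Subtype.ext (by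
    change σ * φ r0 * σ * φ r0 = φ r0 * (σ * φ r0 * σ)
    rcases hc with e | e <;> rw [e, ← map_mul, ← map_mul] <;> congr 1)
  have t1 : t ≠ 1 := fun e => absurd (h.inj ((congrArg Subtype.val e).trans (map_one φ).symm))
    (by decide)
  have z1' : π z ≠ 1 := fun e => by
    rcases (hk z).1 e with e | e
    · exact absurd (h.inj (e.trans (map_one φ).symm)) (by decide)
    · exact absurd (h.inj e) (by decide)
  obtain ⟨α, e1, e2, e3, e4⟩ := norm6 (π z) (π r) (π w) (by rw [← map_mul, ← map_mul, z3, map_one])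
    z1' (by rw [← map_mul, w2, map_one]) (by simpa only [map_mul] using congrArg π zz)
    (by rw [← map_mul, r2, map_one]) (by simpa only [map_mul, map_one] using congrArg π rz)
    (by simpa only [map_mul] using congrArg π rz')
  let ρ : centralizer ({φ t0} : Set G) →* S6 := α.toMonoidHom.comp π
  have hρ : ∀ x, ρ x = α (π x) := fun _ => rfl
  have kρ : ∀ x, ρ x = 1 ↔ x = 1 ∨ x = t := fun x => by rw [hρ, ← hk', MulEquiv.map_eq_one_iff]
  have e4' : ρ (w * r * w) = swap 3 4 := by rw [hρ, map_mul π, map_mul π, e4]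
  obtain ⟨ψ, p1, p2⟩ := core ρ (α.surjective.comp hs) kρ tc r2 e3 e4' rr
  have dec : ∀ x, x = ψ (ρ x) ∨ x = t * ψ (ρ x) := fun x => by
    rcases (kρ (x * (ψ (ρ x))⁻¹)).1 (by rw [map_mul, map_inv, p1, mul_inv_cancel]) with e | e
    · exact Or.inl (mul_inv_eq_one.1 e)
    · exact Or.inr (by rw [← e]; group)
  have tt : t * t = 1 := Subtype.ext (by
    change φ t0 * φ t0 = 1
    rw [← map_mul, ← map_one φ]; congr 1; decide)
  have o3 : ∀ x, x * x * x = 1 → ψ (ρ x) = x := fun x hx => by
    rcases dec x with e | e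
    · exact e.symm
    · exfalso
      have k : ψ (ρ x) * ψ (ρ x) * ψ (ρ x) = 1 := by
        rw [← map_mul, ← map_mul, ← map_mul, ← map_mul, hx, map_one, map_one]
      generalize ψ (ρ x) = y at e k
      subst e
      refine t1 ?_
      have c : Commute t y := (tc y).symm
      have k2 : (t * y) ^ 3 = 1 := by rw [← hx]; simp only [pow_succ, pow_zero, one_mul]
      have k3 : y ^ 3 = 1 := by rw [← k]; simp only [pow_succ, pow_zero, one_mul]
      rw [c.mul_pow, k3, mul_one] at k2
      simpa only [pow_succ, pow_zero, one_mul, tt] using k2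
  have wi : w⁻¹ = w := inv_eq_of_mul_eq_one_right w2
  refine ⟨(Subgroup.subtype _).comp ψ, fun a b e => ?_, fun g => ⟨fun e => ?_, ?_⟩, fun s e => ?_,
    ?_, ?_, ?_, ?_⟩
  · rw [← p1 a, ← p1 b, Subtype.ext e]
  · exact ⟨ρ ⟨g, mem_centralizer_singleton_iff.2 e⟩,
      (dec ⟨g, mem_centralizer_singleton_iff.2 e⟩).imp (congrArg Subtype.val)
        (congrArg Subtype.val)⟩
  · rintro ⟨s, rfl | rfl⟩
    · exact mem_centralizer_singleton_iff.1 (ψ s).2
    · exact mem_centralizer_singleton_iff.1 (t * ψ s).2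
  · have e' : ψ s = t := Subtype.ext e
    have : s = 1 := by rw [← p1 s, e', (kρ t).2 (Or.inr rfl)]
    rw [this, map_one] at e'
    exact t1 e'.symm
  · have := o3 z z3
    rw [hρ, e1] at this
    exact congrArg Subtype.val this
  · have := o3 (w * z * w) (by
      calc _ = w * z * (w * w) * z * (w * w) * z * w := by group
        _ = w * (z * z * z) * w := by rw [w2]; group
        _ = 1 := by rw [z3, mul_one, w2])
    rw [hρ, map_mul π, map_mul π, e2] at this
    exact (congrArg Subtype.val this).trans h.sz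
  · have := p2 1 0 1 (by decide) (by rw [one_mul, inv_one, mul_one]; exact e3)
    rw [one_mul, inv_one, mul_one] at this
    exact congrArg Subtype.val this
  · have := p2 w 3 4 (by decide) (by rw [wi]; exact e4')
    rw [wi] at this
    exact congrArg Subtype.val this

end H17.Ct2
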