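import Cfsg.Agent.H3.S8h
import Cfsg.Agent.H7.Carm

/-! Splitting of an involution centralizer over `Sym(6)`: the permutation facts. -/

set_option autoImplicit false
set_option synthInstance.maxSize 4000
set_option synthInstance.maxHeartbeats 400000
open Subgroup Equiv

namespace H17.Ct2

abbrev S6 := Perm (Fin 6)

def tb : Fin 6 → Fin 6 → Fin 6 → Fin 6 :=
  ![![![0, 1, 2, 3, 4, 5], ![0, 1, 2, 3, 4, 5], ![0, 2, 1, 4, 3, 5],
      ![0, 3, 1, 5, 2, 4], ![0, 4, 1, 3, 2, 5], ![0, 5, 1, 2, 3, 4]],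
    ![![0, 1, 2, 3, 4, 5], ![0, 1, 2, 3, 4, 5], ![0, 5, 1, 3, 2, 4],
      ![0, 4, 1, 2, 3, 5], ![0, 2, 1, 5, 3, 4], ![0, 3, 1, 4, 2, 5]],
    ![![0, 2, 1, 4, 3, 5], ![0, 5, 1, 3, 2, 4], ![0, 1, 2, 3, 4, 5],
      ![0, 1, 2, 5, 3, 4], ![0, 3, 1, 2, 4, 5], ![0, 4, 1, 5, 2, 3]],
    ![![0, 3, 1, 5, 2, 4], ![0, 4, 1, 2, 3, 5], ![0, 1, 2, 5, 3, 4],
      ![0, 1, 2, 3, 4, 5], ![0, 5, 1, 4, 2, 3], ![0, 2, 1, 3, 4, 5]],
    ![![0, 4, 1, 3, 2, 5], ![0, 2, 1, 5, 3, 4], ![0, 3, 1, 2, 4, 5],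
      ![0, 5, 1, 4, 2, 3], ![0, 1, 2, 3, 4, 5], ![0, 1, 2, 4, 3, 5]],
    ![![0, 5, 1, 2, 3, 4], ![0, 3, 1, 4, 2, 5], ![0, 4, 1, 5, 2, 3],
      ![0, 2, 1, 3, 4, 5], ![0, 1, 2, 4, 3, 5], ![0, 1, 2, 3, 4, 5]]]

def κ (i j : Fin 6) : S6 :=
  swap (tb i j 0) (tb i j 1) * swap (tb i j 2) (tb i j 3) * swap (tb i j 4) (tb i j 5)

def a0 : S6 := swap 0 1 * swap 1 2
def b0 : S6 := swap 3 4 * swap 4 5

theorem id_of {f : S6 →* S6} (h : ∀ i j, i ≠ j → f (swap i j) = swap i j) (s : S6) : f s = s := by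
  have : f = MonoidHom.id _ := MonoidHom.eq_of_eqOn_dense Perm.closure_isSwap (by
    rintro _ ⟨i, j, hij, rfl⟩
    exact h i j hij)
  rw [this]; rfl

theorem outer : ∃ β : MulAut S6, β (κ 0 1 * κ 1 2) = a0 := by
  obtain ⟨β, hβ⟩ := H7.exists_hom_transp_fin (n := 5) κ (by decide +kernel) (by decide +kernel)
    (by decide +kernel) (by unfold Commute SemiconjBy; decide +kernel)
  have d1 : ∀ i j : Fin 6, tb i j 0 ≠ tb i j 1 ∧ tb i j 2 ≠ tb i j 3 ∧ tb i j 4 ≠ tb i j 5 := by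
    decide +kernel
  have d2 : ∀ i j : Fin 6, i ≠ j → κ (tb i j 0) (tb i j 1) * κ (tb i j 2) (tb i j 3) *
      κ (tb i j 4) (tb i j 5) = swap i j := by decide +kernel
  have e : ∀ i j, i ≠ j → β (κ i j) = swap i j := fun i j h => by
    rw [κ, map_mul, map_mul, hβ _ _ (d1 i j).1, hβ _ _ (d1 i j).2.1, hβ _ _ (d1 i j).2.2, d2 i j h]
  have bb : β.comp β = MonoidHom.id _ := MonoidHom.ext (id_of fun i j h => by
    rw [MonoidHom.comp_apply, hβ i j h, e i j h])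
  refine ⟨MonoidHom.toMulEquiv β β bb bb, ?_⟩
  change β _ = _
  rw [map_mul, e 0 1 (by decide), e 1 2 (by decide), a0]

theorem ord3 : ∀ a : S6, a * a * a = 1 → a ≠ 1 →
    ∃ p : S6, p * a = a0 * p ∨ p * a = κ 0 1 * κ 1 2 * p := by decide +kernel

def Pl : List S6 := [1, a0, a0 * a0].flatMap fun x =>
  [1, b0, b0 * b0].flatMap fun y => [x * y, x * y * swap 3 4]

theorem fix0 : ∀ w : S6, w * w = 1 → a0 * (w * a0 * w) = w * a0 * w * a0 → ∀ c : S6, c * c = 1 →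
    c * a0 * c * a0 = 1 → c * (w * a0 * w) = w * a0 * w * c →
    ∃ p ∈ Pl, p * a0 = a0 * p ∧ p * (w * a0 * w) = b0 * p ∧ p * c = swap 0 1 * p ∧
      p * (w * c * w) = swap 3 4 * p := by decide +kernel

theorem norm6 (a c w : S6) (a3 : a * a * a = 1) (a1 : a ≠ 1) (w2 : w * w = 1)
    (ab : a * (w * a * w) = w * a * w * a) (c2 : c * c = 1) (ca : c * a * c * a = 1)
    (cb : c * (w * a * w) = w * a * w * c) : ∃ α : MulAut S6, α a = a0 ∧ α (w * a * w) = b0 ∧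
      α c = swap 0 1 ∧ α (w * c * w) = swap 3 4 := by
  obtain ⟨γ, hγ⟩ : ∃ γ : MulAut S6, γ a = a0 := by
    obtain ⟨p, hp | hp⟩ := ord3 a a3 a1
    · exact ⟨MulAut.conj p, by rw [MulAut.conj_apply, hp, mul_inv_cancel_right]⟩
    · obtain ⟨β, hβ⟩ := outer
      exact ⟨β * MulAut.conj p, by
        rw [MulAut.mul_apply, MulAut.conj_apply, hp, mul_inv_cancel_right, hβ]⟩
  obtain ⟨p, -, p1, p2, p3, p4⟩ := fix0 (γ w) (by rw [← map_mul, w2, map_one])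
    (by rw [← hγ]; simpa only [map_mul] using congrArg γ ab) (γ c) (by rw [← map_mul, c2, map_one])
    (by rw [← hγ]; simpa only [map_mul, map_one] using congrArg γ ca)
    (by rw [← hγ]; simpa only [map_mul] using congrArg γ cb)
  refine ⟨MulAut.conj p * γ, ?_, ?_, ?_, ?_⟩ <;>
    simp only [MulAut.mul_apply, map_mul γ, hγ, MulAut.conj_apply]
  · rw [p1, mul_inv_cancel_right]
  · rw [p2, mul_inv_cancel_right]
  · rw [p3, mul_inv_cancel_right]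
  · rw [p4, mul_inv_cancel_right]

theorem sq6 : ∀ s : S6, s * swap 0 1 = swap 0 1 * s →
    ∃ e ∈ [(1 : S6), swap 0 1, swap 3 4, swap 0 1 * swap 3 4],
    ∃ u ∈ [s * e * (s * e), swap 2 3 * swap 3 4 * swap 4 5, swap 2 3 * swap 3 5 * swap 5 4,
      swap 2 4 * swap 4 3 * swap 3 5], u * swap 0 1 = swap 0 1 * u ∧ s * e = u * u := by
  decide +kernel

theorem sw2 : ∀ i j k : Fin 6, i ≠ j → j ≠ k → i ≠ k →
    (swap i j * swap j k * swap i j : S6) = swap i k := by decide +kernel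

theorem sw3 : ∀ i j k l : Fin 6, i ≠ k → i ≠ l → j ≠ k → j ≠ l →
    (swap i j * swap k l * swap i j : S6) = swap k l := by decide +kernel

end H17.Ct2
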