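import Cfsg.Agent.H8.A8h

/-! The dihedral case of the 3-local recognition of the alternating group of degree 8. -/

set_option autoImplicit false
set_option synthInstance.maxSize 4000
set_option synthInstance.maxHeartbeats 400000
open Subgroup Equiv H8A

namespace H17.Dh8

def q0 : L0 := el 1 (swap 0 3 * swap 1 4)
def c0 : L0 := el (swap 0 1) (swap 2 3)
def Tl : List L0 := [1, r0, q0, r0 * q0, u0, u0 * r0, u0 * q0, u0 * r0 * q0]

theorem tl_mul : ∀ a ∈ Tl, ∀ b ∈ Tl, a * b ∈ Tl := by decide +kernel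
theorem tl_inv : ∀ a ∈ Tl, a⁻¹ ∈ Tl := by decide +kernel
theorem tl_pow : ∀ a ∈ Tl, a * a * (a * a) = 1 := by decide +kernel

def T0 : Subgroup L0 where
  carrier := {x | x ∈ Tl}
  mul_mem' := fun ha hb => tl_mul _ ha _ hb
  one_mem' := List.mem_cons_self
  inv_mem' := fun ha => tl_inv _ ha

theorem T0p : IsPGroup 2 T0 := fun x => ⟨2, Subtype.ext (by
  have := tl_pow x.1 x.2
  simp only [SubgroupClass.coe_pow, OneMemClass.coe_one]
  rw [← this]; norm_num [pow_succ, mul_assoc])⟩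

theorem c3 : ∀ w : L0, w * r0 = r0 * w → w * q0 = q0 * w → w * w * w = 1 →
    w = 1 ∨ w = z0 ∨ w = z0⁻¹ := by
  refine all_L0 ?_; decide +kernel

theorem nT : ∀ k : L0, k⁻¹ * r0 * k ∈ Tl → k⁻¹ * q0 * k ∈ Tl → k⁻¹ * u0 * k ∈ Tl → k ∈ Tl := by
  refine all_L0 ?_; decide +kernel

theorem inv_cj : ∀ x : L0, x * x = 1 → x ≠ 1 →
    ∃ (a : Perm (Fin 3)) (b : Perm (Fin 5)) (e : Perm.sign a * Perm.sign b = 1),
      el a b e * r0 = x * el a b e ∨ el a b e * (u0 * r0) = x * el a b e := by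
  refine all_L0 ?_; decide +kernel

def Wl : List L0 := [r0, u0, u0 * r0]

theorem pairs : ∀ x ∈ Tl, ∀ y ∈ Tl, x * x = 1 → y * y = 1 → x ≠ 1 → y ≠ 1 → x ≠ y →
    x * y = y * x → (z0 * x = x * z0 ∧ z0 * y = y * z0) ∨
      (x ∈ Wl ∧ y ∈ Wl ∧ ∀ w ∈ Wl, w = x ∨ w = y ∨ w = x * y) := by decide +kernel

variable {G : Type*} [Group G] [Finite G] {ι : L0 →* G} {s : G}

theorem nrm {S T : Subgroup G} (hS : IsPGroup 2 S) (hn : ¬ S ≤ T) :
    ∃ g ∈ S, g ∉ T ∧ ∀ x ∈ T, x ∈ S → g⁻¹ * x * g ∈ T := by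
  have : Fact (Nat.Prime 2) := ⟨Nat.prime_two⟩
  have := hS.isNilpotent
  have hlt : T.subgroupOf S < ⊤ := by
    rw [lt_top_iff_ne_top, Ne, subgroupOf_eq_top]; exact hn
  obtain ⟨g, g1, g2⟩ := SetLike.exists_of_lt (Group.normalizerCondition_of_isNilpotent _ hlt)
  refine ⟨g, g.2, g2, fun x hx hxS => ?_⟩
  have := (mem_normalizer_iff.1 (inv_mem g1) ⟨x, hxS⟩).1 hx
  simpa [mem_subgroupOf] using this

theorem no_s (h : Hy ι s) (nc : ¬ IsConj (ι r0) s) (g : G) : g * s * g⁻¹ ∉ ι.range := by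
  rintro ⟨x, hx⟩
  have x2 : x * x = 1 := h.inj (by
    rw [map_mul, map_one, hx]
    calc _ = g * (s * s) * g⁻¹ := by group
      _ = 1 := by rw [h.ss]; group)
  have x1 : x ≠ 1 := by
    rintro rfl
    have s1 : s = 1 := by
      calc s = g⁻¹ * (g * s * g⁻¹) * g := by group
        _ = 1 := by rw [← hx, map_one]; group
    have := h.sz
    rw [s1, one_mul, mul_one] at this
    exact absurd (h.inj this) (by decide)
  have hxs : IsConj (ι x) s := (isConj_iff.2 ⟨g, hx.symm⟩).symm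
  obtain ⟨a, b, e, he | he⟩ := inv_cj x x2 x1
  · refine nc (IsConj.trans (isConj_iff.2 ⟨ι (el a b e), ?_⟩) hxs)
    rw [← map_mul, he, map_mul, mul_inv_cancel_right]
  · refine nc (IsConj.trans (IsConj.trans (isConj_iff.2 ⟨s, ?_⟩)
      (isConj_iff.2 ⟨ι (el a b e), ?_⟩) (b := ι (u0 * r0))) hxs)
    · rw [h.si, h.sr]
    · rw [← map_mul, he, map_mul, mul_inv_cancel_right]

theorem dh (h : Hy ι s) (nc : ¬ IsConj (ι r0) s) :
    ¬ centralizer ({ι va, ι vb} : Set G) ≤ ι.range := by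
  intro hle
  have hC : ∀ g : G, g * ι r0 = ι r0 * g → g * ι q0 = ι q0 * g → g ∈ ι.range := by
    intro g g1 g2
    have e1 : ι va = (ι c0)⁻¹ * ι r0 * ι c0 := by
      rw [← map_inv, ← map_mul, ← map_mul]; congr 1; decide
    have e2 : ι vb = (ι c0)⁻¹ * ι q0 * ι c0 := by
      rw [← map_inv, ← map_mul, ← map_mul]; congr 1; decide
    have : (ι c0)⁻¹ * g * ι c0 ∈ ι.range := hle (by
      rw [mem_centralizer_iff]
      rintro _ (rfl | rfl)
      · rw [e1]
        calc _ = (ι c0)⁻¹ * (ι r0 * g) * ι c0 := by group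
          _ = _ := by rw [← g1]; group
      · rw [e2]
        calc _ = (ι c0)⁻¹ * (ι q0 * g) * ι c0 := by group
          _ = _ := by rw [← g2]; group)
    have e : g = ι c0 * ((ι c0)⁻¹ * g * ι c0) * (ι c0)⁻¹ := by group
    rw [e]
    exact mul_mem (mul_mem ⟨_, rfl⟩ this) (inv_mem ⟨_, rfl⟩)
  have key : ∀ g : G, Commute (ι z0) (g⁻¹ * ι r0 * g) → Commute (ι z0) (g⁻¹ * ι q0 * g) →
      g ∈ ι.range := by
    intro g g1 g2
    have cm : ∀ t : G, Commute (ι z0) (g⁻¹ * t * g) →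
        g * ι z0 * g⁻¹ * t = t * (g * ι z0 * g⁻¹) := fun t ht => by
      calc _ = g * (ι z0 * (g⁻¹ * t * g)) * g⁻¹ := by group
        _ = _ := by rw [ht.eq]; group
    obtain ⟨w, hw⟩ := hC _ (cm _ g1) (cm _ g2)
    have z3 : ι z0 * ι z0 * ι z0 = 1 := by
      rw [← map_mul, ← map_mul, ← map_one ι]; congr 1; decide
    have := c3 w (h.inj (by rw [map_mul, map_mul, hw, cm _ g1]))
      (h.inj (by rw [map_mul, map_mul, hw, cm _ g2])) (h.inj (by
        rw [map_mul, map_mul, map_one, hw]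
        calc _ = g * (ι z0 * ι z0 * ι z0) * g⁻¹ := by group
          _ = 1 := by rw [z3]; group))
    refine h.mem_of ?_
    rw [← hw]
    rcases this with rfl | rfl | rfl
    · rw [map_one]; exact one_mem _
    · exact mem_zpowers _
    · rw [map_inv]; exact inv_mem (mem_zpowers _)
  have : Fact (Nat.Prime 2) := ⟨Nat.prime_two⟩
  obtain ⟨S, hS⟩ := (T0p.map ι).exists_le_sylow
  by_cases hn : (S : Subgroup G) ≤ T0.map ι
  · have hs : IsPGroup 2 (zpowers s) := by
      rintro ⟨_, k, rfl⟩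
      refine ⟨1, Subtype.ext ?_⟩
      have : s ^ 2 = 1 := by rw [pow_two, h.ss]
      simp only [pow_one, SubgroupClass.coe_pow, OneMemClass.coe_one]
      rw [← zpow_natCast, ← zpow_mul, mul_comm, zpow_mul, zpow_natCast, this, one_zpow]
    obtain ⟨Q, hQ⟩ := hs.exists_le_sylow
    obtain ⟨g, hg⟩ := MulAction.exists_smul_eq G Q S
    refine no_s h nc g (map_le_range _ _ (hn ?_))
    rw [← hg, Sylow.coe_subgroup_smul]
    exact smul_mem_pointwise_smul s (MulAut.conj g) _ (hQ (mem_zpowers s))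
  · obtain ⟨g, -, g1, g2⟩ := nrm S.isPGroup' hn
    have g3 : ∀ t ∈ Tl, ∃ x ∈ Tl, ι x = g⁻¹ * ι t * g := fun t ht =>
      g2 _ ⟨t, ht, rfl⟩ (hS ⟨t, ht, rfl⟩)
    obtain ⟨x, hx, ex⟩ := g3 r0 (by decide)
    obtain ⟨y, hy, ey⟩ := g3 q0 (by decide)
    obtain ⟨u, hu, eu⟩ := g3 u0 (by decide)
    have mu : ∀ a b : L0, g⁻¹ * ι a * g * (g⁻¹ * ι b * g) = g⁻¹ * ι (a * b) * g := fun a b => by
      rw [map_mul]; group
    have ij : ∀ a b : L0, g⁻¹ * ι a * g = g⁻¹ * ι b * g → a = b := fun a b e =>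
      h.inj (by simpa using e)
    have o1 : ι 1 = g⁻¹ * ι 1 * g := by simp
    rcases pairs x hx y hy
      (h.inj (by rw [map_mul, ex, mu, o1]; congr 3; decide))
      (h.inj (by rw [map_mul, ey, mu, o1]; congr 3; decide))
      (by rintro rfl; exact absurd (ij _ _ (o1.symm.trans ex)) (by decide))
      (by rintro rfl; exact absurd (ij _ _ (o1.symm.trans ey)) (by decide))
      (by rintro rfl; exact absurd (ij _ _ (ex.symm.trans ey)) (by decide))
      (h.inj (by rw [map_mul, map_mul, ex, ey, mu, mu]; congr 3; decide)) with ⟨a, b⟩ | ⟨a, b, c⟩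
    · obtain ⟨k, rfl⟩ := key g (by rw [← ex, Commute, SemiconjBy, ← map_mul, ← map_mul, a])
        (by rw [← ey, Commute, SemiconjBy, ← map_mul, ← map_mul, b])
      refine g1 ⟨k, nT k ?_ ?_ ?_, rfl⟩
      · rw [← map_inv, ← map_mul, ← map_mul] at ex; rw [← h.inj ex]; exact hx
      · rw [← map_inv, ← map_mul, ← map_mul] at ey; rw [← h.inj ey]; exact hy
      · rw [← map_inv, ← map_mul, ← map_mul] at eu; rw [← h.inj eu]; exact hu
    · have sw : ∀ w ∈ Wl, ∃ w' ∈ Wl, s * ι w * s = ι w' := by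
        intro w hw
        simp only [Wl, List.mem_cons, List.not_mem_nil, or_false] at hw
        rcases hw with rfl | rfl | rfl
        · exact ⟨_, by decide, h.sr⟩
        · exact ⟨u0, by decide, by rw [h.su, mul_assoc, h.ss, mul_one]⟩
        · refine ⟨r0, by decide, ?_⟩
          rw [← h.sr]
          calc _ = s * s * ι r0 * (s * s) := by group
            _ = _ := by rw [h.ss, one_mul, mul_one]
      have zr : Commute (ι z0) (ι r0) := by
        rw [Commute, SemiconjBy, ← map_mul, ← map_mul]; congr 1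
      have zq : Commute (ι z0) (ι q0) := by
        rw [Commute, SemiconjBy, ← map_mul, ← map_mul]; congr 1
      have cw : ∀ w ∈ Wl, Commute (ι z0) (g * ι w * g⁻¹) := by
        intro w hw
        have ex' : g * ι x * g⁻¹ = ι r0 := by rw [ex]; group
        have ey' : g * ι y * g⁻¹ = ι q0 := by rw [ey]; group
        rcases c w hw with e | e | e
        · rw [e, ex']; exact zr
        · rw [e, ey']; exact zq
        · have : g * ι (x * y) * g⁻¹ = ι r0 * ι q0 := by rw [← ex', ← ey', map_mul]; group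
          rw [e, this]; exact zr.mul_right zq
      have fin : ∀ t : G, ∀ w ∈ Wl, ι w = g⁻¹ * t * g →
          Commute (ι z0) ((g * s * g⁻¹)⁻¹ * t * (g * s * g⁻¹)) := by
        intro t w hw e
        obtain ⟨w', hw', e'⟩ := sw w hw
        have : (g * s * g⁻¹)⁻¹ * t * (g * s * g⁻¹) = g * ι w' * g⁻¹ := by
          rw [← e', e]
          calc _ = g * (s⁻¹ * (g⁻¹ * t * g) * s) * g⁻¹ := by group
            _ = _ := by rw [h.si]
        rw [this]; exact cw w' hw'
      exact no_s h nc g (key _ (fin _ x a ex) (fin _ y b ey))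

end H17.Dh8
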