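import Cfsg.Agent.H17.Fv1
import Cfsg.Agent.H16.Misc

/-! Flavell: `C_{[K,x]}(x)` is generated by the subgroups `C_{[h,x]}(x)`, the induction. -/

set_option autoImplicit false
set_option linter.unusedSectionVars false

open Subgroup Cfsg H1 H16
open scoped commutatorElement

namespace H17.Fv

universe u

variable {G : Type*} [Group G] [Finite G] {K U V T X : Subgroup G} {x h c : G} {p r : ℕ}

structure Ctx (p : ℕ) (K : Subgroup G) (x : G) : Prop where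
  hp : p.Prime
  h2 : p ≠ 2
  hx : x ^ p = 1
  hs : Group.IsSolvable K
  hK : Pg'[p] K
  ht : K ⊔ zpowers x = ⊤
  hn : x ∈ N[K]
  h0 : ⁅K, zpowers x⁆ = K
  ih1 : ∀ U < K, x ∈ N[U] → ⁅U, zpowers x⁆ ⊓ C1[x] ≤ Dx x K
  ih2 : ∀ N : Subgroup G, N.Normal → N ≠ ⊥ → N ≤ K → K ⊓ C1[x] ≤ Dx x K ⊔ (N ⊓ C1[x])
  h3 : ∀ N : Subgroup G, N.Normal → N ≤ K → N ⊓ C1[x] ≤ Dx x K → N = ⊥

theorem nn (A K : Subgroup G) [K.Normal] : A ≤ N[K] := le_normalizer_of_normal

theorem Ctx.nor (H : Ctx p K x) (h1 : K ≤ N[X]) (h2 : zpowers x ≤ N[X]) : X.Normal :=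
  normalizer_eq_top_iff.1 (eq_top_iff.2 (H.ht.ge.trans (sup_le h1 h2)))

theorem Ctx.cop (H : Ctx p K x) (h : U ≤ K) : (Nat.card (zpowers x)).Coprime (Nat.card U) :=
  Fv.cop H.hp H.hx (pi_le H.hK h)

theorem zsol (x : G) {Q : Prop} : Group.IsSolvable (zpowers x) ∨ Q := Or.inl (sol_of_comm inferInstance)

theorem Ctx.central (H : Ctx p K x) (hr : r.Prime) [V.Normal] (h1 : V ≠ ⊥) (h2 : V ≤ K) (h3 : Pg[r] V)
    (h4 : K ≤ C[V]) : False := by
  have : Fact r.Prime := ⟨hr⟩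
  have kn := H.nor (le_norm K) (zpowers_le.2 H.hn)
  set Z := K ⊓ C[K] with hZ
  have z1 : Z ≤ C1[x] := by
    have := H.h3 ⁅Z, zpowers x⁆ (H.nor (norm_of_cent' ((comm_le_left (nn _ _)).trans inf_le_right))
      (norm_comm (nn _ _) (le_norm _))) ((comm_le_left (nn _ _)).trans inf_le_left) (by
        rw [← cent_zpowers, cop_abel_inf (comm_center K) (nn _ _) (H.cop inf_le_left)]; exact bot_le)
    rwa [comm_eq_bot, cent_zpowers] at this
  have z2 : Z ⊓ Dx x K = ⊥ := H.h3 _ (H.nor (norm_of_cent' (inf_le_left.trans inf_le_right))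
    (norm_of_cent' (by rw [cent_zpowers]; exact inf_le_left.trans z1))) (inf_le_left.trans inf_le_left)
    (inf_le_left.trans inf_le_right)
  have v1 : V ≤ Z := le_inf h2 (cent_symm h4)
  obtain ⟨R, r1, r2⟩ := sy_inv r (zpowers_le.2 H.hn) (H.cop le_rfl) (zsol x)
  have r3 : V ≤ R := le_hl_of_norm r1 h2 (nn _ _) h3
  rcases r1.1.lt_or_eq with r4 | r4
  · set R0 := ⁅R, zpowers x⁆ ⊔ R ⊓ Dx x K
    have a0 : R ⊓ Dx x K ≤ N[⁅R, zpowers x⁆] := inf_le_left.trans (H8.le_normalizer_commutator_left _ _)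
    have a1 : R0 ≤ R := sup_le (comm_le_left r2) inf_le_left
    have a2 : R0 ⊔ V = R := le_antisymm (sup_le a1 r3) (by
      conv_lhs => rw [← cop_comm_sup_cent r2 (H.cop r1.1) (zsol x), cent_zpowers]
      refine sup_le (le_sup_of_le_left le_sup_left) ?_
      refine (le_inf inf_le_left ((inf_le_inf_right _ r1.1).trans ((H.ih2 V ‹_› h1 h2).trans
        (sup_le_sup_left inf_le_left _)))).trans ?_
      rw [modr' r3 (Or.inl (nn _ _))]
      exact sup_le_sup_right le_sup_right _)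
    have a3 : V ≤ R0 := fun v hv => by
      have := H12.SylIn.mem_commutator_of_central ⟨r1.1, sy_pg r1, sy_not_dvd r1 hr⟩ (r3 hv)
        (H7.inf_centralizer_inf_commutator_le (zpowers_le.2 H.hn) (H.cop le_rfl)
          ⟨⟨h2 hv, (cent_zpowers x).ge (z1 (v1 hv))⟩, H.h0.ge (h2 hv)⟩) (v1 hv).2
      rw [← a2, der_sup_cent ((a1.trans r1.1).trans h4), der_eq_bot.2 (comm_iff.2 (h2.trans h4)), sup_bot_eq] at this
      exact der_le _ this
    refine h1 (eq_bot_of_le z2 (le_inf v1 fun v hv => ?_))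
    obtain ⟨a, a4, d, a5, rfl⟩ := (mem_sup_l a0).1 (a3 hv)
    exact mul_mem (H.ih1 R r4 (r2 (mem_zpowers x)) ⟨a4, (Subgroup.mul_mem_cancel_right _
      (Dx_le H.hn a5.2).2).1 (z1 (v1 hv))⟩) a5.2
  · have a1 : K ≤ C[K] := by
      by_contra hc
      exact z2_not_le (r4 ▸ sy_nil r1) hc (nilp H.hp H.h2 H.hx H.hK H.hn H.h0 z1 z2)
    refine h1 (eq_bot_of_le ?_ h2)
    rw [← H.h0, comm_eq_bot, cent_zpowers]
    exact (le_inf le_rfl a1).trans z1

theorem Ctx.nc1 (H : Ctx p K x) {S : Subgroup G} [V.Normal] (h2 : V ≤ K) (h3 : Pg[r] V) (h4 : IsMulCommutative V)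
    (h1 : V ≠ ⊥) (s1 : S ≤ K) (s2 : Pg'[r] S) (s3 : zpowers x ≤ N[S]) (s4 : V ⊓ C[S] = ⊥)
    (h5 : V ⊔ ⁅S, zpowers x⁆ < K) : False := by
  set U := ⁅S, zpowers x⁆ with hU
  have u1 : U ≤ S := comm_le_left s3
  have u2 : zpowers x ≤ N[U] := norm_comm s3 (le_norm _)
  have u3 : ⁅U, zpowers x⁆ = U := cop_comm_comm s3 (H.cop s1) (zsol x)
  have co : ∀ A ≤ S, ∀ B ≤ V, (Nat.card A).Coprime (Nat.card B) := fun A a B b =>
    H15.Cfsg.IsPiSubgroup.coprime' (pi_le s2 a) (pi_le h3 b)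
  have a1 : ⁅V, U⁆ ⊓ C1[x] ≤ Dx x K := by
    refine (inf_le_inf_right _ ?_).trans (H.ih1 _ h5 (norm_sup (nn _ _) u2 (mem_zpowers x)))
    exact (commutator_mono le_rfl (u3.ge.trans (commutator_mono le_sup_right le_rfl))).trans
      (comm_le_right (le_sup_left.trans (H8.le_normalizer_commutator_left _ _)))
  have a2 : V ⊓ C[U] ⊓ C1[x] ≤ Dx x K := by
    set W := V ⊓ C[U] ⊓ C1[x]
    have w1 : W ≤ V := inf_le_left.trans inf_le_left
    have w2 : W ≤ N[Dx x K] := (inf_le_inf_right _ (inf_le_left.trans h2)).trans norm_Dx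
    rw [← cop_comm_eq_of_cent (A := S ⊓ C1[x]) (K := W) (norm_inf (norm_inf (nn _ _) (norm_cent (inf_le_left.trans
      (H8.le_normalizer_commutator_left _ _)))) (norm_cent1 inf_le_right)) (co _ inf_le_left _ w1)
      (Or.inr (sol_of_le H.hs (w1.trans h2))) (eq_bot_of_le s4 (le_inf (inf_le_left.trans w1) (by
        conv_rhs => rw [← cop_comm_sup_cent s3 (H.cop s1) (zsol x), cent_zpowers]
        exact le_cent_sup (inf_le_left.trans (inf_le_left.trans inf_le_right)) inf_le_right)))]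
    refine (commutator_mono le_rfl ((inf_le_inf_right _ s1).trans (H.ih2 V ‹_› h1 h2))).trans
      (comm_sup_le (comm_le_right w2) ?_ (le_norm _) ((inf_le_inf_right _ h2).trans norm_Dx))
    rw [comm_eq_bot.2 (comm_cent h4 w1 inf_le_left)]; exact bot_le
  refine h1 (H.h3 V ‹_› h2 fun v hv => ?_)
  have v1 := (cop_comm_sup_cent (nn U V) (co _ u1 _ le_rfl) (Or.inr (sol_of_comm h4))).ge hv.1
  obtain ⟨a, a3, b, a4, rfl⟩ := (mem_sup_l (comm_norm h4 inf_le_left (comm_le_left (nn _ _)))).1 v1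
  obtain ⟨a', a5, b', a6, e⟩ := exists_centralizer_mul_centralizer (norm_comm (nn _ _) u2)
    (norm_inf (nn _ _) (norm_cent u2)) (H.cop (inf_le_right.trans (inf_le_left.trans h2))) (zsol x) a3 a4
    ((cent_zpowers x).ge hv.2)
  rw [cent_zpowers] at a5 a6
  exact e ▸ mul_mem (a1 a5) (a2 a6)

theorem Ctx.nc2 (H : Ctx p K x) [V.Normal] (h3 : Pg[r] V) (h4 : IsMulCommutative V)
    (hm : ∀ L : Subgroup G, L.Normal → L ≤ V → L = ⊥ ∨ L = V) (h1 : ¬ K ≤ C[V])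
    (s2 : Pg'[r] U) (u2 : zpowers x ≤ N[U]) (u3 : ⁅U, zpowers x⁆ = U) (u4 : IsMulCommutative U)
    (h5 : V ⊔ U = K) (h6 : ∀ Y : Subgroup G, Y.Normal → V < Y → Y ≤ K → Y = K) : False := by
  have h2 : V ≤ K := h5 ▸ le_sup_left
  have u1 : U ≤ K := h5 ▸ le_sup_right
  have hv : V ≤ C[V] := comm_iff.1 h4
  have u5 : U ⊓ C1[x] = ⊥ := by
    rw [← cent_zpowers, ← cop_abel_inf u4 u2 (H.cop u1), u3]
  have u6 : V ⊓ U = ⊥ := H15.Cfsg.IsPiSubgroup.inf_eq_bot h3 s2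
  obtain ⟨h, a1, a2⟩ := exists_ne_one (H := U) fun e => h1 (by rw [← h5, e, sup_bot_eq]; exact hv)
  have hU : x ∈ N[U] := u2 (mem_zpowers x)
  have a3 : h⁻¹ * (x * h * x⁻¹) ∈ U := mul_mem (inv_mem a1) (conj_mem hU a1)
  have a4 : V ⊔ Bx x h = K := by
    have b1 := sup_le h2 ((Bx_le hU a1).trans u1)
    refine h6 _ (H.nor (norm_of_der_le ?_ b1) (norm_sup (nn _ _) (zpowers_le.2 norm_Bx))) (left_lt_sup.2 fun e => a2 ?_) b1
    · rw [← h5]
      exact (der_sup_le (nn _ _)).trans (by rw [der_eq_bot.2 u4, sup_bot_eq]; exact le_sup_left)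
    · have := eq_one_of_mem_bot u6 ⟨e mem_Bx1, a3⟩
      exact eq_one_of_mem_bot u5 ⟨a1, mem_cent1.2 (by rw [inv_mul_eq_one] at this; exact eq_mul_inv_iff_mul_eq.1 this)⟩
  have hl : Hl[{r}ᶜ] U K := h5 ▸ hl_sup_right (nn _ _) (H15.Cfsg.IsPiSubgroup.compl_compl h3) s2
  have v0 : V ≠ ⊥ := fun e => h1 (by rw [e, cent_bot]; exact le_top)
  have a5 : V ≤ (V ⊓ C1[h⁻¹ * x * h]) ⊔ (V ⊓ C1[x]) := fun v hv' => by
    have b0 : h * v ∈ K := mul_mem (u1 a1) (h2 hv')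
    have b1 : V ⊔ Bx x (h * v) = K := by
      refine le_antisymm (sup_le h2 (Bx_le H.hn b0)) (a4.ge.trans (sup_le le_sup_left (Bx_le_iff.2 fun i => ?_)))
      convert mul_mem (mul_mem (mem_sup_left hv') (mem_sup_right (mem_Bx (x := x) (h := h * v) i)))
        (mem_sup_left (‹V.Normal›.conj_mem _ (inv_mem hv') (x ^ i))) using 1
      group
    have b2 : V ⊓ Bx x (h * v) = ⊥ := (hm _ (H.nor (b1.ge.trans (sup_le (comm_norm h4 le_rfl inf_le_left)
      (norm_inf (nn _ _) (le_norm _)))) (norm_inf (nn _ _) (zpowers_le.2 norm_Bx))) inf_le_left).resolve_right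
      fun e => v0 (H.h3 V ‹_› h2 ((inf_le_inf_right _ (inf_eq_left.1 e)).trans (le_Dx b0)))
    have b3 : Nat.card (Bx x (h * v)) = Nat.card U := by
      have c1 := card_sup_of_inf_bot (Or.inr (nn _ _)) b2
      rw [b1, ← h5, card_sup_of_inf_bot (Or.inr (nn _ _)) u6] at c1
      exact (Nat.eq_of_mul_eq_mul_left (card_pos' V) c1).symm
    obtain ⟨c, b4, b5⟩ := hl_inv_conj H.hs (zpowers_le.2 H.hn) (H.cop le_rfl) hl
      (hl_of_card hl (Bx_le H.hn b0) b3) u2 (zpowers_le.2 norm_Bx)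
    rw [cent_zpowers] at b4
    have b6 : c ∈ V := by
      obtain ⟨a, c1, b, c2, rfl⟩ := (mem_sup_l (nn U V)).1 (h5.ge b4.1)
      have c3 : a⁻¹ * (x * a * x⁻¹) = b * (x * b * x⁻¹)⁻¹ := by
        have := mem_cent1.1 b4.2
        calc a⁻¹ * (x * a * x⁻¹) = a⁻¹ * (x * (a * b)) * (b⁻¹ * x⁻¹) := by group
          _ = _ := by rw [← this]; group
      have c4 := eq_one_of_mem_bot u6 (mem_inf.2 ⟨c3 ▸ mul_mem (inv_mem c1) (‹V.Normal›.conj_mem _ c1 x),
        mul_mem c2 (inv_mem (conj_mem hU c2))⟩)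
      rw [eq_one_of_mem_bot u5 ⟨c2, mem_cent1.2 (eq_mul_inv_iff_mul_eq.1 (mul_inv_eq_one.1 c4))⟩, mul_one]
      exact c1
    have b7 := H16.mem_cj.1 (b5.ge mem_Bx1)
    have b8 := mul_mem hv' b6
    have b9 : (v * c)⁻¹ * (h⁻¹ * x * h * (v * c) * (h⁻¹ * x * h)⁻¹) = 1 := eq_one_of_mem_bot u6 (mem_inf.2 ⟨V.mul_mem
      (V.inv_mem b8) (‹V.Normal›.conj_mem _ b8 _), by
      convert mul_mem b7 (inv_mem a3) using 1
      rw [show c⁻¹ * ((h * v)⁻¹ * (x * (h * v) * x⁻¹)) * c = (v * c)⁻¹ * (h⁻¹ * x * h) * v * (x⁻¹ * (c * x)) * x⁻¹ by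
        group, mem_cent1.1 b4.2]
      group⟩)
    have := mul_mem (mem_sup_left (T := V ⊓ C1[x]) (mem_inf.2 ⟨b8, mem_cent1.2 (eq_mul_inv_iff_mul_eq.1
      (inv_mul_eq_one.1 b9))⟩)) (mem_sup_right (inv_mem (mem_inf.2 ⟨b6, b4.2⟩)))
    rwa [mul_inv_cancel_right] at this
  have x1 : x ≠ 1 := fun e => a2 (eq_one_of_mem_bot u5 ⟨a1, by rw [e, cent1_one]; trivial⟩)
  have : Fact p.Prime := ⟨H.hp⟩
  have x2 : Nat.card (zpowers x) = p := (card_zpowers x).trans (orderOf_eq_prime H.hx x1)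
  have a6 : V ⊓ C[U] = ⊥ := (hm _ (H.nor (h5.ge.trans (sup_le (comm_norm h4 le_rfl inf_le_left)
    (norm_inf (nn _ _) (norm_cent (le_norm _))))) (norm_inf (nn _ _) (norm_cent u2))) inf_le_left).resolve_right
    fun e => h1 (h5.ge.trans (sup_le hv (cent_symm (inf_eq_left.1 e))))
  have a7 := H2.wielandt_frob (sol_of_comm u4) u2 (H2.frob_of_prime (x2 ▸ H.hp) ((cent_zpowers x).symm ▸ u5)) V
    (sol_of_comm h4) (nn _ _) (nn _ _) (H15.Cfsg.IsPiSubgroup.coprime h3 s2) (H.cop h2).symm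
  rw [eq_bot_of_le a6 (inf_le_inf_left _ (cent_anti le_sup_left)), a6, cent_zpowers, x2] at a7
  simp only [Subgroup.card_bot, one_pow, one_mul, mul_one] at a7
  have a8 := (card_le a5).trans (Nat.le_of_dvd (Nat.mul_pos (card_pos' _) (card_pos' _))
    (card_sup_dvd (Or.inl (comm_norm h4 inf_le_left inf_le_left))))
  have a9 : V ⊓ C1[h⁻¹ * x * h] = (V ⊓ C1[x]) :^ h⁻¹ := by
    rw [cj_inf, cj_norm (nn ⊤ V trivial), ← cent1_cj, inv_inv]
  rw [a9, card_cj, a7, ← pow_two] at a8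
  have p3 : 2 < p := lt_of_le_of_ne H.hp.two_le H.h2.symm
  refine v0 (Subgroup.card_eq_one.1 ?_)
  rcases (show 1 ≤ Nat.card (V ⊓ C1[x] : Subgroup G) from card_pos' _).lt_or_eq with e | e
  · exact absurd a8 (not_le.2 (Nat.pow_lt_pow_right e p3))
  · rw [a7, ← e, one_pow]

theorem Ctx.eq_bot (H : Ctx p K x) : K = ⊥ := by
  by_contra k0
  have kn := H.nor (le_norm K) (zpowers_le.2 H.hn)
  obtain ⟨V, r, vn, v1, v2, hr, v3, -, v4, v5⟩ := exists_minimal_normal_elementary K H.hs k0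
  have : Fact r.Prime := ⟨hr⟩
  replace v4 := pg_iff.2 v4
  by_cases h1 : K ≤ C[V]
  · exact H.central hr v1 v2 v4 h1
  have hv : V ≤ C[V] := comm_iff.1 v3
  set C0 := K ⊓ C[V] with hC
  obtain ⟨E, e1, ⟨en, e2⟩, e3⟩ := exists_min_of (C := fun Y : Subgroup G => Y.Normal ∧ C0 < Y) (X := K)
    ⟨kn, inf_lt_left.2 h1⟩
  have e4 : ∀ Y : Subgroup G, Y.Normal → C0 ≤ Y → Y ≤ E → Y = C0 ∨ Y = E := fun Y a b c =>
    b.eq_or_lt.imp Eq.symm fun d => e3 Y ⟨a, d⟩ c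
  have e0 : ¬ E ≤ C[V] := fun e => e2.not_ge (le_inf e1 e)
  have e5 : ⁅E, E⁆ ≤ C0 := by
    refine (e4 (C0 ⊔ ⁅E, E⁆) inferInstance le_sup_left (sup_le e2.le (der_le _))).elim
      (fun e => le_sup_right.trans e.le) fun e => ?_
    obtain ⟨L, l1, l2, l3⟩ := exists_min_of (C := fun L : Subgroup G => C0 ⊔ L = E) (X := E) (sup_eq_right.2 e2.le)
    have l4 := l3 ⁅L, L⁆ (le_antisymm (sup_le e2.le ((der_le _).trans l1)) (e.ge.trans (sup_le le_sup_left
      (l2 ▸ der_sup_le (nn _ _))))) (der_le _)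
    by_cases l5 : L = ⊥
    · rw [l5, sup_bot_eq] at l2; exact absurd l2 e2.ne
    · exact absurd l4 (der_lt_of_nil (sol_of_le H.hs (l1.trans e1)) l5).ne
  have es := sol_of_le H.hs e1
  obtain ⟨S, s1, s2⟩ := hl_inv {r}ᶜ es (nn (zpowers x) E) (H.cop e1)
  have e6 : ∀ Y, C0 ⊔ Y = E → V ⊓ C[Y] = ⊥ := fun Y e => by
    have : V ⊓ C[Y] = V ⊓ C[E] := le_antisymm (le_inf inf_le_left (e ▸ le_cent_sup (inf_le_left.trans
      (cent_symm inf_le_right)) inf_le_right)) (inf_le_inf_left _ (cent_anti (e ▸ le_sup_right)))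
    rw [this]
    exact (v5 _ inferInstance inf_le_left).resolve_right fun e => e0 (cent_symm (inf_eq_left.1 e))
  have s3 : V ⊓ C[S] = ⊥ := by
    have b := sup_le e2.le s1.1
    refine e6 S ((e4 _ (H.nor ?_ (norm_sup (nn _ _) s2)) le_sup_left b).resolve_left fun e => ?_)
    · rw [← hl_frattini_sup es s1 e1 (nn _ _)]
      exact sup_le (norm_of_der_le (le_sup_of_le_left e5) b) (norm_sup (nn _ _) inf_le_right)
    obtain ⟨R, r1⟩ := sy_exists r E
    exact pg_inf_cent_ne_bot hr (hl_pi r1) v4 (nn _ _) v1 (e6 R (le_antisymm (sup_le e2.le r1.1)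
      ((hl_sup_compl' s1 r1).ge.trans (sup_le_sup_right (le_sup_right.trans e.le) _))))
  have s4 := s1.1.trans e1
  have u1 : ⁅S, zpowers x⁆ ≤ S := comm_le_left s2
  rcases (sup_le v2 (u1.trans s4)).lt_or_eq with h5 | h5
  · exact H.nc1 v2 v4 v3 v1 s4 (hl_pi s1) s2 s3 h5
  set U := ⁅S, zpowers x⁆ with hU
  have u2 : zpowers x ≤ N[U] := norm_comm s2 (le_norm _)
  have u3 : U ⊓ C[V] = ⊥ := H.h3 _ (H.nor (h5.ge.trans (sup_le (norm_of_cent' inf_le_right)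
    (norm_inf (le_norm _) (nn _ _)))) (norm_inf u2 (nn _ _))) (inf_le_left.trans (u1.trans s4))
    ((inf_le_inf_right _ inf_le_left).trans (H.ih1 S (s4.lt_of_ne fun e => v1 (H15.Cfsg.IsPiSubgroup.eq_bot v4
      (pi_le (hl_pi s1) (e ▸ v2)))) (s2 (mem_zpowers x))))
  have c0 : C0 = V := by rw [hC, ← h5, modl hv (Or.inr (nn _ _)), u3, sup_bot_eq]
  refine H.nc2 v4 v3 v5 h1 (pi_le (hl_pi s1) u1) u2 (cop_comm_comm s2 (H.cop s4) (zsol x)) (der_eq_bot.1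
    (eq_bot_of_le u3 (le_inf (der_le _) ((der_mono (u1.trans s1.1)).trans (e5.trans inf_le_right))))) h5
    fun Y a b c => ?_
  have ek : E = K := le_antisymm e1 (h5.ge.trans (sup_le (c0 ▸ e2.le) (u1.trans s1.1)))
  exact ek ▸ e3 Y ⟨a, c0 ▸ b⟩ (ek ▸ c)

def Good (p n : ℕ) : Prop := ∀ (G : Type u) [Group G] [Finite G] (K : Subgroup G) (x : G), Nat.card K = n →
  x ^ p = 1 → x ∈ N[K] → Group.IsSolvable K → Pg'[p] K → ⁅K, zpowers x⁆ ⊓ C1[x] ≤ Dx x K

theorem core {G : Type u} [Group G] [Finite G] {K : Subgroup G} {x : G} (hp : p.Prime) (h2 : p ≠ 2) (hx : x ^ p = 1)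
    (hs : Group.IsSolvable K) (hK : Pg'[p] K) (hn : x ∈ N[K]) (ht : K ⊔ zpowers x = ⊤) (h0 : ⁅K, zpowers x⁆ = K)
    (ih : ∀ m < Nat.card K, Good.{u} p m) : K ⊓ C1[x] ≤ Dx x K := by
  by_contra hc
  have i2 : ∀ N : Subgroup G, N.Normal → N ≠ ⊥ → N ≤ K → K ⊓ C1[x] ≤ Dx x K ⊔ (N ⊓ C1[x]) := fun N _ n1 n2 c hc => by
    have a1 : Nat.card (K.map (QuotientGroup.mk' N)) < Nat.card K := by
      rw [← card_map_mk'_mul K N, inf_eq_right.2 n2]
      exact lt_mul_of_one_lt_right (card_pos' _) ((one_lt_card_iff_ne_bot _).2 n1)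
    have a2 := ih _ a1 _ (K.map (QuotientGroup.mk' N)) (QuotientGroup.mk' N x) rfl (by rw [← map_pow, hx, map_one])
      (le_normalizer_map _ (mem_map_of_mem _ hn)) (isSolvable_map hs _) (H15.Cfsg.IsPiSubgroup.map hK _)
    rw [← MonoidHom.map_zpowers, ← map_commutator, h0] at a2
    obtain ⟨d, d1, d2⟩ := Dx_map _ hp hx hK hn (a2 ⟨mem_map_of_mem _ hc.1, mem_cent1.2 (by
      rw [← map_mul, mem_cent1.1 hc.2, map_mul])⟩)
    have := mul_mem (mem_sup_left d1) (mem_sup_right (S := Dx x K) (mem_inf.2 ⟨QuotientGroup.eq.1 d2,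
      mul_mem (inv_mem (Dx_le hn d1).2) hc.2⟩))
    rwa [mul_inv_cancel_left] at this
  have := Ctx.eq_bot ⟨hp, h2, hx, hs, hK, ht, hn, h0, fun U a b => (ih _ (card_lt a) G U x rfl hx b
    (sol_of_le hs a.le) (pi_le hK a.le)).trans (Dx_mono a.le), i2, fun N a b c => by
      by_contra d
      exact hc ((i2 N a d b).trans (sup_le le_rfl c))⟩
  exact hc (by rw [this, bot_inf_eq]; exact bot_le)

theorem good (hp : p.Prime) (h2 : p ≠ 2) (n : ℕ) : Good.{u} p n := by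
  induction n using Nat.strong_induction_on with
  | _ n ih =>
    intro G _ _ K x hc hx hn hs hK
    subst hc
    have hP := zpowers_le.2 hn
    rcases (comm_le_left hP).lt_or_eq with h0 | h0
    · have := ih _ (card_lt h0) G _ x rfl hx (norm_comm hP (le_norm _) (mem_zpowers x)) (sol_of_le hs h0.le)
        (pi_le hK h0.le)
      rw [cop_comm_comm hP (cop hp hx hK) (zsol x)] at this
      exact this.trans (Dx_mono h0.le)
    set M := K ⊔ zpowers x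
    have m1 : K ≤ M := le_sup_left
    have m2 : x ∈ M := mem_sup_right (mem_zpowers x)
    have m3 : (K.subgroupOf M).map M.subtype = K := map_subgroupOf_eq_of_le m1
    have m4 : (zpowers (⟨x, m2⟩ : M)).map M.subtype = zpowers x := MonoidHom.map_zpowers _ _
    have inj := map_injective M.subtype_injective
    have m5 : (⟨x, m2⟩ : M) ∈ N[K.subgroupOf M] := mem_norm_of_cj_le (cj_le_forall.2 fun k hk => (conj_mem hn hk :))
    have := core (K := K.subgroupOf M) (x := ⟨x, m2⟩) hp h2 (Subtype.ext hx) (isSolvable_subgroupOf hs _)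
      (H15.Cfsg.IsPiSubgroup.subgroupOf hK _) m5 (inj (by rw [Subgroup.map_sup, m3, m4, ← MonoidHom.range_eq_map,
        range_subtype])) (inj (by rw [map_commutator, m3, m4, h0])) (by rwa [card_subgroupOf_of_le m1])
    rintro c ⟨c1, c2⟩
    rw [h0] at c1
    have c3 := mem_map_of_mem M.subtype (this (x := ⟨c, m1 c1⟩) ⟨c1, mem_cent1.2 (Subtype.ext (mem_cent1.1 c2))⟩)
    refine (map_le_iff_le_comap.2 (Dx_le_iff.2 fun h e => map_le_iff_le_comap.1 ?_)) c3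
    refine (map_inf_le _ _ _).trans (le_trans (inf_le_inf (Bx_map _).le ?_) (le_Dx e))
    rintro _ ⟨a, b, rfl⟩
    exact mem_cent1.2 (congrArg Subtype.val (mem_cent1.1 b))

/-- Flavell's generation theorem -/
theorem key (hp : p.Prime) (h2 : p ≠ 2) (hx : x ^ p = 1) (hn : x ∈ N[K]) (hs : Group.IsSolvable K) (hK : Pg'[p] K) :
    ⁅K, zpowers x⁆ ⊓ C1[x] ≤ Dx x K := good hp h2 _ G K x rfl hx hn hs hK

end H17.Fv
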