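import Cfsg.Agent.H19.BS3
import Cfsg.Agent.S0205
import Cfsg.Agent.H6.Baer
import Cfsg.Agent.H16.QNil
import Cfsg.Agent.H1.Frattini
import Cfsg.Agent.H26.Gen1
import Cfsg.Agent.H9.Basic

/-! Nilpotency of terms of the lower central series from orders of commutator values. -/

set_option autoImplicit false
set_option linter.unusedSectionVars false

open Subgroup Cfsg H1 H16
open scoped commutatorElement

namespace H17.Gam

universe u

variable {G : Type*} [Group G]

inductive V : ℕ → G → Prop
  | zero (x : G) : V 0 x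
  | succ {k : ℕ} {x : G} (y : G) : V k x → V (k + 1) ⁅x, y⁆

theorem V.pred {k : ℕ} {x : G} (h : V (k + 1) x) : V k x := by
  induction k generalizing x with
  | zero => exact V.zero x
  | succ k ih => cases h with | succ y h => exact V.succ y (ih h)

theorem V.map {G' : Type*} [Group G'] (f : G →* G') {k : ℕ} {x : G} (h : V k x) : V k (f x) := by
  induction h with
  | zero x => exact V.zero _
  | succ y _ ih => rw [map_commutatorElement]; exact V.succ _ ih

theorem V.inv {k : ℕ} {x : G} (h : V k x) : V k x⁻¹ := by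
  induction h with
  | zero x => exact V.zero _
  | @succ k x y _ ih =>
    have := (V.succ y ih).map (MulAut.conj x).toMonoidHom
    convert this using 1
    simp only [commutatorElement_def, MulEquiv.coe_toMonoidHom, MulAut.conj_apply]; group

theorem V.mem {k : ℕ} {x : G} (h : V k x) : x ∈ (⊤ : Subgroup G).lowerCentralSeries k := by
  induction h with
  | zero x => trivial
  | succ y _ ih => exact commutator_mem_commutator ih trivial

theorem V.foldl {k : ℕ} {x : G} (h : V k x) (l : List G) :
    V (k + l.length) (l.foldl (fun a b => a * b * a⁻¹ * b⁻¹) x) := by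
  induction l generalizing k x with
  | nil => exact h
  | cons b l ih =>
    rw [List.foldl_cons, List.length_cons, ← add_assoc, add_right_comm]
    exact ih (V.succ b h)

theorem V.list {k : ℕ} {x : G} (h : V k x) :
    ∃ (a : G) (l : List G), l.length = k ∧ x = l.foldl (fun a b => a * b * a⁻¹ * b⁻¹) a := by
  induction h with
  | zero x => exact ⟨x, [], rfl, rfl⟩
  | succ y _ ih =>
    obtain ⟨a, l, h1, h2⟩ := ih
    exact ⟨a, l ++ [y], by simp [h1], by rw [List.foldl_append, ← h2]; rfl⟩

theorem V_iff {k : ℕ} {x : G} : V k x ↔ ∃ f : Fin (k + 1) → G,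
    x = ((List.ofFn f).tail).foldl (fun a b => a * b * a⁻¹ * b⁻¹) (f 0) := by
  constructor
  · intro h
    obtain ⟨a, l, rfl, h2⟩ := h.list
    exact ⟨Fin.cons a l.get, by simpa [List.ofFn_succ] using h2⟩
  · rintro ⟨f, rfl⟩
    have := (V.zero (f 0)).foldl (List.ofFn f).tail
    simpa using this

def Hy (k : ℕ) (G : Type*) [Group G] : Prop :=
  ∀ x : G, V k x → ∀ N : Subgroup G, x ∈ N[N] → (orderOf x).Coprime (Nat.card N) → x ∈ C[N]

theorem Hy.sub {k : ℕ} (h : Hy k G) (H : Subgroup G) : Hy k H := by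
  intro x hx N hn hc
  have := h x (hx.map H.subtype) (N.map H.subtype) (le_normalizer_map _ (mem_map_of_mem _ hn))
    (by rwa [card_map_of_injective H.subtype_injective, orderOf_coe])
  exact mem_cent.2 fun y hy => Subtype.ext (mem_cent.1 this y (mem_map_of_mem H.subtype hy))

variable [Finite G]

theorem nil_of_fit (k : ℕ) : ∀ (G : Type u) [Group G] [Finite G], Group.IsSolvable G →
    fittingSubgroup G ≤ Subgroup.upperCentralSeries G k → Group.IsNilpotent G := by
  induction k with
  | zero =>
    intro G _ _ hs h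
    rcases subsingleton_or_nontrivial G with h1 | h1
    · infer_instance
    · exact absurd (le_bot_iff.1 h) fitting_ne_bot
  | succ k ih =>
    intro G _ _ hs h
    refine Group.of_quotient_center_nilpotent (ih _ inferInstance ?_)
    rw [← comap_le_comap_of_surjective (QuotientGroup.mk'_surjective _),
      Subgroup.comap_upperCentralSeries_quotient_center,
      comap_fitting_of_ker_le_center (QuotientGroup.mk'_surjective _) (QuotientGroup.ker_mk' _).le]
    exact h

theorem solv {k : ℕ} (h : Hy k G) (hs : Group.IsSolvable G) :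
    Group.IsNilpotent ((⊤ : Subgroup G).lowerCentralSeries k) := by
  set F := fittingSubgroup G with hF
  let π := QuotientGroup.mk' F
  have hπ : Function.Surjective π := QuotientGroup.mk'_surjective F
  have key : fittingSubgroup (G ⧸ F) ≤ Subgroup.upperCentralSeries (G ⧸ F) k := by
    rw [fitting_eq_iSup_pCore, iSup_le_iff]
    rintro ⟨r, hr⟩
    have : Fact r.Prime := ⟨hr⟩
    let M := (pCore r (G ⧸ F)).comap π
    have hFM : F ≤ M := (QuotientGroup.ker_mk' F).ge.trans (ker_le_comap _ _)
    obtain ⟨R, hR⟩ := sy_exists r M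
    have hM : R ⊔ F = M := sup_eq_of_idx (π := {r}ᶜ) hR.1 hFM (hl_idx hR) (by
      rw [compl_compl]
      conv => enter [2]; rw [← QuotientGroup.ker_mk' F, relIndex_ker]
      rw [map_comap_eq_self_of_surjective hπ]
      exact pg_iff.2 (isPGroup_pCore r))
    let O := pPrimeCore r G
    have hT : M ⊓ C[O] ≤ F := by
      apply le_fitting
      let f := (QuotientGroup.mk' O).comp (M ⊓ C[O]).subtype
      have h1 : IsPGroup r f.range := by
        refine ((sy_pg hR).map (QuotientGroup.mk' O)).to_le ?_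
        rintro _ ⟨x, rfl⟩
        have h2 : M ≤ R ⊔ O := hM.ge.trans (sup_le le_sup_left
          ((fitting_le_pCore_sup_pPrimeCore r).trans (sup_le_sup_right
            (le_hl_of_norm hR ((pCore_le_fitting r).trans hFM) (by rw [normalizer_eq_top]; exact le_top)
              (pg_iff.2 (isPGroup_pCore r))) _)))
        obtain ⟨a, ha, b, hb, e⟩ := (mem_sup_r (by rw [normalizer_eq_top]; exact le_top)).1 (h2 x.2.1)
        refine ⟨a, ha, ?_⟩
        change _ = QuotientGroup.mk' O (x : G)
        rw [← e, map_mul, show QuotientGroup.mk' O b = 1 from (QuotientGroup.eq_one_iff b).2 hb, mul_one]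
      have := h1.isNilpotent
      refine Subgroup.isNilpotent_of_ker_le_center f.rangeRestrict ?_
      rw [MonoidHom.ker_rangeRestrict]
      intro x hx
      have hx' : (x : G) ∈ O := (QuotientGroup.eq_one_iff _).1 hx
      exact mem_center_iff.2 fun y => Subtype.ext (mem_cent.1 y.2.2 x hx').symm
    have step : ∀ j i, i + j = k → ∀ x ∈ R, V i x → π x ∈ Subgroup.upperCentralSeries (G ⧸ F) j := by
      intro j
      induction j with
      | zero =>
        intro i hi x hx hv
        obtain rfl : i = k := hi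
        refine (QuotientGroup.eq_one_iff x).2 (hT ⟨hR.1 hx, h x hv O (by simp [normalizer_eq_top]) ?_⟩)
        obtain ⟨n, hn⟩ := (sy_pg hR).exists_card_eq
        exact Nat.Coprime.coprime_dvd_left (hn ▸ H16.orderOf_dvd_card hx)
          (Nat.Coprime.pow_left _ (coprime_card_pPrimeCore r).symm)
      | succ j ih =>
        intro i hi x hx hv
        rw [Subgroup.mem_upperCentralSeries_succ_iff]
        intro y
        obtain ⟨g, rfl⟩ := hπ y
        obtain ⟨m, hm, n, hn, rfl⟩ := sy_frattini hR (g := g) (by simp [normalizer_eq_top])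
        rw [← hM, sup_comm] at hm
        obtain ⟨a, ha, b, hb, rfl⟩ := (mem_sup_l (by rw [normalizer_eq_top]; exact le_top)).1 hm
        rw [mul_assoc, map_mul, show π a = 1 from (QuotientGroup.eq_one_iff a).2 ha, one_mul,
          ← map_commutatorElement]
        refine ih (i + 1) (by omega) _ ?_ (V.succ _ hv)
        exact H16.comm_le_left le_rfl (commutator_mem_commutator hx (mul_mem (le_norm R hb) hn))
    intro y hy
    obtain ⟨g, rfl⟩ := hπ y
    have hg : g ∈ M := hy
    rw [← hM, sup_comm] at hg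
    obtain ⟨a, ha, b, hb, rfl⟩ := (mem_sup_l (by rw [normalizer_eq_top]; exact le_top)).1 hg
    rw [map_mul, show π a = 1 from (QuotientGroup.eq_one_iff a).2 ha, one_mul]
    exact step k 0 (by simp) b hb (V.zero b)
  have h1 := fitting_eq_top_iff.2 (nil_of_fit k _ inferInstance key)
  rw [h1, top_le_iff, ← lowerCentralSeries_eq_bot_iff_upperCentralSeries_eq_top] at key
  refine nil_of_le (K := F) inferInstance ?_
  rw [← QuotientGroup.ker_mk' F, ← Subgroup.map_eq_bot_iff, map_lowerCentralSeries,
    map_top_of_surjective _ hπ, key]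

theorem inverted {s : G} (ho : orderOf s = 2) (hP : ∀ P : Sylow 2 G, s ∉ (P : Subgroup G).normalCore) :
    ∃ t : G, t ≠ 1 ∧ Odd (orderOf t) ∧ s * t * s⁻¹ = t⁻¹ := by
  have s2 : s * s = 1 := by rw [← pow_two, ← ho, pow_orderOf_eq_one]
  by_contra hh
  push Not at hh
  obtain ⟨P⟩ := (inferInstance : Nonempty (Sylow 2 G))
  refine hP P (H6.baer_suzuki_elt (p := 2) (x := s) (fun g => ?_) P)
  obtain ⟨s', hs'⟩ : ∃ s', s' = g * s * g⁻¹ := ⟨_, rfl⟩
  have s2' : s' * s' = 1 := by
    rw [hs', show g * s * g⁻¹ * (g * s * g⁻¹) = g * (s * s) * g⁻¹ by group, s2]; group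
  rw [← hs']
  have inv1 : s * (s * s') * s⁻¹ = (s * s')⁻¹ := by
    rw [mul_inv_rev, inv_eq_of_mul_eq_one_right s2', ← mul_assoc, s2, one_mul]
  obtain ⟨j, m, hm, e⟩ := Nat.exists_eq_two_pow_mul_odd (orderOf_pos (s * s')).ne'
  have h1 : (s * s') ^ 2 ^ j = 1 := by
    by_contra hne
    refine hh _ hne ?_ (by rw [← conj_pow, inv1, inv_pow])
    rw [orderOf_pow_of_dvd (by positivity) (e ▸ Dvd.intro _ rfl), e,
      Nat.mul_div_cancel_left _ (by positivity)]
    exact hm
  have p1 : IsPGroup 2 (zpowers (s * s')) := by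
    obtain ⟨i, -, hi⟩ := (Nat.dvd_prime_pow Nat.prime_two).1 (orderOf_dvd_of_pow_eq_one h1)
    exact IsPGroup.of_card (by rw [H16.card_zpowers, hi])
  have p2 : IsPGroup 2 (zpowers s) := IsPGroup.of_card (n := 1) (by rw [H16.card_zpowers, ho]; rfl)
  refine (IsPGroup.to_sup_of_normal_right' p2 p1 (zpowers_le.2 ?_)).to_le ?_
  · apply mem_norm_of_cj_le
    rw [← zpowers_cj, inv1, zpowers_inv]
  · rw [closure_le]
    intro x hx
    rcases hx with hx | hx
    · rw [hx]; exact (le_sup_left : _ ≤ _ ⊔ zpowers (s * s')) (mem_zpowers s)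
    · rw [Set.mem_singleton_iff.1 hx]
      have : s⁻¹ * (s * s') ∈ zpowers s ⊔ zpowers (s * s') :=
        mul_mem (inv_mem ((le_sup_left : _ ≤ _ ⊔ zpowers (s * s')) (mem_zpowers s)))
          ((le_sup_right : _ ≤ zpowers s ⊔ _) (mem_zpowers _))
      rwa [inv_mul_cancel_left] at this

theorem solvable (k : ℕ) (n : ℕ) : ∀ (G : Type u) [Group G] [Finite G], Nat.card G = n → Hy k G →
    Group.IsSolvable G := by
  induction n using Nat.strong_induction_on with
  | _ n ih =>
  intro G _ _ hn h
  by_contra hns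
  have hsub : ∀ H : Subgroup G, H ≠ ⊤ → Group.IsSolvable H := fun H hH =>
    ih _ (by rw [← hn, ← card_top (G := G)]; exact card_lt (lt_top_iff_ne_top.2 hH)) H rfl (h.sub H)
  have : Nontrivial G := by
    by_contra h1
    rw [not_nontrivial_iff_subsingleton] at h1
    exact hns inferInstance
  obtain ⟨N, _, hS⟩ := H26.exists_simple_quot G
  let π := QuotientGroup.mk' N
  have hπ : Function.Surjective π := QuotientGroup.mk'_surjective N
  have π1 : ∀ x, π x = 1 ↔ x ∈ N := fun x => QuotientGroup.eq_one_iff x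
  have hNt : N ≠ ⊤ := fun e => by
    obtain ⟨x, hx⟩ := exists_ne (1 : G ⧸ N)
    obtain ⟨g, rfl⟩ := hπ x
    exact hx ((π1 g).2 (e ▸ mem_top g))
  have hNs := hsub N hNt
  have hSn : ¬ Group.IsSolvable (G ⧸ N) := fun hh =>
    hns (Group.isSolvable_of_ker_le_range N.subtype π (by simp [π]))
  have full : ∀ H : Subgroup G, H.map π = ⊤ → H = ⊤ := fun H hH => by
    by_contra hne
    have := hsub H hne
    apply hSn
    refine Group.isSolvable_of_surjective (f := π.comp H.subtype) fun y => ?_
    obtain ⟨x, hx, rfl⟩ : y ∈ H.map π := hH ▸ mem_top y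
    exact ⟨⟨x, hx⟩, rfl⟩
  have fulln : ∀ H : Subgroup G, H.Normal → ∀ x ∈ H, π x ≠ 1 → H = ⊤ := fun H hH x hx h1 =>
    full H (((hH.map π hπ).eq_bot_or_eq_top).resolve_left fun e =>
      h1 (eq_one_of_mem_bot e (mem_map_of_mem π hx)))
  have hNF : N ≤ frattini G := by
    rw [frattini, Order.radical]
    refine le_iInf₂ fun M hM => ?_
    by_contra hle
    have : M ⊔ N = ⊤ := hM.2 _ (lt_of_le_of_ne le_sup_left fun e => hle (le_sup_right.trans e.ge))
    refine hM.1 (full M ?_)
    rw [← map_top_of_surjective π hπ, ← this, Subgroup.map_sup,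
      (Subgroup.map_eq_bot_iff N).2 (QuotientGroup.ker_mk' N).ge, sup_bot_eq]
  have core : ∀ K : Subgroup (G ⧸ N), K.Normal → Group.IsSolvable K → K = ⊥ := fun K hK hs =>
    hK.eq_bot_or_eq_top.resolve_right fun e => hSn (by
      rw [e] at hs; exact Group.isSolvable_of_surjective (f := (⊤ : Subgroup (G ⧸ N)).subtype)
        fun y => ⟨⟨y, trivial⟩, rfl⟩)
  have hO : pPrimeCore 2 (G ⧸ N) = ⊥ := core _ inferInstance (Cfsg.Agent.S0205.result
    (Nat.coprime_two_right.1 (coprime_card_pPrimeCore 2)))
  have hZ : center (G ⧸ N) = ⊥ := core _ inferInstance (isSolvable_of_comm' inferInstance)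
  have two : ∀ i, ∃ w : G, V i w ∧ IsPGroup 2 (zpowers w) ∧ orderOf (π w) = 2 := by
    intro i
    induction i with
    | zero =>
      obtain ⟨P⟩ := (inferInstance : Nonempty (Sylow 2 G))
      have h2 : 2 ∣ Nat.card ((P : Subgroup G).map π) := by
        by_contra hh
        apply hSn
        apply Cfsg.Agent.S0205.result
        rw [← ((P : Subgroup G).map π).card_mul_index]
        exact (Nat.not_even_iff_odd.1 fun e => hh e.two_dvd).mul
          (Nat.not_even_iff_odd.1 fun e => (P.mapSurjective hπ).not_dvd_index e.two_dvd)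
      obtain ⟨_, ⟨w, hw, rfl⟩, ho⟩ := exists_orderOf Nat.prime_two h2
      exact ⟨w, V.zero w, P.2.to_le (zpowers_le.2 hw), ho⟩
    | succ i ih =>
      obtain ⟨w, hv, hw, ho⟩ := ih
      have hni : ¬ IsIsolatedInvolution (π w) := fun hh => by
        have := H19.zstar_center hh hO
        rw [hZ, mem_bot] at this
        simp [this] at ho
      unfold IsIsolatedInvolution at hni
      push Not at hni
      obtain ⟨g, hc, hne⟩ := hni ho
      obtain ⟨g, rfl⟩ := hπ g
      have s2 : π w * π w = 1 := by rw [← pow_two, ← ho, pow_orderOf_eq_one]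
      set s := π w with hs
      set s' := π g * s * (π g)⁻¹ with hs'
      have s2' : s' * s' = 1 := by
        rw [hs', show π g * s * (π g)⁻¹ * (π g * s * (π g)⁻¹) = π g * (s * s) * (π g)⁻¹ by group, s2]
        group
      let X := (zpowers s ⊔ zpowers s').comap π
      have hX : IsMulCommutative ↥(zpowers s ⊔ zpowers s') :=
        H9.isMulCommutative_sup_zpowers inferInstance (by
          rw [← SetLike.mem_coe]; change s' ∈ C[zpowers s]
          rw [cent_zpowers, mem_cent1]; exact hc.eq.symm)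
      have m1 : w ∈ X := (le_sup_left : _ ≤ _ ⊔ zpowers s') (mem_zpowers s)
      have m2 : g * w * g⁻¹ ∈ X := by
        change π _ ∈ zpowers s ⊔ zpowers s'
        rw [map_mul, map_mul, map_inv]
        exact (le_sup_right : _ ≤ zpowers s ⊔ _) (mem_zpowers s')
      obtain ⟨P, hP, hwP⟩ := sy_exists_ge (zpowers_le.2 m1) (pg_iff.2 hw)
      obtain ⟨x, hx, hxP⟩ := sy_conj_le hP (zpowers_le.2 m2) (by
        rw [zpowers_cj]; exact pg_iff.2 (hw.map _))
      have m3 : x * (g * w * g⁻¹) * x⁻¹ ∈ P := hxP (cj_mem (mem_zpowers _))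
      have e1 : ⁅w, x * g⁆ = w * (x * (g * w * g⁻¹) * x⁻¹)⁻¹ := by
        simp only [commutatorElement_def]; group
      have e2 : π (x * (g * w * g⁻¹) * x⁻¹) = s' := by
        have := mem_cent.1 (comm_iff.1 hX hx) s' ((le_sup_right : _ ≤ zpowers s ⊔ _) (mem_zpowers s'))
        simp only [map_mul, map_inv]
        rw [← hs, ← hs', ← this]; group
      refine ⟨⁅w, x * g⁆, V.succ _ hv, (sy_pg hP).to_le (zpowers_le.2 ?_), ?_⟩
      · rw [e1]; exact mul_mem (hwP (mem_zpowers w)) (inv_mem m3)
      · rw [e1, map_mul, map_inv, e2, inv_eq_of_mul_eq_one_right s2']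
        refine orderOf_eq_prime ?_ fun e => hne ?_
        · rw [hc.mul_pow, pow_two, pow_two, s2, s2', mul_one]
        · rw [← s2] at e; exact mul_left_cancel e
  obtain ⟨w, hv, hw, ho⟩ := two k
  have w1 : π w ≠ 1 := fun e => by simp [e] at ho
  obtain ⟨a, ha⟩ := hw.exists_card_eq
  rw [H16.card_zpowers] at ha
  have hw2 : ∀ T : Subgroup G, (Nat.card T).Coprime 2 → w ∈ N[T] → w ∈ C[T] := fun T h1 h2 =>
    h w hv T h2 (by rw [ha]; exact Nat.Coprime.pow_left _ h1.symm)
  have c1 : C[pPrimeCore 2 G] = ⊤ := fulln _ inferInstance w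
    (hw2 _ (coprime_card_pPrimeCore 2) (by simp [normalizer_eq_top])) w1
  set s := π w with hs
  have s2 : s * s = 1 := by rw [← pow_two, ← ho, pow_orderOf_eq_one]
  obtain ⟨t, t1, tod, ti⟩ := inverted ho fun P hP => by
    rw [core (P : Subgroup (G ⧸ N)).normalCore inferInstance (by
      have := (P.2.to_le (normalCore_le _)).isNilpotent; infer_instance), mem_bot] at hP
    exact w1 hP
  let M := (zpowers t).comap π
  have hNM : N ≤ M := (QuotientGroup.ker_mk' N).ge.trans (ker_le_comap _ _)
  have hMs : Group.IsSolvable M := hsub M fun e => hSn (by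
    have : zpowers t = ⊤ := by rw [← map_comap_eq_self_of_surjective hπ (zpowers t)]; exact
      (congrArg (Subgroup.map π) e).trans (map_top_of_surjective _ hπ)
    have : IsCyclic (G ⧸ N) := isCyclic_iff_exists_zpowers_eq_top.2 ⟨t, this⟩
    exact isSolvable_of_comm' inferInstance)
  have wM : w ∈ N[M] := by
    apply mem_norm_of_cj_le
    rw [cj_le_forall]
    intro y hy
    change π _ ∈ zpowers t
    have : s ∈ N[zpowers t] := mem_norm_of_cj_le (by rw [← zpowers_cj, ti, zpowers_inv])
    rw [map_mul, map_mul, map_inv]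
    exact conj_mem this hy
  obtain ⟨T, hT⟩ := hl_exists ({2}ᶜ) hMs
  have Tc : (Nat.card T).Coprime 2 := H15.Cfsg.IsPiSubgroup.coprime_p (hl_pi hT)
  have hM : N ⊔ T = M := sup_eq_of_idx (π := {2}ᶜ) hNM hT.1 (by
    conv => enter [2]; rw [← QuotientGroup.ker_mk' N, relIndex_ker]
    rw [map_comap_eq_self_of_surjective hπ]
    exact H15.isPi_compl_of_coprime (by rw [H16.card_zpowers]; exact Nat.coprime_two_right.2 tod))
    (hl_idx hT)
  obtain ⟨u, hu, ut⟩ : ∃ u ∈ T, π u = t := by
    obtain ⟨y, rfl⟩ := hπ t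
    have : y ∈ M := mem_zpowers _
    rw [← hM] at this
    obtain ⟨a, ha, b, hb, rfl⟩ := (mem_sup_l (by rw [normalizer_eq_top]; exact le_top)).1 this
    exact ⟨b, hb, by rw [map_mul, (π1 a).2 ha, one_mul]⟩
  have c2 : C[pCore 2 G] = ⊤ := by
    obtain ⟨m, hm, n, hn, e⟩ := hl_frattini hMs hT wM
    have ni : π n * t * (π n)⁻¹ = t⁻¹ := by
      obtain ⟨i, hi⟩ : π m ∈ zpowers t := hm
      have : π n = (π m)⁻¹ * s := by rw [hs, e, map_mul]; group
      rw [this, ← hi]
      calc _ = (t ^ i)⁻¹ * (s * t * s⁻¹) * t ^ i := by group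
        _ = _ := by rw [ti]; group
    have : ∀ i, ∃ v ∈ T, V i v ∧ π v = t ^ 2 ^ i := by
      intro i
      induction i with
      | zero => exact ⟨u, hu, V.zero u, by simpa using ut⟩
      | succ i ih =>
        obtain ⟨v, h1, h2, h3⟩ := ih
        refine ⟨⁅v, n⁆, H16.comm_le_left le_rfl (commutator_mem_commutator h1 hn), V.succ _ h2, ?_⟩
        rw [map_commutatorElement, commutatorElement_def, h3, mul_assoc, mul_assoc, ← mul_assoc (π n),
          ← inv_pow, ← conj_pow, ← conj_inv, ni, inv_inv, ← pow_add, pow_succ, mul_two]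
    obtain ⟨v, h1, h2, h3⟩ := this k
    refine fulln _ inferInstance v (h v h2 _ (by simp [normalizer_eq_top]) ?_) ?_
    · obtain ⟨j, hj⟩ := (isPGroup_pCore (G := G) 2).exists_card_eq
      rw [hj]
      exact Nat.Coprime.pow_right _ (Nat.Coprime.coprime_dvd_left (H16.orderOf_dvd_card h1) Tc)
    · rw [h3]
      intro e
      have := (Nat.Coprime.pow_right k (Nat.coprime_two_right.2 tod)).eq_one_of_dvd
        (orderOf_dvd_of_pow_eq_one e)
      exact t1 (orderOf_eq_one_iff.1 this)
  have hNZ : (⊤ : Subgroup G) ≤ C[N] := (le_cent_sup c2.ge c1.ge).trans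
    (cent_anti (hNF.trans (frattini_le_fitting.trans (fitting_le_pCore_sup_pPrimeCore 2))))
  have wT : w ∈ N[T] := norm_hl_of_normal hT
    (hM.ge.trans (sup_le (norm_of_cent (cent_symm (le_top.trans hNZ))) (le_norm T))) wM
  have := congrArg π (mem_cent.1 (hw2 T Tc wT) u hu)
  rw [map_mul, map_mul, ut, ← hs] at this
  rw [← this, mul_inv_cancel_right] at ti
  have : t ^ 2 = 1 := by rw [pow_two]; nth_rewrite 1 [ti]; simp
  exact t1 (orderOf_eq_one_iff.1 ((Nat.coprime_two_right.2 tod).eq_one_of_dvd
    (orderOf_dvd_of_pow_eq_one this)))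

theorem main (k : ℕ) : Group.IsNilpotent ((⊤ : Subgroup G).lowerCentralSeries k) ↔
    ∀ x y : G, V k x → V k y → (orderOf x).Coprime (orderOf y) →
      (∀ r : ℕ, r.Prime → r ∣ orderOf x * orderOf y → r ∣ orderOf (x * y)) ∨
        orderOf x * orderOf y ≤ orderOf (x * y) := by
  constructor
  · intro h x y hx hy hc
    right
    have := commute_of_coprime_orderOf (G := (⊤ : Subgroup G).lowerCentralSeries k)
      (a := ⟨x, hx.mem⟩) (b := ⟨y, hy.mem⟩) (by rwa [← orderOf_coe, ← orderOf_coe])
    have h2 : Commute x y := congrArg Subtype.val this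
    exact (h2.orderOf_mul_eq_mul_orderOf_of_coprime hc).ge
  · intro h
    have hy : Hy k G := by
      intro x hx N hn hc
      rw [mem_cent]
      intro y hy
      have m : ⁅x, y⁆ ∈ N := mul_mem (conj_mem hn hy) (inv_mem hy)
      have hc' : (orderOf x⁻¹).Coprime (orderOf ⁅x, y⁆) := by
        rw [orderOf_inv]; exact Nat.Coprime.coprime_dvd_right (H16.orderOf_dvd_card m) hc
      have e : orderOf (x⁻¹ * ⁅x, y⁆) = orderOf x⁻¹ := by
        rw [← orderOf_cj x⁻¹ y]; congr 1; simp only [commutatorElement_def]; group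
      have : orderOf ⁅x, y⁆ = 1 := by
        rcases h _ _ hx.inv (V.succ y hx).pred hc' with h1 | h1
        · rw [e] at h1
          by_contra hne
          obtain ⟨r, hr, hd⟩ := Nat.exists_prime_and_dvd hne
          exact hr.one_lt.ne' ((Nat.Coprime.coprime_dvd_left (h1 r hr (hd.mul_left _))
            hc').eq_one_of_dvd hd)
        · rw [e] at h1
          have := orderOf_pos x⁻¹
          have := orderOf_pos ⁅x, y⁆
          nlinarith
      exact (commutatorElement_eq_one_iff_mul_comm.1 (orderOf_eq_one_iff.1 this)).symm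
    exact solv hy (solvable k _ G rfl hy)

end H17.Gam
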