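import Cfsg.Agent.H12.Crit
import Cfsg.Agent.H4.Replace

/-! Replacement tools for abelian subgroups of largest order. -/

set_option autoImplicit false
set_option linter.unusedSectionVars false

namespace H17.Jt

open Subgroup Cfsg H4 H12
open scoped commutatorElement

variable {G : Type*} [Group G] [Finite G] {S A : Subgroup G}

theorem comm_of_max (hA : A ∈ maxAb 0 S) {a b : G} (ha : a ∈ A) (hb : b ∈ A) : a * b = b * a :=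
  elemAb_comm (maxAb_elemAb hA) ha hb

theorem mem_of_cent (hA : A ∈ maxAb 0 S) {x : G} (hx : x ∈ S) (h : ∀ a ∈ A, a * x = x * a) :
    x ∈ A := mem_of_mem_maxAb hA hx (pow_zero x) h

theorem elemAb0 {M : Subgroup G} (hM : ∀ x ∈ M, ∀ y ∈ M, x * y = y * x) :
    IsElementaryAbelian 0 M := elemAb_iff.2 ⟨hM, fun a _ => pow_zero a⟩

/-- the counting lemma behind replacement -/
theorem repl (hA : A ∈ maxAb 0 S) {M : Subgroup G} (hMS : M ≤ S)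
    (hM : ∀ x ∈ M, ∀ y ∈ M, x * y = y * x) (φ : G → G) (h1 : ∀ a ∈ A, φ a ∈ M)
    (h2 : ∀ a ∈ A, ∀ b ∈ A, (φ a)⁻¹ * φ b ∈ A → a⁻¹ * b ∈ 𝒞 M) :
    M ⊔ (A ⊓ 𝒞 M) ∈ maxAb 0 S ∧ ∀ m ∈ M, ∃ a ∈ A, (φ a)⁻¹ * m ∈ A := by
  classical
  set C := A ⊓ 𝒞 M with hC
  let f : A ⧸ C.subgroupOf A → M ⧸ A.subgroupOf M := fun q =>
    QuotientGroup.mk ⟨φ (q.out : A), h1 _ (q.out).2⟩
  have hf : Function.Injective f := by
    intro q r h
    have h3 := QuotientGroup.eq.1 h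
    rw [mem_subgroupOf] at h3
    rw [← QuotientGroup.out_eq' q, ← QuotientGroup.out_eq' r, QuotientGroup.eq, mem_subgroupOf]
    exact ⟨((q.out)⁻¹ * r.out).2, h2 _ (q.out).2 _ (r.out).2 h3⟩
  have hab : IsElementaryAbelian 0 (M ⊔ C : Subgroup G) :=
    elemAb_sup (elemAb0 hM) (elemAb_of_le hA.2.1 inf_le_left) (le_centralizer_iff.1 inf_le_right)
  have hle : M ⊔ C ≤ S := sup_le hMS (inf_le_left.trans hA.1)
  have e1 := H1.card_sup_mul_card_inf (H := M) (N := C)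
    (le_normalizer_of_le_centralizer (le_centralizer_iff.1 inf_le_right))
  have e2 : M ⊓ C = A ⊓ M := by
    ext x
    exact ⟨fun h => ⟨h.2.1, h.1⟩, fun h => ⟨h.2, h.1, fun y hy => hM y hy x h.2⟩⟩
  have e3 := card_eq_card_quotient_mul_card_subgroup (C.subgroupOf A)
  have e4 := card_eq_card_quotient_mul_card_subgroup (A.subgroupOf M)
  rw [Nat.card_congr (subgroupOfEquivOfLe (inf_le_left : C ≤ A)).toEquiv] at e3
  have e5 : Nat.card (A.subgroupOf M) = Nat.card (A ⊓ M : Subgroup G) := by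
    rw [← inf_subgroupOf_right, Nat.card_congr (subgroupOfEquivOfLe inf_le_right).toEquiv]
  rw [e5] at e4
  rw [e2, e4] at e1
  have p1 : 0 < Nat.card (A ⊓ M : Subgroup G) := Nat.card_pos
  have p2 : 0 < Nat.card C := Nat.card_pos
  have e6 : Nat.card (M ⊔ C : Subgroup G) = Nat.card (M ⧸ A.subgroupOf M) * Nat.card C :=
    Nat.eq_of_mul_eq_mul_right p1 (by rw [e1]; ring)
  have i1 := Nat.card_le_card_of_injective f hf
  have i2 := maxAb_card_le hA hle hab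
  refine ⟨maxAb_of_card_le hA hle hab (by rw [e6, e3]; exact Nat.mul_le_mul_right _ i1), ?_⟩
  have i3 : Nat.card (M ⧸ A.subgroupOf M) ≤ Nat.card (A ⧸ C.subgroupOf A) :=
    Nat.le_of_mul_le_mul_right (by rw [← e6, ← e3]; exact i2) p2
  have hb := (Nat.bijective_iff_injective_and_card f).2 ⟨hf, le_antisymm i1 i3⟩
  intro m hm
  obtain ⟨q, hq⟩ := hb.2 (QuotientGroup.mk ⟨m, hm⟩)
  exact ⟨_, (q.out).2, mem_subgroupOf.1 (QuotientGroup.eq.1 hq)⟩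

/-- `[x, A]` -/
def cm (x : G) (A : Subgroup G) : Subgroup G := closure {y | ∃ a ∈ A, y = ⁅x, a⁆}

theorem mem_cm {x a : G} (ha : a ∈ A) : ⁅x, a⁆ ∈ cm x A := subset_closure ⟨a, ha, rfl⟩

theorem cm_le {x : G} {K : Subgroup G} : cm x A ≤ K ↔ ∀ a ∈ A, ⁅x, a⁆ ∈ K := by
  rw [cm, closure_le]
  exact ⟨fun h a ha => h ⟨a, ha, rfl⟩, by rintro h _ ⟨a, ha, rfl⟩; exact h a ha⟩

theorem cc_mem_cm {x a b : G} (ha : a ∈ A) (hb : b ∈ A) : ⁅⁅x, b⁆, a⁆ ∈ cm x A := by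
  have : ⁅⁅x, b⁆, a⁆ = ⁅x, b⁆ * (⁅x, a * b⁆)⁻¹ * ⁅x, a⁆ := by
    simp only [commutatorElement_def]; group
  rw [this]
  exact mul_mem (mul_mem (mem_cm hb) (inv_mem (mem_cm (A.mul_mem ha hb)))) (mem_cm ha)

theorem cm_comm_of {x : G} (h : ∀ a ∈ A, ∀ b ∈ A, ⁅x, a⁆ * ⁅x, b⁆ = ⁅x, b⁆ * ⁅x, a⁆) :
    ∀ u ∈ cm x A, ∀ v ∈ cm x A, u * v = v * u := by
  have := elemAb_closure (n := 0) (S := {y | ∃ a ∈ A, y = ⁅x, a⁆})
    (by rintro _ ⟨a, ha, rfl⟩ _ ⟨b, hb, rfl⟩; exact h a ha b hb) (fun a _ => pow_zero a)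
  exact fun u hu v hv => elemAb_comm this hu hv

/-- symmetric double commutators, general form -/
theorem cc_eq {x a b : G} (h : a * b = b * a) :
    ⁅x, a⁆ * ⁅⁅x, b⁆, a⁆⁻¹ * ⁅x, b⁆ = ⁅x, b⁆ * ⁅⁅x, a⁆, b⁆⁻¹ * ⁅x, a⁆ := by
  have e1 : ⁅x, a⁆ * ⁅⁅x, b⁆, a⁆⁻¹ * ⁅x, b⁆ = ⁅x, a * b⁆ := by
    simp only [commutatorElement_def]; group
  have e2 : ⁅x, b⁆ * ⁅⁅x, a⁆, b⁆⁻¹ * ⁅x, a⁆ = ⁅x, b * a⁆ := by
    simp only [commutatorElement_def]; group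
  rw [e1, e2, h]

theorem cc_symm {x a b : G} {M : Subgroup G} (hM : ∀ u ∈ M, ∀ v ∈ M, u * v = v * u)
    (h : a * b = b * a) (h1 : ⁅x, a⁆ ∈ M) (h2 : ⁅x, b⁆ ∈ M) (h3 : ⁅⁅x, b⁆, a⁆ ∈ M)
    (h4 : ⁅⁅x, a⁆, b⁆ ∈ M) : ⁅⁅x, a⁆, b⁆ = ⁅⁅x, b⁆, a⁆ := by
  have e := cc_eq (x := x) h
  rw [hM _ h1 _ (inv_mem h3), hM _ h2 _ (inv_mem h4), mul_assoc, mul_assoc, hM _ h1 _ h2] at e
  exact (inv_injective (mul_right_cancel e)).symm

/-- Thompson's replacement lemma -/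
theorem thompson (hA : A ∈ maxAb 0 S) {x : G} (hx : x ∈ S)
    (hM : ∀ u ∈ cm x A, ∀ v ∈ cm x A, u * v = v * u) :
    cm x A ⊔ (A ⊓ 𝒞 (cm x A)) ∈ maxAb 0 S ∧ ∀ m ∈ cm x A, ∃ a ∈ A, ⁅x, a⁆⁻¹ * m ∈ A := by
  refine repl hA (cm_le.2 fun a ha => ?_) hM (fun a => ⁅x, a⁆) (fun a ha => mem_cm ha) ?_
  · rw [commutatorElement_def]
    exact mul_mem (mul_mem (mul_mem hx (hA.1 ha)) (inv_mem hx)) (inv_mem (hA.1 ha))
  · intro a ha b hb h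
    have hc : a⁻¹ * b ∈ A := mul_mem (inv_mem ha) hb
    have h1 : ⁅x, a⁻¹ * b⁆ ∈ A := by
      have : ⁅x, a⁻¹ * b⁆ = a⁻¹ * (⁅x, a⁆⁻¹ * ⁅x, b⁆) * a := by
        simp only [commutatorElement_def]; group
      rw [this]; exact mul_mem (mul_mem (inv_mem ha) h) ha
    refine (zpowers_le.1 (le_centralizer_iff.1 (cm_le.2 fun d hd => ?_)))
    rw [mem_centralizer_zpowers]
    have h2 := cc_symm hM (comm_of_max hA hc hd) (mem_cm hc) (mem_cm hd) (cc_mem_cm hc hd)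
      (cc_mem_cm hd hc)
    rw [commutatorElement_eq_one_iff_mul_comm.2 (comm_of_max hA h1 hd)] at h2
    exact (commutatorElement_eq_one_iff_mul_comm.1 h2.symm).symm

/-- Timmesfeld's replacement for an abelian `V` -/
theorem timm (hA : A ∈ maxAb 0 S) {V : Subgroup G} (hV : ∀ u ∈ V, ∀ v ∈ V, u * v = v * u)
    (hVS : V ≤ S) (hAV : A ≤ 𝒩 V) : ⁅V, A⁆ ⊔ (A ⊓ 𝒞 (⁅V, A⁆ : Subgroup G)) ∈ maxAb 0 S := by
  have hV' := elemAb0 hV
  have hb := bestOffender_of_mem_maxAb hV' hVS hA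
  obtain ⟨h1, h2⟩ := replacement_eq hV'.1 hAV hb.2.1 hb.1 le_rfl
  set X := ⁅V, A⁆ with hX
  set A' := A ⊓ centralizer (X : Set G) with hA'
  have hXV : X ≤ V := commutator_le_of_le_normalizer hAV
  have h5 : IsElementaryAbelian 0 (X ⊔ A' : Subgroup G) :=
    elemAb_sup (elemAb_of_le hV' hXV) (elemAb_of_le hA.2.1 inf_le_left)
      (le_centralizer_iff.1 inf_le_right)
  refine maxAb_of_card_le hA (sup_le (hXV.trans hVS) (inf_le_left.trans hA.1)) h5 ?_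
  have hC : V ⊓ centralizer (A : Set G) ≤ A := fun v hv =>
    mem_of_mem_maxAb hA (hVS hv.1) (pow_zero v) hv.2
  have h6 : X ⊓ A' ≤ X ⊓ (V ⊓ centralizer (A : Set G)) :=
    le_inf inf_le_left (le_inf (inf_le_left.trans hXV)
      ((inf_le_right.trans inf_le_left).trans (elemAb_le_centralizer hA.2.1)))
  have h7 := H1.card_sup_mul_card_inf (H := X) (N := A')
    (le_normalizer_of_le_centralizer (le_centralizer_iff.1 inf_le_right))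
  have h8 := H1.card_sup_mul_card_inf (H := X) (N := V ⊓ centralizer (A : Set G))
    (hXV.trans (le_normalizer_of_le_abelian hV'.1 inf_le_left))
  rw [meas, meas, h1] at h2
  have h9 := card_le_of_le h6
  have p1 : 0 < Nat.card (X ⊓ A' : Subgroup G) := Nat.card_pos
  have p2 : 0 < Nat.card (V ⊓ centralizer (A : Set G) : Subgroup G) := Nat.card_pos
  refine Nat.le_of_mul_le_mul_right (c := Nat.card (X ⊓ A' : Subgroup G) *
    Nat.card (V ⊓ centralizer (A : Set G) : Subgroup G)) ?_ (Nat.mul_pos p1 p2)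
  calc _ = Nat.card A * Nat.card (V ⊓ centralizer (A : Set G) : Subgroup G) *
        Nat.card (X ⊓ A' : Subgroup G) := by ring
    _ ≤ Nat.card A' * Nat.card (X ⊔ V ⊓ centralizer (A : Set G) : Subgroup G) *
        Nat.card (X ⊓ (V ⊓ centralizer (A : Set G)) : Subgroup G) := by
        rw [h2]; exact Nat.mul_le_mul_left _ h9
    _ = _ := by rw [mul_assoc, h8, ← mul_assoc, ← mul_assoc, h7, mul_comm (Nat.card A')]

/-- nilpotent action -/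
theorem nil {p : ℕ} [Fact p.Prime] (hS : IsPGroup p S) (hAS : A ≤ S) {Y L : Subgroup G}
    (hY : Y ≤ S) (hA : A ≤ 𝒩 Y) (h : ¬ Y ≤ L) : ∃ y ∈ Y, y ∉ L ∧ ∀ a ∈ A, ⁅y, a⁆ ∈ L := by
  obtain ⟨U, ⟨h1, h2⟩, h3, hmin⟩ :=
    H1.exists_minimal_le (fun U : Subgroup G => A ≤ 𝒩 U ∧ ¬ U ≤ L) (N := Y) ⟨hA, h⟩
  have hK : IsPGroup p (U ⊔ A : Subgroup G) := hS.to_le (sup_le (h3.trans hY) hAS)
  have hlt := H1.commutator_lt_of_isNilpotent (N := U) (K := U ⊔ A) hK.isNilpotent le_sup_left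
    (sup_le le_normalizer h1) (fun e => h2 (e ▸ bot_le))
  have h4 : ⁅U, A⁆ < U := (commutator_mono le_rfl le_sup_right).trans_lt hlt
  have h5 : ⁅U, A⁆ ≤ L := by
    by_contra h6
    exact h4.ne (hmin _ ⟨le_normalizer_of_commutator_le h4.le le_rfl, h6⟩ h4.le)
  obtain ⟨y, hy, hyL⟩ := SetLike.not_le_iff_exists.1 h2
  exact ⟨y, h3 hy, hyL, fun a ha => h5 (commutator_mem_commutator hy ha)⟩

theorem cN {N : Subgroup G} [hN : N.Normal] {x : G} (hx : x ∈ N) (a : G) : ⁅x, a⁆ ∈ N := by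
  rw [commutatorElement_def, mul_assoc, mul_assoc, ← mul_assoc a]
  exact mul_mem hx (hN.conj_mem _ (inv_mem hx) a)

/-- the next term of the upper series -/
def up (R K L : Subgroup G) : Subgroup G := R ⊓ commSub K L

section Up
variable {R N K L Y : Subgroup G} [hN : N.Normal]

theorem up_le : up R K L ≤ R := inf_le_left

theorem mem_up (h1 : ∀ x ∈ R, ∀ y ∈ R, ⁅x, y⁆ ∈ N) (h2 : N ≤ L) (h3 : L ≤ R) {x : G} :
    x ∈ up R K L ↔ x ∈ R ∧ ∀ a ∈ K, ⁅x, a⁆ ∈ L := by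
  refine ⟨fun h => ⟨h.1, h.2.2⟩, fun h => ⟨h.1, ?_, h.2⟩⟩
  refine (?_ : R ≤ 𝒩 L) h.1
  exact le_normalizer_of_commutator_le h3 (commutator_le.2 fun x hx y hy => h2 (h1 x hx y hy))

theorem le_up (h1 : ∀ x ∈ R, ∀ y ∈ R, ⁅x, y⁆ ∈ N) (h2 : N ≤ L) (h3 : L ≤ R) : N ≤ up R K L :=
  fun x hx => (mem_up h1 h2 h3).2 ⟨h3 (h2 hx), fun a _ => h2 (cN hx a)⟩

theorem comm_up_le : ⁅up R K L, K⁆ ≤ L := commutator_le.2 fun _ hx a ha => hx.2.2 a ha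

theorem iter3 [R.Normal] (h1 : ∀ x ∈ R, ∀ y ∈ R, ⁅x, y⁆ ∈ N) (h2 : N ≤ L) (h3 : L ≤ R)
    (hY : Y ≤ R) (h : ∀ y ∈ Y, ∀ a ∈ K, ∀ b ∈ K, ∀ c ∈ K, ⁅⁅⁅y, a⁆, b⁆, c⁆ ∈ L) :
    iterCommutator Y K 3 ≤ L := by
  have hR : ∀ x ∈ R, ∀ a : G, ⁅x, a⁆ ∈ R := fun x hx a =>
    cN hx a
  have k1 : ⁅Y, K⁆ ≤ up R K (up R K L) := commutator_le.2 fun y hy a ha =>
    (mem_up h1 (le_up h1 h2 h3) up_le).2 ⟨hR _ (hY hy) a, fun b hb =>
      (mem_up h1 h2 h3).2 ⟨hR _ (hR _ (hY hy) a) b, h y hy a ha b hb⟩⟩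
  exact (commutator_mono ((commutator_mono k1 le_rfl).trans comm_up_le) le_rfl).trans comm_up_le

theorem iter4 [R.Normal] (h1 : ∀ x ∈ R, ∀ y ∈ R, ⁅x, y⁆ ∈ N) (h2 : N ≤ L) (h3 : L ≤ R)
    (hY : Y ≤ R) (h : ∀ y ∈ Y, ∀ a ∈ K, ∀ b ∈ K, ∀ c ∈ K, ∀ d ∈ K, ⁅⁅⁅⁅y, a⁆, b⁆, c⁆, d⁆ ∈ L) :
    iterCommutator Y K 4 ≤ L := by
  have hR : ∀ x ∈ R, ∀ a : G, ⁅x, a⁆ ∈ R := fun x hx a =>
    cN hx a
  have k1 : iterCommutator Y K 3 ≤ up R K L :=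
    iter3 h1 (le_up h1 h2 h3) up_le hY fun y hy a ha b hb c hc =>
      (mem_up h1 h2 h3).2 ⟨hR _ (hR _ (hR _ (hY hy) a) b) c, h y hy a ha b hb c hc⟩
  exact (commutator_mono k1 le_rfl).trans comm_up_le

end Up

end H17.Jt
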