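import Cfsg.Agent.H17.Jt1

/-! Glauberman's bounds for the action of a large abelian subgroup on a critical subgroup. -/

set_option autoImplicit false
set_option linter.unusedSectionVars false

namespace H17.Jt

open Subgroup Cfsg H4 H12
open scoped commutatorElement

variable {G : Type*} [Group G] [Finite G]

structure St (p : ℕ) (S T B Z A : Subgroup G) : Prop where
  hS : IsPGroup p S
  hTS : T ≤ S
  nT : T.Normal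
  nB : B.Normal
  nZ : Z.Normal
  hBT : B ≤ T
  hZB : Z ≤ B
  hZc : ∀ z ∈ Z, ∀ b ∈ B, z * b = b * z
  hc : ∀ b ∈ B, ∀ t ∈ T, ⁅b, t⁆ ∈ Z
  hA : A ∈ maxAb 0 S
  hAT : ¬ A ≤ T
  mZ : ∀ A' ∈ maxAb 0 S, ¬ A' ≤ T → A ⊓ Z ≤ A' → A' ⊓ Z ≤ A
  mB : ∀ A' ∈ maxAb 0 S, ¬ A' ≤ T → A ⊓ B ≤ A' → A' ⊓ B ≤ A

namespace St
variable {p : ℕ} [Fact p.Prime] {S T B Z A : Subgroup G} (h : St p S T B Z A)
include h

theorem cB {x : G} (hx : x ∈ B) (a : G) : ⁅x, a⁆ ∈ B := haveI := h.nB; cN hx a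
theorem cZ {x : G} (hx : x ∈ Z) (a : G) : ⁅x, a⁆ ∈ Z := haveI := h.nZ; cN hx a
theorem hZS : Z ≤ S := h.hZB.trans (h.hBT.trans h.hTS)
theorem hBS : B ≤ S := h.hBT.trans h.hTS
theorem ZZ : ∀ u ∈ Z, ∀ v ∈ Z, u * v = v * u := fun u hu v hv => h.hZc u hu v (h.hZB hv)
theorem AA {a b : G} (ha : a ∈ A) (hb : b ∈ A) : a * b = b * a := comm_of_max h.hA ha hb
theorem AA1 {a b : G} (ha : a ∈ A) (hb : b ∈ A) : ⁅a, b⁆ = 1 :=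
  commutatorElement_eq_one_iff_mul_comm.2 (h.AA ha hb)
theorem BB : ∀ x ∈ B, ∀ y ∈ B, ⁅x, y⁆ ∈ Z := fun x hx y hy => h.hc x hx y (h.hBT hy)
theorem ZB1 {z b : G} (hz : z ∈ Z) (hb : b ∈ B) : ⁅z, b⁆ = 1 :=
  commutatorElement_eq_one_iff_mul_comm.2 (h.hZc z hz b hb)
theorem BZ1 {z b : G} (hz : z ∈ Z) (hb : b ∈ B) : ⁅b, z⁆ = 1 :=
  commutatorElement_eq_one_iff_mul_comm.2 (h.hZc z hz b hb).symm

theorem conjZ {z b : G} (hz : z ∈ Z) (hb : b ∈ B) : b * z * b⁻¹ = z := by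
  rw [← h.hZc z hz b hb, mul_inv_cancel_right]

/-- `y ↦ ⁅y, m⁆` is multiplicative as long as the value is central -/
theorem mul_l {u v m : G} (hu : u ∈ B) (hv : ⁅v, m⁆ ∈ Z) : ⁅u * v, m⁆ = ⁅v, m⁆ * ⁅u, m⁆ := by
  have : ⁅u * v, m⁆ = u * ⁅v, m⁆ * u⁻¹ * ⁅u, m⁆ := by simp only [commutatorElement_def]; group
  rw [this, h.conjZ hv hu]

theorem inv_l {u m : G} (hu : u ∈ B) (hv : ⁅u, m⁆ ∈ Z) : ⁅u⁻¹, m⁆ = ⁅u, m⁆⁻¹ := by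
  have : ⁅u⁻¹, m⁆ = u⁻¹ * ⁅u, m⁆⁻¹ * u⁻¹⁻¹ := by simp only [commutatorElement_def]; group
  rw [this, h.conjZ (inv_mem hv) (inv_mem hu)]

theorem mul_r {u v w : G} (hv : v ∈ B) (hw : ⁅u, w⁆ ∈ Z) : ⁅u, v * w⁆ = ⁅u, v⁆ * ⁅u, w⁆ := by
  have : ⁅u, v * w⁆ = ⁅u, v⁆ * (v * ⁅u, w⁆ * v⁻¹) := by simp only [commutatorElement_def]; group
  rw [this, h.conjZ hw hv]

theorem inv_r {u v : G} (hv : v ∈ B) (hw : ⁅u, v⁆ ∈ Z) : ⁅u, v⁻¹⁆ = ⁅u, v⁆⁻¹ := by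
  have : ⁅u, v⁻¹⁆ = v⁻¹ * ⁅u, v⁆⁻¹ * v⁻¹⁻¹ := by simp only [commutatorElement_def]; group
  rw [this, h.conjZ (inv_mem hw) (inv_mem hv)]

/-- the pairing identity -/
theorem pair {v m c : G} (hv : v ∈ B) (hm : m ∈ T) (hc : ⁅m, c⁆ ∈ Z) :
    ⁅⁅v, c⁆, m⁆ = ⁅⁅v, m⁆, c⁆ := by
  have hp := h.cB hv c
  have e1 : c * ⁅v, m⁆ * c⁻¹ = ⁅⁅v, c⁆⁻¹ * v, ⁅m, c⁆⁻¹ * m⁆ := by
    simp only [commutatorElement_def]; group
  have hw : ⁅v, c⁆⁻¹ * v ∈ B := mul_mem (inv_mem hp) hv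
  rw [h.mul_r (h.hZB (inv_mem hc)) (h.hc _ hw _ hm), h.BZ1 (inv_mem hc) hw, one_mul,
    h.mul_l (inv_mem hp) (h.hc _ hv _ hm), h.inv_l hp (h.hc _ hp _ hm)] at e1
  have e2 : ⁅⁅v, m⁆, c⁆ = ⁅v, m⁆ * (c * ⁅v, m⁆ * c⁻¹)⁻¹ := by
    simp only [commutatorElement_def]; group
  rw [e2, e1, mul_inv_rev, inv_inv, ← mul_assoc, h.conjZ (h.hc _ hp _ hm) (h.hZB (h.hc _ hv _ hm))]

/-- the derivation identity on `B` -/
theorem der {u v : G} (hu : u ∈ B) (hv : v ∈ B) (a : G) :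
    ⁅⁅u, v⁆, a⁆ * ⁅⁅u, a⁆, ⁅v, a⁆⁆ = ⁅⁅u, a⁆, v⁆ * ⁅u, ⁅v, a⁆⁆ := by
  have hp := h.cB hu a
  have hq := h.cB hv a
  have e1 : a * ⁅u, v⁆ * a⁻¹ = ⁅⁅u, a⁆⁻¹ * u, ⁅v, a⁆⁻¹ * v⁆ := by
    simp only [commutatorElement_def]; group
  have hw : ⁅u, a⁆⁻¹ * u ∈ B := mul_mem (inv_mem hp) hu
  rw [h.mul_r (inv_mem hq) (h.BB _ hw _ hv), h.inv_r hq (h.BB _ hw _ hq),
    h.mul_l (inv_mem hp) (h.BB _ hu _ hv), h.mul_l (inv_mem hp) (h.BB _ hu _ hq),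
    h.inv_l hp (h.BB _ hp _ hq), h.inv_l hp (h.BB _ hp _ hv)] at e1
  have e2 : ⁅⁅u, v⁆, a⁆ = ⁅u, v⁆ * (a * ⁅u, v⁆ * a⁻¹)⁻¹ := by
    simp only [commutatorElement_def]; group
  rw [e2, e1]
  have k1 := h.BB _ hu _ hv
  have k2 := h.BB _ hp _ hv
  have k3 := h.BB _ hu _ hq
  have k4 := h.BB _ hp _ hq
  generalize ⁅u, v⁆ = x at *
  generalize ⁅⁅u, a⁆, v⁆ = y at *
  generalize ⁅u, ⁅v, a⁆⁆ = z at *
  generalize ⁅⁅u, a⁆, ⁅v, a⁆⁆ = w at *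
  calc x * ((z * w⁻¹)⁻¹ * (x * y⁻¹))⁻¹ * w = (x * y * x⁻¹) * z := by group
    _ = y * z := by rw [h.conjZ k2 (h.hZB k1)]

theorem zsymm {x a b : G} (hx : x ∈ Z) (hab : a * b = b * a) : ⁅⁅x, a⁆, b⁆ = ⁅⁅x, b⁆, a⁆ :=
  cc_symm h.ZZ hab (h.cZ hx a) (h.cZ hx b) (h.cZ (h.cZ hx b) a) (h.cZ (h.cZ hx a) b)

theorem zmul {x y : G} (hx : x ∈ Z) (hy : y ∈ Z) (a : G) : ⁅x * y, a⁆ = ⁅x, a⁆ * ⁅y, a⁆ := by
  rw [h.mul_l (h.hZB hx) (h.cZ hy a), h.ZZ _ (h.cZ hy a) _ (h.cZ hx a)]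

theorem zinv {x : G} (hx : x ∈ Z) (a : G) : ⁅x⁻¹, a⁆ = ⁅x, a⁆⁻¹ := h.inv_l (h.hZB hx) (h.cZ hx a)

/-- double commutators are symmetric modulo `Z` -/
theorem bsymm {x a b : G} (hx : x ∈ B) (hab : a * b = b * a) :
    ∃ z ∈ Z, ⁅⁅x, a⁆, b⁆ = z * ⁅⁅x, b⁆, a⁆ := by
  have := h.nZ
  have := h.nB
  let f := QuotientGroup.mk' Z
  have hM : ∀ u ∈ B.map f, ∀ v ∈ B.map f, u * v = v * u := by
    rintro _ ⟨u, hu, rfl⟩ _ ⟨v, hv, rfl⟩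
    rw [← commutatorElement_eq_one_iff_mul_comm, ← map_commutatorElement]
    exact (QuotientGroup.eq_one_iff _).2 (h.BB u hu v hv)
  have k : ∀ y ∈ B, f y ∈ B.map f := fun y hy => ⟨y, hy, rfl⟩
  have e := cc_symm (x := f x) (a := f a) (b := f b) hM (by rw [← map_mul, ← map_mul, hab])
    (by simpa only [map_commutatorElement] using k _ (h.cB hx a))
    (by simpa only [map_commutatorElement] using k _ (h.cB hx b))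
    (by simpa only [map_commutatorElement] using k _ (h.cB (h.cB hx b) a))
    (by simpa only [map_commutatorElement] using k _ (h.cB (h.cB hx a) b))
  simp only [← map_commutatorElement] at e
  refine ⟨⁅⁅x, a⁆, b⁆ * ⁅⁅x, b⁆, a⁆⁻¹, ?_, by group⟩
  rw [← QuotientGroup.eq_one_iff]
  change f _ = 1
  rw [map_mul, map_inv, e, mul_inv_cancel]

/-! ### The action on `Z` -/

theorem zrepl {x : G} (hx : x ∈ Z) (hn : ¬ cm x A ≤ A) : A ⊓ 𝒞 (cm x A) ≤ T := by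
  have hM : cm x A ≤ Z := cm_le.2 fun a _ => h.cZ hx a
  have h1 := (thompson h.hA (h.hZS hx) fun u hu v hv => h.ZZ u (hM hu) v (hM hv)).1
  by_contra h2
  refine hn ((le_inf le_sup_left hM).trans (h.mZ _ h1 (fun h3 => h2 (le_sup_right.trans h3))
    (le_trans (fun y hy => ?_) le_sup_right)))
  exact ⟨hy.1, fun m hm => h.ZZ m (hM hm) y hy.2⟩

theorem n1 {x c : G} (hx : x ∈ Z) (hn : ¬ cm x A ≤ A) (hc : c ∈ A) (hcT : c ∉ T) :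
    ⁅x, c⁆ ∉ A := by
  intro h1
  refine hcT (h.zrepl hx hn ⟨hc, zpowers_le.1 (le_centralizer_iff.1 (cm_le.2 fun d hd => ?_))⟩)
  rw [mem_centralizer_zpowers]
  refine (commutatorElement_eq_one_iff_mul_comm.1 ?_).symm
  rw [h.zsymm hx (h.AA hd hc)]
  exact h.AA1 h1 hd

theorem a2 {x a b : G} (hx : x ∈ Z) (ha : a ∈ A) (hb : b ∈ A) :
    ∃ c ∈ A, c ∈ T ∧ ⁅x, c⁆⁻¹ * ⁅⁅x, a⁆, b⁆ ∈ A := by
  have := h.nZ
  by_cases hn : cm x A ≤ A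
  · exact ⟨1, one_mem _, one_mem _, by
      rw [commutatorElement_one_right, inv_one, one_mul]; exact hn (cc_mem_cm hb ha)⟩
  have hM : cm x A ≤ Z := cm_le.2 fun a _ => h.cZ hx a
  obtain ⟨c, hc, h1⟩ := (thompson h.hA (h.hZS hx)
    fun u hu v hv => h.ZZ u (hM hu) v (hM hv)).2 _ (cc_mem_cm hb ha)
  refine ⟨c, hc, by_contra fun hcT => ?_, h1⟩
  let Y : Subgroup G :=
    { carrier := {y | y ∈ Z ∧ ⁅y, c⁆⁻¹ * ⁅⁅y, a⁆, b⁆ ∈ A}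
      one_mem' := ⟨one_mem _, by simp⟩
      mul_mem' := by
        rintro y y' ⟨hy, k⟩ ⟨hy', k'⟩
        refine ⟨mul_mem hy hy', ?_⟩
        rw [h.zmul hy hy', h.zmul hy hy', h.zmul (h.cZ hy a) (h.cZ hy' a), mul_inv_rev]
        have e := h.ZZ _ (inv_mem (h.cZ hy' c)) _
          (mul_mem (inv_mem (h.cZ hy c)) (h.cZ (h.cZ hy a) b))
        have : ⁅y', c⁆⁻¹ * ⁅y, c⁆⁻¹ * (⁅⁅y, a⁆, b⁆ * ⁅⁅y', a⁆, b⁆) =
            (⁅y, c⁆⁻¹ * ⁅⁅y, a⁆, b⁆) * (⁅y', c⁆⁻¹ * ⁅⁅y', a⁆, b⁆) := by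
          rw [← mul_assoc _ ⁅y', c⁆⁻¹, ← e]; group
        rw [this]; exact mul_mem k k'
      inv_mem' := by
        rintro y ⟨hy, k⟩
        refine ⟨inv_mem hy, ?_⟩
        rw [h.zinv hy, h.zinv hy, h.zinv (h.cZ hy a),
          h.ZZ _ (inv_mem (inv_mem (h.cZ hy c))) _ (inv_mem (h.cZ (h.cZ hy a) b)), ← mul_inv_rev]
        exact inv_mem k }
  have hY : ∀ y ∈ Y, ∀ d ∈ A, ⁅y, d⁆ ∈ Y := by
    rintro y ⟨hy, k⟩ d hd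
    refine ⟨h.cZ hy d, ?_⟩
    have := h.AA1 k hd
    rw [h.zmul (inv_mem (h.cZ hy c)) (h.cZ (h.cZ hy a) b), h.zinv (h.cZ hy c),
      h.zsymm hy (h.AA hc hd), h.zsymm (h.cZ hy a) (h.AA hb hd), h.zsymm hy (h.AA ha hd)] at this
    rw [this]; exact one_mem _
  have hZ1 : ∀ x ∈ Z, ∀ y ∈ Z, ⁅x, y⁆ ∈ (⊥ : Subgroup G) := fun x hx y hy =>
    mem_bot.2 (h.ZB1 hx (h.hZB hy))
  have hU : ∀ {y}, y ∈ up Z A (A ⊓ Z) ↔ y ∈ Z ∧ ∀ a ∈ A, ⁅y, a⁆ ∈ A ⊓ Z :=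
    mem_up hZ1 bot_le inf_le_right
  obtain ⟨y, hy, hyU, hy2⟩ := nil (L := up Z A (A ⊓ Z)) h.hS h.hA.1
    (Y := Y) (fun y hy => h.hZS hy.1)
    (le_normalizer_of_commutator_le le_rfl (commutator_le.2 hY))
    (fun e => hn (cm_le.2 fun d hd => ((hU.1 (e ⟨hx, h1⟩)).2 d hd).1))
  refine h.n1 hy.1 (fun e => hyU (hU.2 ⟨hy.1, fun d hd => ⟨e (mem_cm hd), h.cZ hy.1 d⟩⟩)) hc hcT ?_
  have := A.mul_mem ((hU.1 (hy2 a ha)).2 b hb).1 (A.inv_mem hy.2)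
  rwa [mul_inv_rev, mul_inv_cancel_left, inv_inv] at this

theorem a3 {x a b e : G} (hx : x ∈ Z) (ha : a ∈ A) (hb : b ∈ A) (he : e ∈ A) :
    ∃ c ∈ A, c ∈ T ∧ ⁅⁅⁅x, a⁆, b⁆, e⁆ = ⁅⁅x, c⁆, e⁆ := by
  obtain ⟨c, hc, hcT, k⟩ := h.a2 hx ha hb
  refine ⟨c, hc, hcT, ?_⟩
  have := h.AA1 k he
  rw [h.zmul (inv_mem (h.cZ hx c)) (h.cZ (h.cZ hx a) b), h.zinv (h.cZ hx c),
    inv_mul_eq_one] at this
  exact this.symm

theorem iterZ {X : Subgroup G} [X.Normal] (hX : X ≤ Z) : iterCommutator X A 3 ≤ ⁅X, T⁆ := by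
  have := h.nZ
  have := h.nT
  refine iter3 (R := Z) (N := ⊥) (fun x hx y hy => mem_bot.2 (h.ZB1 hx (h.hZB hy))) bot_le
    ((commutator_le_left X T).trans hX) hX fun x hx a ha b hb e he => ?_
  obtain ⟨c, -, hcT, k⟩ := h.a3 (hX hx) ha hb he
  rw [k]
  exact cN (commutator_mem_commutator hx hcT) e

/-- elements of `M ⊔ C` with `C ≤ A` commute with `A` modulo `Z` when the elements of `M` do -/
theorem sup_comm_Z {M C : Subgroup G} (hC : C ≤ A) {d : G} (hd : d ∈ A)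
    (hM : ∀ m ∈ M, ⁅m, d⁆ ∈ Z) : ∀ m ∈ M ⊔ C, ⁅m, d⁆ ∈ Z := by
  have := h.nZ
  have : M ⊔ C ≤ commSub (zpowers d) Z := by
    refine sup_le (fun m hm => ?_) fun m hm => ?_
    · rw [← zpowers_le, le_commSub_iff]
      exact ⟨le_normalizer_of_normal, commutator_zpowers_zpowers_le
        (le_normalizer_of_normal (mem_top m)) (le_normalizer_of_normal (mem_top d)) (hM m hm)⟩
    · rw [← zpowers_le, le_commSub_iff]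
      exact ⟨le_normalizer_of_normal, commutator_zpowers_zpowers_le
        (le_normalizer_of_normal (mem_top m)) (le_normalizer_of_normal (mem_top d))
        (by rw [h.AA1 (hC hm) hd]; exact one_mem _)⟩
  exact fun m hm => (this hm).2 d (mem_zpowers d)

theorem mem_of_cent_sup {M C : Subgroup G} (hm : M ⊔ C ∈ maxAb 0 S) {y : G} (hy : y ∈ S)
    (h1 : ∀ m ∈ M, m * y = y * m) (h2 : ∀ m ∈ C, m * y = y * m) : y ∈ M ⊔ C := by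
  refine mem_of_cent hm hy fun a ha => ?_
  have : M ⊔ C ≤ 𝒞 (zpowers y) := sup_le
    (fun m hm => mem_centralizer_zpowers.2 (h1 m hm).symm)
    (fun m hm => mem_centralizer_zpowers.2 (h2 m hm).symm)
  exact (mem_centralizer_zpowers.1 (this ha)).symm

/-- case `[Z, A] ≰ A` -/
theorem caseA (hn : ¬ ⁅Z, A⁆ ≤ A) : iterCommutator B A 4 ≤ Z := by
  have := h.nZ
  have := h.nB
  have hX : ⁅Z, A⁆ ≤ Z := commutator_le_left Z A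
  have h1 := timm h.hA h.ZZ h.hZS le_normalizer_of_normal
  have h2 : A ⊓ 𝒞 (⁅Z, A⁆ : Subgroup G) ≤ T := by
    by_contra h2
    refine hn ((le_inf le_sup_left hX).trans (h.mZ _ h1 (fun h3 => h2 (le_sup_right.trans h3))
      (le_trans (fun y hy => ?_) le_sup_right)))
    exact ⟨hy.1, fun m hm => h.ZZ m (hX hm) y hy.2⟩
  refine iter4 h.BB le_rfl h.hZB le_rfl fun v hv a ha b hb c hc d hd => ?_
  have k1 := h.cB hv a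
  have k2 := h.cB k1 b
  have k3 := h.cB k2 c
  refine h.sup_comm_Z inf_le_left hd (fun m hm => h.cZ (hX hm) d) _
    (h.mem_of_cent_sup h1 (h.hBS k3) (fun m hm => h.hZc m (hX hm) _ k3) fun m hm => ?_)
  refine (commutatorElement_eq_one_iff_mul_comm.1 ?_).symm
  have hmT := h2 hm
  have o : ∀ e ∈ A, ⁅m, e⁆ ∈ Z := fun e he => by rw [h.AA1 hm.1 he]; exact one_mem _
  rw [h.pair k2 hmT (o c hc), h.pair k1 hmT (o b hb), h.pair hv hmT (o a ha)]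
  obtain ⟨e, he, heT, k⟩ := h.a3 (h.hc v hv m hmT) ha hb hc
  rw [k, ← h.pair hv hmT (o e he), h.zsymm (h.hc v hv e heT) (h.AA hm.1 hc)]
  exact commutatorElement_eq_one_iff_mul_comm.2
    (hm.2 _ (commutator_mem_commutator (h.hc v hv e heT) hc))

end St

end H17.Jt
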