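import Cfsg.Agent.H17.Jt2
import Cfsg.Agent.H4.Glaub
import Cfsg.Agent.H12.Norm

/-! Glauberman's bounds, the quadratic case. -/

set_option autoImplicit false
set_option linter.unusedSectionVars false

namespace H17.Jt

open Subgroup Cfsg H4 H12
open scoped commutatorElement

variable {G : Type*} [Group G] [Finite G]

theorem mem_cs {Z : Subgroup G} [Z.Normal] {m d : G} :
    m ∈ commSub (zpowers d) Z ↔ ⁅m, d⁆ ∈ Z := by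
  refine ⟨fun h => h.2 d (mem_zpowers d), fun h => ?_⟩
  rw [← zpowers_le, le_commSub_iff]
  exact ⟨le_normalizer_of_normal, commutator_zpowers_zpowers_le
    (le_normalizer_of_normal (mem_top m)) (le_normalizer_of_normal (mem_top d)) h⟩

theorem mem_norm_iff {A : Subgroup G} {x : G} : x ∈ 𝒩 A ↔ ∀ a ∈ A, ⁅x, a⁆ ∈ A := by
  refine ⟨fun h a ha => ?_, fun h => mem_normalizer_fintype fun a ha => ?_⟩
  · rw [commutatorElement_def]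
    exact mul_mem ((mem_normalizer_iff.1 h a).1 ha) (inv_mem ha)
  · have := mul_mem (h a ha) ha
    rwa [commutatorElement_def, inv_mul_cancel_right] at this

def Spec (S T Z A : Subgroup G) : Prop :=
  ∃ A' ∈ maxAb 0 S, A' ≤ T ∧ ∃ c ∈ A, c ∉ T ∧ ∀ m ∈ A', ⁅m, c⁆ ∈ Z

namespace St
variable {p : ℕ} [Fact p.Prime] {S T B Z A : Subgroup G} (h : St p S T B Z A)
include h

theorem o1 {m e : G} (hm : m ∈ A) (he : e ∈ A) : ⁅m, e⁆ ∈ Z := by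
  rw [h.AA1 hm he]; exact one_mem _

theorem spec (hq : ∀ z ∈ Z, ∀ a ∈ A, ⁅z, a⁆ ∈ A) {A' : Subgroup G} (h1 : A' ∈ maxAb 0 S)
    (h2 : A' ≤ T) {c : G} (hc : c ∈ A) (h3 : ∀ m ∈ A', ⁅m, c⁆ ∈ Z) :
    iterCommutator B (zpowers c) 3 ≤ Z := by
  have := h.nZ
  have := h.nB
  have k : ∀ e ∈ zpowers c, ∀ m ∈ A', ⁅m, e⁆ ∈ Z := fun e he m hm =>
    (mem_cs.2 (h3 m hm)).2 e he
  have hA : zpowers c ≤ A := zpowers_le.2 hc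
  refine iter3 h.BB le_rfl h.hZB le_rfl fun v hv a ha b hb e he => k e he _ ?_
  refine mem_of_cent h1 (h.hBS (h.cB (h.cB hv a) b)) fun m hm => ?_
  refine (commutatorElement_eq_one_iff_mul_comm.1 ?_).symm
  rw [h.pair (h.cB hv a) (h2 hm) (k b hb m hm), h.pair hv (h2 hm) (k a ha m hm)]
  exact h.AA1 (hq _ (h.hc v hv m (h2 hm)) a (hA ha)) (hA hb)

theorem mem_H {x : G} : x ∈ B ⊓ 𝒞 (A ⊓ T : Subgroup G) ↔ x ∈ B ∧ ∀ m ∈ A, m ∈ T → ⁅x, m⁆ = 1 :=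
  ⟨fun k => ⟨k.1, fun m h1 h2 => commutatorElement_eq_one_iff_mul_comm.2 (k.2 m ⟨h1, h2⟩).symm⟩,
    fun k => ⟨k.1, fun m hm => (commutatorElement_eq_one_iff_mul_comm.1 (k.2 m hm.1 hm.2)).symm⟩⟩

theorem H1 {x a : G} (hx : x ∈ B ⊓ 𝒞 (A ⊓ T : Subgroup G)) (ha : a ∈ A) :
    ⁅x, a⁆ ∈ B ⊓ 𝒞 (A ⊓ T : Subgroup G) := by
  refine h.mem_H.2 ⟨h.cB hx.1 a, fun m h1 h2 => ?_⟩
  rw [h.pair hx.1 h2 (h.o1 h1 ha), (h.mem_H.1 hx).2 m h1 h2, commutatorElement_one_left]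

theorem H2 (hq : ∀ z ∈ Z, ∀ a ∈ A, ⁅z, a⁆ ∈ A) {v a b : G} (hv : v ∈ B) (ha : a ∈ A)
    (hb : b ∈ A) : ⁅⁅v, a⁆, b⁆ ∈ B ⊓ 𝒞 (A ⊓ T : Subgroup G) := by
  refine h.mem_H.2 ⟨h.cB (h.cB hv a) b, fun m h1 h2 => ?_⟩
  rw [h.pair (h.cB hv a) h2 (h.o1 h1 hb), h.pair hv h2 (h.o1 h1 ha)]
  exact h.AA1 (hq _ (h.hc v hv m h2) a ha) hb

theorem H3 {u v t : G} (hu : u ∈ B) (hv : v ∈ B) (ht : t ∈ T) : ⁅⁅u, v⁆, t⁆ = 1 := by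
  have := h.der hu hv t
  rwa [h.ZB1 (h.hc u hu t ht) (h.cB hv t), h.ZB1 (h.hc u hu t ht) hv,
    h.BZ1 (h.hc v hv t ht) hu, mul_one, mul_one] at this

theorem star {x : G} (hx : x ∈ B) (hH : cm x A ≤ B ⊓ 𝒞 (A ⊓ T : Subgroup G))
    (hM : ∀ u ∈ cm x A, ∀ v ∈ cm x A, u * v = v * u) (hn : ¬ cm x A ≤ A) :
    cm x A ⊔ (A ⊓ 𝒞 (cm x A)) ≤ T := by
  have h1 := (thompson h.hA (h.hBS hx) hM).1
  by_contra h2
  refine hn ((le_inf le_sup_left (hH.trans inf_le_left)).trans (h.mB _ h1 h2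
    (le_trans (fun y hy => ?_) le_sup_right)))
  exact ⟨hy.1, fun m hm => ((hH hm).2 y ⟨hy.1, h.hBT hy.2⟩).symm⟩

theorem n2 {x d : G} (hx : x ∈ B) (hH : cm x A ≤ B ⊓ 𝒞 (A ⊓ T : Subgroup G))
    (hM : ∀ u ∈ cm x A, ∀ v ∈ cm x A, u * v = v * u) (hn : ¬ cm x A ≤ A) (hd : d ∈ A)
    (hdT : d ∉ T) (h1 : ∀ e ∈ A, ⁅⁅x, d⁆, e⁆ ∈ Z) : Spec S T Z A := by
  have := h.nZ
  refine ⟨_, (thompson h.hA (h.hBS hx) hM).1, h.star hx hH hM hn, d, hd, hdT,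
    h.sup_comm_Z inf_le_left hd fun m hm => mem_cs.1 ((cm_le.2 fun e he => mem_cs.2 ?_) hm)⟩
  rw [cc_symm hM (h.AA he hd) (mem_cm he) (mem_cm hd) (cc_mem_cm he hd) (cc_mem_cm hd he)]
  exact h1 e he

theorem noncentral (hns : ¬ Spec S T Z A) {x : G} (hx : x ∈ B ⊓ 𝒞 (A ⊓ T : Subgroup G))
    (hx2 : ∀ a ∈ A, ∀ b ∈ A, ⁅⁅x, a⁆, b⁆ ∈ A) (hn : ¬ cm x A ≤ A) :
    ∀ u ∈ B, ∀ v ∈ B, ⁅u, v⁆ ∈ A := by
  have hy : ∀ a ∈ A, ⁅x, a⁆ ∈ B ⊓ 𝒞 (A ⊓ T : Subgroup G) := fun a ha => h.H1 hx ha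
  have hw : ∀ y ∈ B ⊓ 𝒞 (A ⊓ T : Subgroup G), ∀ a ∈ A, ∀ b ∈ A, ⁅y, ⁅⁅x, a⁆, b⁆⁆ = 1 :=
    fun y hy' a ha b hb =>
      (h.mem_H.1 hy').2 _ (hx2 a ha b hb) (h.hBT (h.cB (h.cB hx.1 a) b))
  have hz : ∀ a : G, ⁅x, ⁅x, a⁆⁆ ∈ Z := fun a => h.BB _ hx.1 _ (h.cB hx.1 a)
  have z2 : ∀ c ∈ A, ∀ d ∈ A, ⁅⁅x, ⁅x, c⁆⁆, d⁆ = ⁅⁅x, d⁆, ⁅x, c⁆⁆ := by
    intro c hc d hd
    have := h.der hx.1 (h.cB hx.1 c) d
    rwa [hw _ (hy d hd) c hc d hd, hw _ hx c hc d hd, mul_one, mul_one] at this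
  have z1 : ∀ a ∈ A, ∀ c ∈ A, ⁅x, ⁅x, a * c⁆⁆ = ⁅x, ⁅x, a⁆⁆ * ⁅x, ⁅x, c⁆⁆ := by
    intro a ha c hc
    have e : ⁅x, a * c⁆ = ⁅x, a⁆ * ⁅⁅x, c⁆, a⁆⁻¹ * ⁅x, c⁆ := by
      simp only [commutatorElement_def]; group
    have k := h.cB (h.cB hx.1 c) a
    rw [e, h.mul_r (mul_mem (h.cB hx.1 a) (inv_mem k)) (hz c),
      h.mul_r (h.cB hx.1 a) (h.BB _ hx.1 _ (inv_mem k)), h.inv_r k (h.BB _ hx.1 _ k),
      hw _ hx c hc a ha, inv_one, mul_one]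
  set M' : Subgroup G := closure {y | ∃ a ∈ A, y = ⁅x, ⁅x, a⁆⁆} with hM'
  have hMZ : M' ≤ Z := (closure_le _).2 (by rintro _ ⟨a, -, rfl⟩; exact hz a)
  have hA' := (repl h.hA (hMZ.trans h.hZS) (fun u hu v hv => h.ZZ u (hMZ hu) v (hMZ hv))
    (fun a => ⁅x, ⁅x, a⁆⁆) (fun a ha => subset_closure ⟨a, ha, rfl⟩) (by
      intro a ha b hb k
      have hc : a⁻¹ * b ∈ A := mul_mem (inv_mem ha) hb
      have e := z1 a ha _ hc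
      rw [mul_inv_cancel_left] at e
      rw [e, inv_mul_cancel_left] at k
      refine zpowers_le.1 (le_centralizer_iff.1 ((closure_le _).2 ?_))
      rintro _ ⟨d, hd, rfl⟩
      refine mem_centralizer_zpowers.2 (commutatorElement_eq_one_iff_mul_comm.1 ?_).symm
      rw [z2 d hd _ hc, ← commutatorElement_inv, ← z2 _ hc d hd, h.AA1 k hd, inv_one])).1
  have hMA : M' ≤ A := by
    by_cases hT : M' ⊔ (A ⊓ 𝒞 M') ≤ T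
    · obtain ⟨c, hc, hcT⟩ := SetLike.not_le_iff_exists.1 h.hAT
      exact (hns ⟨_, hA', hT, c, hc, hcT,
        h.sup_comm_Z inf_le_left hc fun m hm => h.cZ (hMZ hm) c⟩).elim
    · refine (le_inf le_sup_left hMZ).trans (h.mZ _ hA' hT (le_trans (fun y hy => ?_) le_sup_right))
      exact ⟨hy.1, fun m hm => h.ZZ m (hMZ hm) y hy.2⟩
  have hM : ∀ u ∈ cm x A, ∀ v ∈ cm x A, u * v = v * u := cm_comm_of fun a ha b hb => by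
    rw [← commutatorElement_eq_one_iff_mul_comm, ← z2 b hb a ha]
    exact h.AA1 (hMA (subset_closure ⟨b, hb, rfl⟩)) ha
  have hH : cm x A ≤ B ⊓ 𝒞 (A ⊓ T : Subgroup G) := cm_le.2 hy
  obtain ⟨t1, t2⟩ := thompson h.hA (h.hBS hx.1) hM
  have hT := h.star hx.1 hH hM hn
  intro u hu v hv
  have k1 : ⁅u, v⁆ ∈ cm x A ⊔ (A ⊓ 𝒞 (cm x A)) :=
    mem_of_cent t1 (h.hBS (h.cB hu v)) fun m hm =>
      (commutatorElement_eq_one_iff_mul_comm.1 (h.H3 hu hv (hT hm))).symm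
  obtain ⟨m, hm, c, hc, e⟩ := (H1.mem_sup_of_le_normalizer_left
    (le_normalizer_of_le_centralizer inf_le_right)).1 k1
  obtain ⟨a, ha, k3⟩ := t2 m hm
  have k4 : ⁅x, a⁆⁻¹ * ⁅u, v⁆ ∈ A := by
    rw [← e, ← mul_assoc]; exact mul_mem k3 hc.1
  by_cases haT : a ∈ T
  · rwa [(h.mem_H.1 hx).2 a ha haT, inv_one, one_mul] at k4
  · refine (hns (h.n2 hx.1 hH hM hn ha haT fun d hd => ?_)).elim
    have e2 : ⁅x, a⁆ = ⁅u, v⁆ * (⁅x, a⁆⁻¹ * ⁅u, v⁆)⁻¹ := by group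
    rw [e2, h.mul_l (h.cB hu v) (h.o1 (inv_mem k4) hd)]
    exact mul_mem (h.o1 (inv_mem k4) hd) (h.cZ (h.BB u hu v hv) d)

theorem central (hp : p ≠ 2) (hq : ∀ z ∈ Z, ∀ a ∈ A, ⁅z, a⁆ ∈ A) (hns : ¬ Spec S T Z A)
    (hcen : ∀ u ∈ B, ∀ v ∈ B, ⁅u, v⁆ ∈ A) : iterCommutator B A 4 ≤ Z := by
  have := h.nZ
  have := h.nB
  have Z1 : Z ≤ up B A Z := le_up h.BB le_rfl h.hZB
  have Z2 : Z ≤ up B A (up B A Z) := le_up h.BB Z1 up_le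
  have m1 : ∀ {x}, x ∈ up B A Z ↔ x ∈ B ∧ ∀ a ∈ A, ⁅x, a⁆ ∈ Z := mem_up h.BB le_rfl h.hZB
  have m2 : ∀ {x}, x ∈ up B A (up B A Z) ↔ x ∈ B ∧ ∀ a ∈ A, ⁅x, a⁆ ∈ up B A Z :=
    mem_up h.BB Z1 up_le
  have m3 : ∀ {x}, x ∈ up B A (up B A (up B A Z)) ↔
      x ∈ B ∧ ∀ a ∈ A, ⁅x, a⁆ ∈ up B A (up B A Z) := mem_up h.BB Z2 up_le
  have hBA : ⁅B, A⁆ ≤ B := commutator_le_left B A
  have st : ∀ u ∈ B, ∀ v ∈ B, ∀ a ∈ A,
      ⁅⁅u, a⁆, ⁅v, a⁆⁆ = ⁅⁅u, a⁆, v⁆ * ⁅u, ⁅v, a⁆⁆ := by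
    intro u hu v hv a ha
    have := h.der hu hv a
    rwa [h.AA1 (hcen u hu v hv) ha, one_mul] at this
  have orth : ∀ u ∈ ⁅B, A⁆, ∀ y ∈ up B A Z, ⁅u, y⁆ = 1 := by
    intro u hu y hy
    have : ⁅B, A⁆ ≤ 𝒞 (zpowers y) := commutator_le.2 fun v hv a ha => by
      have k := st v hv y hy.1 a ha
      rw [h.BZ1 ((m1.1 hy).2 a ha) (h.cB hv a), h.BZ1 ((m1.1 hy).2 a ha) hv, mul_one] at k
      exact mem_centralizer_zpowers.2 (commutatorElement_eq_one_iff_mul_comm.1 k.symm).symm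
    exact commutatorElement_eq_one_iff_mul_comm.2 (mem_centralizer_zpowers.1 (this hu)).symm
  have orth2 : ∀ u ∈ ⁅B, A⁆, ∀ r ∈ up B A (up B A Z), ∀ a ∈ A, ⁅⁅u, a⁆, r⁆ = 1 := by
    intro u hu r hr a ha
    have k := st u (hBA hu) r hr.1 a ha
    rw [orth _ (commutator_mem_commutator (hBA hu) ha) _ ((m2.1 hr).2 a ha),
      orth _ hu _ ((m2.1 hr).2 a ha), mul_one] at k
    exact k.symm
  suffices k : ⁅B, A⁆ ≤ up B A (up B A (up B A Z)) from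
    (commutator_mono ((commutator_mono ((commutator_mono k le_rfl).trans comm_up_le)
      le_rfl).trans comm_up_le) le_rfl).trans comm_up_le
  by_contra hn
  obtain ⟨u, hu, hu3, hu4⟩ := nil h.hS h.hA.1 (hBA.trans h.hBS)
    (le_normalizer_of_commutator_le hBA le_rfl) hn
  have huB := hBA hu
  have hM : ∀ x ∈ cm u A, ∀ y ∈ cm u A, x * y = y * x := cm_comm_of fun a ha c hc => by
    have e1 := st u huB _ (h.cB huB c) a ha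
    have e2 := st u huB _ (h.cB huB a) c hc
    rw [orth2 u hu _ ((m3.1 (hu4 c hc)).2 a ha) a ha] at e1
    rw [orth2 u hu _ ((m3.1 (hu4 a ha)).2 c hc) c hc] at e2
    obtain ⟨z, hz, e3⟩ := h.bsymm huB (h.AA ha hc)
    rw [e3, h.mul_r (h.hZB hz) (h.BB _ huB _ (h.cB (h.cB huB c) a)), h.BZ1 hz huB, one_mul, e1,
      mul_left_inj, ← commutatorElement_inv ⁅u, a⁆, eq_inv_iff_mul_eq_one, ← sq] at e2
    exact commutatorElement_eq_one_iff_mul_comm.1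
      (eq_one_of_sq_of_isPGroup hp h.hS _ (h.hBS (h.cB (h.cB huB a) _)) e2)
  have hAB : ∀ w ∈ A, w ∈ B → w ∈ up B A Z := fun w h1 h2 => m1.2 ⟨h2, fun a ha => h.o1 h1 ha⟩
  obtain ⟨a, ha, ha2⟩ : ∃ a ∈ A, ⁅u, a⁆ ∉ up B A (up B A Z) := by
    by_contra k
    push Not at k
    exact hu3 (m3.2 ⟨huB, k⟩)
  obtain ⟨c, hc, hc1⟩ : ∃ c ∈ A, ⁅⁅u, a⁆, c⁆ ∉ up B A Z := by
    by_contra k
    push Not at k
    exact ha2 (m2.2 ⟨h.cB huB a, k⟩)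
  obtain ⟨d, hd, k⟩ := (thompson h.hA (h.hBS huB) hM).2 _ (cc_mem_cm hc ha)
  have k1 := hAB _ k (mul_mem (inv_mem (h.cB huB d)) (h.cB (h.cB huB a) c))
  have hdT : d ∉ T := fun hdT => hc1 (by
    have := mul_mem (Z1 (h.hc u huB d hdT)) k1
    rwa [mul_inv_cancel_left] at this)
  have k2 : ⁅u, d⁆ ∈ up B A (up B A Z) := by
    have := mul_mem ((m3.1 (hu4 a ha)).2 c hc)
      (inv_mem (m2.2 ⟨k1.1, fun e he => Z1 ((m1.1 k1).2 e he)⟩))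
    rwa [mul_inv_rev, mul_inv_cancel_left, inv_inv] at this
  have hle : cm ⁅u, a⁆ A ≤ cm u A := cm_le.2 fun e he => cc_mem_cm he ha
  refine hns (h.n2 (h.cB huB a) (cm_le.2 fun e he => h.H2 hq huB ha he)
    (fun x hx y hy => hM x (hle hx) y (hle hy))
    (fun k => hc1 (hAB _ (k (mem_cm hc)) (h.cB (h.cB huB a) c))) hd hdT fun e he => ?_)
  rw [cc_symm hM (h.AA ha hd) (mem_cm ha) (mem_cm hd) (cc_mem_cm ha hd) (cc_mem_cm hd ha)]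
  exact (m1.1 ((m2.1 k2).2 a ha)).2 e he

theorem main (hp : p ≠ 2) : ∃ g ∈ A, g ∉ T ∧ iterCommutator B (zpowers g) 4 ≤ Z ∧
    ∀ X : Subgroup G, X.Normal → X ≤ Z → iterCommutator X (zpowers g) 3 ≤ ⁅X, T⁆ := by
  have := h.nZ
  have := h.nB
  suffices k : ∃ g ∈ A, g ∉ T ∧ iterCommutator B (zpowers g) 4 ≤ Z by
    obtain ⟨g, h1, h2, h3⟩ := k
    exact ⟨g, h1, h2, h3, fun X _ hX =>
      (iter_mono le_rfl (zpowers_le.2 h1) 3).trans (h.iterZ hX)⟩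
  by_cases hns : Spec S T Z A ∧ ⁅Z, A⁆ ≤ A
  · obtain ⟨⟨A', h1, h2, c, hc, hcT, h3⟩, hq⟩ := hns
    exact ⟨c, hc, hcT, iter_le_of_le le_normalizer_of_normal (by norm_num : 3 ≤ 4)
      (h.spec (commutator_le.1 hq) h1 h2 hc h3)⟩
  obtain ⟨g, hg, hgT⟩ := SetLike.not_le_iff_exists.1 h.hAT
  refine ⟨g, hg, hgT, (iter_mono le_rfl (zpowers_le.2 hg) 4).trans ?_⟩
  by_cases hq : ⁅Z, A⁆ ≤ A
  swap
  · exact h.caseA hq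
  have hns' : ¬ Spec S T Z A := fun k => hns ⟨k, hq⟩
  have hq' := commutator_le.1 hq
  by_cases hH : B ⊓ 𝒞 (A ⊓ T : Subgroup G) ≤ 𝒩 A
  · exact iter4 h.BB le_rfl h.hZB le_rfl fun v hv a ha b hb c hc d hd =>
      h.o1 (mem_norm_iff.1 (hH (h.H2 hq' hv ha hb)) c hc) hd
  · obtain ⟨x, hx, hx1, hx2⟩ := nil h.hS h.hA.1 (inf_le_left.trans h.hBS)
      (le_normalizer_of_commutator_le le_rfl (commutator_le.2 fun x hx a ha => h.H1 hx ha)) hH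
    exact h.central hp hq' hns' (h.noncentral hns' hx (fun a ha => mem_norm_iff.1 (hx2 a ha))
      fun k => hx1 (mem_norm_iff.2 (cm_le.1 k)))

end St

end H17.Jt
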