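import Cfsg.Agent.H17.Jt3
import Cfsg.Agent.H12.NPC
import Cfsg.Agent.H12.KCtl
import Cfsg.Agent.H3.FApp
import Cfsg.Agent.H14.Tate
import Cfsg.Agent.H3.Tate

/-! Glauberman: action of `J(S)` on chief factors; control of transfer by `J`. -/

set_option autoImplicit false
set_option linter.unusedSectionVars false

universe u

namespace H17.Jt

open Subgroup Cfsg H4 H12
open scoped commutatorElement

section
variable {G : Type*} [Group G] [Finite G] {p : ℕ} [Fact p.Prime]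

theorem exists_st {S T B : Subgroup G} (hS : IsPGroup p S) (hT : T ≤ S) (h : Crit p T B)
    (hJ : ¬ thompsonSubgroupOf 0 S ≤ T) : ∃ A, St p S T B (B ⊓ 𝒞 B) A := by
  rw [thompsonOf_le_iff] at hJ
  push Not at hJ
  obtain ⟨A₁, h1, m1⟩ := Set.exists_max_image {A | A ∈ maxAb 0 S ∧ ¬ A ≤ T}
    (fun A => Nat.card (A ⊓ (B ⊓ 𝒞 B) : Subgroup G)) (Set.toFinite _) hJ
  obtain ⟨A, ⟨h2, h3⟩, m2⟩ := Set.exists_max_image {A | (A ∈ maxAb 0 S ∧ ¬ A ≤ T) ∧
    Nat.card (A₁ ⊓ (B ⊓ 𝒞 B) : Subgroup G) ≤ Nat.card (A ⊓ (B ⊓ 𝒞 B) : Subgroup G)}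
    (fun A => Nat.card (A ⊓ B : Subgroup G)) (Set.toFinite _) ⟨A₁, h1, le_rfl⟩
  refine ⟨A, hS, hT, h.normalT, h.normal, h.normalZ, h.le, inf_le_left,
    fun z hz b hb => (hz.2 b hb).symm, fun b hb t ht => h.comm' (commutator_mem_commutator hb ht),
    h2.1, h2.2, fun A' k1 k2 k3 => ?_, fun A' k1 k2 k3 => ?_⟩
  · have := eq_of_le_of_card_ge (le_inf k3 inf_le_right) ((m1 A' ⟨k1, k2⟩).trans h3)
    exact this.ge.trans inf_le_left
  · have k4 : A ⊓ (B ⊓ 𝒞 B) ≤ A' ⊓ (B ⊓ 𝒞 B) :=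
      le_inf ((inf_le_inf_left _ inf_le_left).trans k3) inf_le_right
    have := eq_of_le_of_card_ge (le_inf k3 inf_le_right)
      (m2 A' ⟨⟨k1, k2⟩, h3.trans (card_le_of_le k4)⟩)
    exact this.ge.trans inf_le_left

theorem jmain (hp : p ≠ 2) {S : Subgroup G} (hS : SylIn p S ⊤)
    (hJ : ¬ (thompsonSubgroupAOf S).Normal) :
    ∃ g ∈ S, g ∉ pCore p G ∧ (∀ U V : Subgroup G, IsChiefFactor U V → U ≤ pCore p G →
      iterCommutator U (zpowers g) 6 ≤ V) ∧ (𝒞 (pCore p G) ≤ pCore p G →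
      ∃ U V : Subgroup G, IsChiefFactor U V ∧ U ≤ pCore p G ∧
        iterCommutator U (zpowers g) 4 ≤ V ∧ ¬ ⁅U, zpowers g⁆ ≤ V) := by
  have hT := H1.isPGroup_pCore (G := G) p
  obtain ⟨B, h⟩ := exists_crit (pCore p G) hT
  have hTS : pCore p G ≤ S := hS.le_of_normal hT le_top le_normalizer_of_normal
  obtain ⟨A, hA⟩ := exists_st hS.pgrp hTS h (fun k => hJ (by
    rw [thompsonSubgroupAOf_eq, ← thompsonOf_eq_of_le k hTS]; infer_instance))
  obtain ⟨g, hg, hgT, h1, h2⟩ := hA.main hp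
  have := h.normal
  have := h.normalZ
  have hZ : ∀ U V, IsChiefFactor U V → U ≤ B ⊓ 𝒞 B → iterCommutator U (zpowers g) 3 ≤ V := by
    intro U V hUV hU
    refine (h2 U hUV.2.1 hU).trans ?_
    rw [commutator_comm]
    refine commutator_le.2 fun t ht x hx => ?_
    exact (mem_chiefKer.1 (le_chiefKer (Z := pCore p G) hT hT ht) U V hUV
      (hU.trans (inf_le_left.trans h.le))).2 x hx
  have hQ : ∀ U V, IsChiefFactor U V → U ≤ B → iterCommutator U (zpowers g) 4 ≤ V := by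
    intro U V hUV hU
    have := hUV.2.1
    have := hUV.2.2.1
    by_cases h6 : U ⊓ (B ⊓ 𝒞 B) ≤ V
    · exact (le_inf (iter_le le_normalizer_of_normal 4) ((iter_mono hU le_rfl 4).trans h1)).trans h6
    · have h7 := hZ _ _ (chief_inf hUV h6) inf_le_right
      rw [← chief_sup_eq hUV inf_le_left h6]
      exact (iter_sup_le _).trans (sup_le le_rfl (iter_le_of_le (i := 3) le_normalizer_of_normal
        (by omega) (h7.trans inf_le_left)))
  refine ⟨g, hA.hA.1 hg, hgT, fun U V hUV hU => h.iter_le (i := 4) (j := 3) (by omega) hQ hZ hUV hU,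
    fun hC => ?_⟩
  obtain ⟨U, V, h6, h7, h8⟩ := h.exists_chief hC hgT
  have h9 : U ≤ B := h7.elim (fun k => k.trans inf_le_left) fun k => k.2
  exact ⟨U, V, h6, h9.trans h.le, hQ U V h6 h9, h8⟩

theorem res_equiv (S : Sylow p G) {M : Subgroup G} (hM : (S : Subgroup G) ≤ M)
    (h : (S : Subgroup G) ⊓ commutator G = (S : Subgroup G) ⊓ ⁅M, M⁆) [(pResidual p G).Normal]
    [(pResidual p M).Normal] : Nonempty (G ⧸ pResidual p G ≃* M ⧸ pResidual p M) := by
  have hS := sylIn_top S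
  have hSM := hS.of_le hM le_top
  have h1 : res p M ≤ pResidual p G := (res_mono le_top).trans res_top.le
  have h2 : (S : Subgroup G) ⊓ pResidual p G = (S : Subgroup G) ⊓ res p M := by
    refine H3.tate S (inf_le_inf_left _ h1) (fun g hg => ?_) ?_
    · exact H13.normalizer_inf (le_normalizer hg) (le_normalizer_res M (hM hg))
    · have k := hS.inf_res_le
      rw [res_top] at k
      refine ((le_inf inf_le_left k).trans h.le).trans (hSM.inf_commutator_le_res.trans ?_)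
      rw [sup_comm]
      exact sup_le_sup_left (H14.Fus.comm_le_frattini S.2) _
  let f : M →* G ⧸ pResidual p G := (QuotientGroup.mk' _).comp M.subtype
  have hf : Function.Surjective f := by
    intro x
    obtain ⟨d, rfl⟩ := QuotientGroup.mk_surjective x
    obtain ⟨t, ht, k, hk, rfl⟩ := hS.exists_mul_res' (mem_top d)
    rw [res_top] at hk
    exact ⟨⟨t, hM ht⟩, (QuotientGroup.eq.2 (by simpa using hk))⟩
  have hk : f.ker = pResidual p M := by
    ext x
    have e : x ∈ pResidual p M ↔ (x : G) ∈ res p M :=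
      ⟨fun k => ⟨x, k, rfl⟩, by rintro ⟨y, k, e⟩; rwa [← Subtype.ext e]⟩
    rw [e, MonoidHom.mem_ker]
    change ((x : G) : G ⧸ pResidual p G) = 1 ↔ _
    rw [QuotientGroup.eq_one_iff]
    refine ⟨fun k => ?_, fun k => h1 k⟩
    obtain ⟨a, ha, t, ht, e⟩ := hSM.exists_mul_res x.2
    have : t ∈ (S : Subgroup G) ⊓ pResidual p G :=
      ⟨ht, by rw [eq_inv_mul_of_mul_eq e]; exact (pResidual p G).mul_mem ((pResidual p G).inv_mem (h1 ha)) k⟩
    rw [← e]
    exact mul_mem ha (h2.le this).2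
  exact ⟨(QuotientGroup.quotientKerEquivOfSurjective f hf).symm.trans
    (QuotientGroup.quotientMulEquivOfEq hk)⟩

end

section
variable {G : Type u} [Group G] [Finite G] {p : ℕ} [Fact p.Prime]

theorem tc_J (hp : 7 ≤ p) : ∀ (Y : Type u) [Group Y], IsSec Y (⊤ : Subgroup G) →
    TC p {(fun Q _ => thompsonSubgroupA Q : GF.{u})} Y := by
  have hW := H3.isCharPFunctor_thompsonA.{u} (p := p)
  refine tc_of_charp (single_char hW) fun K R _ hs _ S hS => ?_
  by_contra hn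
  obtain ⟨g, hg, hgQ, h, -⟩ := jmain (by omega) hS
    fun h => hn (trCtl_of_normal (Set.mem_singleton _) h)
  obtain ⟨U, V, h1, h2, h3⟩ := (min_tr (single_char hW) (Set.singleton_nonempty _)
    hs hS hn rfl rfl).2.2.2 g hg hgQ
  have := h1.2.2.1
  exact h3 (iter_le_of_le le_normalizer_of_normal (by omega) (h U V h1 h2))

theorem tr_J (hp : 7 ≤ p) (S : Sylow p G) : (S : Subgroup G) ⊓ commutator G =
    (S : Subgroup G) ⊓ ⁅𝒩 (thompsonSubgroupAOf (S : Subgroup G)), 𝒩 (thompsonSubgroupAOf (S : Subgroup G))⁆ :=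
  tr_eq_of_tc (tc_J hp G (isSec_self G)) (sylIn_top S)

theorem npc_J (hp : 5 ≤ p) (S : Sylow p G)
    (h : ∀ g ∈ 𝒩 (thompsonSubgroupAOf (S : Subgroup G)), (orderOf g).Coprime p →
      g ∈ 𝒞 (thompsonSubgroupAOf (S : Subgroup G))) : HasNormalPComplement p G := by
  have hW := H3.isCharPFunctor_thompsonA.{u} (p := p)
  refine npc_of_sec hW S ?_ fun K R _ h1 h2 h3 T _ => ?_
  · refine npc_normalizer (sylIn_top S) (le_normalizer_induced hW S.2) (fun x hx => ?_)
      (res_le_iff.2 h)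
    change x ∈ thompsonSubgroupAOf _
    rw [thompsonSubgroupAOf_eq]
    exact mem_thompsonOf_of_centralizes hx.1 (pow_zero x) (thompsonSubgroupAOf_eq (S : Subgroup G) ▸ hx.2)
  · by_contra hn
    obtain ⟨g, hg, -, -, h4⟩ := jmain (by omega) (sylIn_top T) hn
    obtain ⟨U, V, hUV, hU, h5, h6⟩ := h4 h1
    have := hUV.2.2.1
    exact h6 (comm_le_of_iter_le (sylIn_top T) h2 h3 hUV hU hg
      (iter_le_of_le le_normalizer_of_normal (by omega) h5))

end

end H17.Jt
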