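import Cfsg.Agent.S3781
import Cfsg.Agent.H16.Misc

/-! Mann's bound on the order of a p-group of given derived length. -/

set_option autoImplicit false
set_option linter.unusedSectionVars false

open Subgroup Cfsg H16
open scoped commutatorElement

namespace H17.Mann

variable {G : Type*} [Group G] [Finite G] {p : ℕ} [hp : Fact p.Prime]

local notation "γ" => Subgroup.lowerCentralSeries (⊤ : Subgroup G)

theorem lemB (hG : IsPGroup p G) (n : ℕ) : ∀ (K M : Subgroup G) [K.Normal] [M.Normal], K ≤ M →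
    Nat.card M ≤ p ^ n * Nat.card K → ⁅M, γ n⁆ ≤ ⁅K, (⊤ : Subgroup G)⁆ := by
  induction n with
  | zero =>
    intro K M _ _ h1 h2
    rw [← eq_of_le_of_card h1 (by simpa using h2)]
    exact commutator_mono le_rfl le_top
  | succ n ih =>
    intro K M _ _ h1 h2
    rcases h1.eq_or_lt with rfl | h3
    · exact commutator_mono le_rfl le_top
    obtain ⟨M', hM', h8, h9, h10⟩ := H9.exists_normal_mul_card_eq hG h3
    rw [Subgroup.lowerCentralSeries_succ, commutator_comm]
    refine H9.three_subgroups ?_ ?_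
    · rw [commutator_comm ⊤]
      have := Cfsg.Agent.S3781.H7.s3781_aux hG 0 M' M h9 (by simpa using h10.le)
      refine (commutator_mono this le_rfl).trans (ih K M' h8 ?_)
      refine le_of_mul_le_mul_left ?_ hp.out.pos
      rw [← h10, ← mul_assoc, ← pow_succ']
      exact h2
    · exact commutator_mono (Cfsg.Agent.S3781.H7.s3781_aux hG n K M h1 h2) le_rfl

theorem cyc {K N : Subgroup G} [K.Normal] [N.Normal] {x : G} (hx : x ∈ N) (h : N ≤ K ⊔ zpowers x) :
    ⁅N, N⁆ ≤ ⁅K, N⁆ := by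
  rw [H9.commutator_le_iff_le_centMod]
  refine h.trans (sup_le (H9.commutator_le_iff_le_centMod.1 le_rfl) (zpowers_le.2 ?_))
  rw [H9.mem_centMod]
  intro s hs
  have : N ≤ H9.centMod ⁅K, N⁆ {x} := h.trans (sup_le (fun k hk => H9.mem_centMod.2 fun s hs => by
    rw [Set.mem_singleton_iff.1 hs]; exact commutator_mem_commutator hk hx)
    (zpowers_le.2 (H9.mem_centMod.2 fun s hs => by
      rw [Set.mem_singleton_iff.1 hs, commutatorElement_self]; exact one_mem _)))
  rw [← commutatorElement_inv]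
  exact inv_mem (H9.mem_centMod.1 (this hs) x rfl)

theorem gen {K N : Subgroup G} [K.Normal] (h1 : K ≤ N) (h2 : Nat.card N = p * Nat.card K) :
    ∃ x ∈ N, N ≤ K ⊔ zpowers x := by
  have : K < N := lt_of_le_of_ne h1 fun h => by
    rw [h] at h2
    have := hp.out.one_lt
    have : 0 < Nat.card N := Nat.card_pos
    nlinarith
  obtain ⟨x, hx, hxK⟩ := SetLike.exists_of_lt this
  refine ⟨x, hx, ?_⟩
  rcases H9.eq_or_eq_of_card_eq_mul (K := K ⊔ zpowers x) le_sup_left (sup_le h1 (zpowers_le.2 hx)) h2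
    with h | h
  · exact absurd (h ▸ (le_sup_right : _ ≤ K ⊔ _) (mem_zpowers x)) hxK
  · exact h.ge

theorem step (hG : IsPGroup p G) (j : ℕ) (N : Subgroup G) [N.Normal] (hN : N ≤ γ j) (hne : ⁅N, N⁆ ≠ ⊥) :
    p ^ (j + 2) * Nat.card (⁅N, N⁆ : Subgroup G) ≤ Nat.card N ∧
      (p ^ (j + 3) * Nat.card (⁅N, N⁆ : Subgroup G) ≤ Nat.card N ∨
        ⁅⁅N, N⁆, ⁅N, N⁆⁆ ≤ γ (4 * j + 4)) := by
  have := hG.isNilpotent
  have p1 := hp.out.one_lt
  have hlt : ⁅⁅N, N⁆, (⊤ : Subgroup G)⁆ < ⁅N, N⁆ :=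
    H9.commutator_lt (by rw [normalizer_eq_top]) hne
  have hlt0 : ⁅N, N⁆ < N := (commutator_mono le_rfl le_top).trans_lt
    (H9.commutator_lt (by rw [normalizer_eq_top]) (ne_bot_of_le hne (der_le N)))
  obtain ⟨K1, _, h1, h2, h3⟩ := H9.exists_normal_mul_card_eq hG hlt0
  obtain ⟨x, hx, hx'⟩ := gen h2 h3
  obtain ⟨t, ht⟩ : ∃ t, (⁅N, N⁆).relIndex N = p ^ t := IsPGroup.index (hG.to_subgroup _) _
  have hc := H16.card_mul_relIndex hlt0.le
  rw [ht] at hc
  have hpos : 0 < Nat.card (⁅N, N⁆ : Subgroup G) := Nat.card_pos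
  have ht2 : j + 2 ≤ t := by
    by_contra hh
    have := lemB hG j _ K1 h1 (by
      refine le_of_mul_le_mul_left ?_ hp.out.pos
      rw [← h3, ← mul_assoc, ← pow_succ', ← hc, mul_comm]
      exact Nat.mul_le_mul_right _ (Nat.pow_le_pow_right p1.le (by omega)))
    exact hlt.not_ge ((cyc hx hx').trans ((commutator_mono le_rfl hN).trans this))
  refine ⟨by rw [← hc, mul_comm]; exact Nat.mul_le_mul_left _ (Nat.pow_le_pow_right p1.le ht2), ?_⟩
  rcases ht2.eq_or_lt with rfl | ht3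
  swap
  · left; rw [← hc, mul_comm]; exact Nat.mul_le_mul_left _ (Nat.pow_le_pow_right p1.le ht3)
  right
  have hK1 : Nat.card K1 = p ^ (j + 1) * Nat.card (⁅N, N⁆ : Subgroup G) := by
    apply Nat.eq_of_mul_eq_mul_left hp.out.pos
    rw [← h3, ← hc]; ring
  have hlt1 : ⁅N, N⁆ < K1 := lt_of_le_of_ne h1 fun h => by
    rw [← h] at hK1
    have : 1 < p ^ (j + 1) := Nat.one_lt_pow (Nat.succ_ne_zero j) p1
    nlinarith
  obtain ⟨K2, _, h4, h5, h6⟩ := H9.exists_normal_mul_card_eq hG hlt1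
  obtain ⟨y, hy, hy'⟩ := gen h5 h6
  have hT : ⁅K2, N⁆ ≤ ⁅⁅N, N⁆, (⊤ : Subgroup G)⁆ :=
    (commutator_mono le_rfl hN).trans (lemB hG j _ K2 h4 (by
      refine le_of_mul_le_mul_left ?_ hp.out.pos
      rw [← h6, hK1, ← mul_assoc, ← pow_succ']))
  set T := ⁅⁅N, N⁆, (⊤ : Subgroup G)⁆ with hTd
  have hc' : ⁅y, x⁆ ∈ ⁅N, N⁆ := commutator_mem_commutator (h2 hy) hx
  have : (T ⊔ zpowers ⁅y, x⁆).Normal :=
    H9.normal_of_commutator_le (N := T) (commutator_mono (sup_le hlt.le (zpowers_le.2 hc')) le_rfl)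
      le_sup_left
  have h7 : ⁅N, N⁆ ≤ T ⊔ zpowers ⁅y, x⁆ := by
    refine (cyc hx hx').trans ?_
    refine (commutator_mono hy' le_rfl).trans (H9.commutator_sup_le (hT.trans le_sup_left) ?_)
    rw [commutator_comm]
    refine (commutator_mono hx' le_rfl).trans (H9.commutator_sup_le ?_ ?_)
    · refine (commutator_mono hy' le_rfl).trans (H9.commutator_sup_le ?_ ?_)
      · exact (commutator_mono le_rfl (zpowers_le.2 (h2 hy))).trans (hT.trans le_sup_left)
      · rw [der_eq_bot.2 inferInstance]; exact bot_le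
    · rw [zpowers_eq_closure x, zpowers_eq_closure y]
      refine H9.commutator_closure_le fun s hs t ht => ?_
      rw [Set.mem_singleton_iff.1 hs, Set.mem_singleton_iff.1 ht, ← commutatorElement_inv y x]
      exact inv_mem ((le_sup_right : _ ≤ T ⊔ _) (mem_zpowers _))
  have g1 : ⁅N, N⁆ ≤ γ (j + j + 1) := (commutator_mono hN hN).trans (H9.top_lcs_commutator_le j j)
  have g2 : T ≤ γ (j + j + 1 + 1) := by
    rw [Subgroup.lowerCentralSeries_succ]; exact commutator_mono g1 le_rfl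
  refine (cyc hc' h7).trans ((commutator_mono g2 g1).trans ?_)
  rw [show 4 * j + 4 = j + j + 1 + 1 + (j + j + 1) + 1 by ring]
  exact H9.top_lcs_commutator_le _ _

theorem main (hG : IsPGroup p G) (i : ℕ) (h : derivedSeries G i ≠ ⊥) :
    ∃ j, j + 1 = 2 ^ i ∧ derivedSeries G i ≤ γ j ∧
    (p ^ (2 ^ i + 2 * i) * Nat.card (derivedSeries G i) ≤ p * Nat.card G ∨
    (p ^ (2 ^ i + 2 * i) * Nat.card (derivedSeries G i) ≤ p ^ 2 * Nat.card G ∧
      derivedSeries G (i + 1) ≤ γ (2 ^ (i + 1))) ∨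
    (p ^ (2 ^ i + 2 * i) * Nat.card (derivedSeries G i) ≤ p ^ 3 * Nat.card G ∧
      derivedSeries G i ≤ γ (2 ^ i))) := by
  induction i with
  | zero => exact ⟨0, rfl, le_top, Or.inl (by simp)⟩
  | succ i ih =>
    obtain ⟨j, hj, h1, h2⟩ := ih (ne_bot_of_le h (derivedSeries_antitone G (Nat.le_succ i)))
    have := derivedSeries_normal G i
    rw [derivedSeries_succ] at h
    obtain ⟨s1, s2⟩ := step hG j _ h1 h
    refine ⟨j + j + 1, by rw [pow_succ]; omega,
      (commutator_mono h1 h1).trans (H9.top_lcs_commutator_le j j), ?_⟩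
    have e : 2 ^ (i + 1) + 2 * (i + 1) = 2 ^ i + 2 * i + (j + 3) := by rw [pow_succ]; omega
    rw [e, pow_add, mul_assoc, derivedSeries_succ G i]
    have w : ∀ a b : ℕ, p ^ (2 ^ i + 2 * i) * Nat.card (derivedSeries G i) ≤ p ^ a * b →
        p ^ (2 ^ i + 2 * i) * (p ^ (j + 3) * Nat.card (⁅derivedSeries G i, derivedSeries G i⁆ :
          Subgroup G)) ≤ p ^ (a + 1) * b := fun a b hh => by
      calc _ = p * (p ^ (2 ^ i + 2 * i) * (p ^ (j + 2) * Nat.card (⁅derivedSeries G i,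
            derivedSeries G i⁆ : Subgroup G))) := by ring
        _ ≤ p * (p ^ a * b) := Nat.mul_le_mul_left _ ((Nat.mul_le_mul_left _ s1).trans hh)
        _ = _ := by ring
    rcases h2 with h2 | ⟨h2, h3⟩ | ⟨h2, h3⟩
    · rcases s2 with s2 | s2
      · exact Or.inl ((Nat.mul_le_mul_left _ s2).trans h2)
      · refine Or.inr (Or.inl ⟨w 1 _ (by simpa using h2), ?_⟩)
        rw [show 2 ^ (i + 1 + 1) = 4 * j + 4 by rw [pow_succ, pow_succ]; omega]
        exact s2
    · exact Or.inr (Or.inr ⟨w 2 _ h2, h3⟩)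
    · refine Or.inr (Or.inr ⟨?_, ?_⟩)
      · have := (step hG _ _ h3 h).1
        rw [← hj] at this
        exact (Nat.mul_le_mul_left _ this).trans h2
      · refine (commutator_mono h3 h3).trans ((H9.top_lcs_commutator_le _ _).trans ?_)
        exact Subgroup.lowerCentralSeries_antitone _ (by rw [pow_succ]; omega)

end H17.Mann
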