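import Cfsg.Agent.H19.Fr1
import Cfsg.Agent.H2.RepFree
import Cfsg.Agent.H25.Prim

/-! Fixed points of a Sylow 2-subgroup on a module with permuted weights. -/

set_option autoImplicit false
set_option linter.unusedSectionVars false
set_option linter.unusedSimpArgs false
set_option linter.unusedVariables false

namespace H17.Ng
open Module Subgroup H2 H19.Fr
open scoped Pointwise commutatorElement

theorem le_finrank {k W : Type*} [Field k] [AddCommGroup W] [Module k W] [FiniteDimensional k W]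
    {n : ℕ} (a : Fin n → W) (π : Fin n → End k W) (U : Submodule k W) (ha : ∀ i, a i ∈ U)
    (h1 : ∀ i, π i (a i) ≠ 0) (h2 : ∀ i j, i ≠ j → π i (a j) = 0) : n ≤ finrank k U := by
  have h : LinearIndependent k fun i => (⟨a i, ha i⟩ : U) := by
    refine LinearIndependent.of_comp U.subtype (Fintype.linearIndependent_iff.2 fun c hc i => ?_)
    have := congrArg (π i) hc
    rw [map_sum, map_zero, Finset.sum_eq_single i (fun j _ hj => by
      simp [h2 i j hj.symm]) (by simp)] at this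
    simpa [h1 i] using this
  simpa using h.fintype_card_le_finrank

theorem main {k W G : Type*} [Field k] [IsAlgClosed k] [CharP k 2] [AddCommGroup W] [Module k W]
    [FiniteDimensional k W] [Nontrivial W] [Group G] [Finite G] (ρ : Representation k G W)
    (V T : Subgroup G) [V.Normal] (hV : (Nat.card V : k) ≠ 0) (hab : _root_.commutator V = ⊥)
    (h0 : Fx ρ V = ⊥) (hT : IsPGroup 2 T) {q : ℕ} (hq : q.Prime) (hq2 : q ≠ 2) (Q : Sylow q G)
    (hQ : Nat.card (Q : Subgroup G) = q) (hc : ⁅V, (Q : Subgroup G)⁆ = V)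
    (hH : Nat.card (T ⊔ Q : Subgroup G) = Nat.card T * q) :
    2 ≤ finrank k (Fx ρ T) ∧
      ((∀ x ∈ (Q : Subgroup G), ∀ v ∈ Fx ρ T, ρ x v ∈ Fx ρ T) → 3 ≤ finrank k (Fx ρ T)) := by
  classical
  have := Fact.mk hq
  have := Fintype.ofFinite V
  have := finite_weights hV
  have := Fintype.ofFinite (V →* kˣ)
  have hV' := hV
  rw [Nat.card_eq_fintype_card] at hV'
  let σ : V →* End k W := ρ.comp V.subtype
  let φ : G →* MulAut V := MulAut.conjNormal
  let _ := wtAction k φ
  have hsm : ∀ (r : G) (l : V →* kˣ), r • l = l.comp (φ r).symm.toMonoidHom := fun _ _ => rfl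
  have hc0 : ∀ r a, ρ r * σ a = σ (φ r a) * ρ r := fun r a => by
    simp only [σ, φ, MonoidHom.comp_apply, coe_subtype, ← map_mul, MulAut.conjNormal_apply,
      inv_mul_cancel_right]
  have hc1 : ∀ (r : G) l w, wp σ (r • l) (ρ r w) = ρ r (wp σ l w) := fun r l w =>
    (LinearMap.congr_fun (conj_wp σ (φ r) (hc0 r) l) w).symm
  have hinj : ∀ (r : G) w, ρ r w = 0 → w = 0 := fun r w h => by
    rw [← rep_inv_apply ρ r w, h, map_zero]
  have hsum : ∀ w, ∑ l, wp σ l w = w := fun w =>
    sum_wp_apply σ hV' (by rw [hab, fix_bot]; trivial)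
  let A : (V →* kˣ) → Prop := fun l => ∃ w, wp σ l w ≠ 0
  have hA : ∀ (g : G) l, A l → A (g • l) := by
    rintro g l ⟨w, hw⟩
    exact ⟨ρ g w, by rw [hc1]; exact fun h => hw (hinj _ _ h)⟩
  obtain ⟨l, hl⟩ : ∃ l, A l := by
    obtain ⟨w, hw⟩ := exists_ne (0 : W)
    by_contra! h
    refine hw ?_
    rw [← hsum w]
    exact Finset.sum_eq_zero fun l _ => by_contra fun e => h l ⟨w, e⟩
  have hgen : ∀ s ∈ (Q : Subgroup G), s ≠ 1 → zpowers s = Q := fun s hs h1 =>
    eq_of_le_of_card_ge (zpowers_le.2 hs) (by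
      rw [hQ, Nat.card_zpowers]
      have := orderOf_dvd_natCard (⟨s, hs⟩ : (Q : Subgroup G))
      rw [hQ, orderOf_mk] at this
      rcases (Nat.dvd_prime hq).1 this with h | h
      · exact (h1 (orderOf_eq_one_iff.1 h)).elim
      · exact h.ge)
  have h1 : ∀ l, A l → ∀ s ∈ (Q : Subgroup G), s ≠ 1 → s • l ≠ l := by
    rintro l ⟨w, hw⟩ s hs hs1 e
    have h2 : (Q : Subgroup G) ≤ MulAction.stabilizer G l := by
      rw [← hgen s hs hs1]; exact zpowers_le.2 e
    have h3 : V ≤ l.ker.map V.subtype := by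
      refine hc.ge.trans (commutator_le.2 fun a ha b hb => ?_)
      refine ⟨⟨a, ha⟩ * φ b ⟨a, ha⟩⁻¹, ?_, by simp [φ, commutatorElement_def, mul_assoc]⟩
      have h4 := DFunLike.congr_fun (h2 hb : b • l = l) (φ b ⟨a, ha⟩⁻¹)
      rw [hsm] at h4
      simp only [MonoidHom.comp_apply, MulEquiv.coe_toMonoidHom, MulEquiv.symm_apply_apply] at h4
      change l _ = 1
      rw [map_mul, ← h4, map_inv, mul_inv_cancel]
    have h5 : l = 1 := MonoidHom.ext fun a => by
      obtain ⟨b, hb, e⟩ := h3 a.2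
      rw [← Subtype.ext e]; exact hb
    have h6 := wp_mem σ l w
    rw [h5, wsp_one] at h6
    have h7 : wp σ 1 w ∈ Fx ρ V := mem_Fx.2 fun a ha => h6 ⟨a, ha⟩ trivial
    rw [h0] at h7
    exact hw (h5 ▸ h7)
  have h2 : ∀ l, A l → ∃ h ∈ T ⊔ Q, h • l ∉ MulAction.orbit T l := fun l hl => by
    by_contra! hh
    have e : MulAction.orbit (T ⊔ Q : Subgroup G) l = MulAction.orbit T l := by
      refine Set.Subset.antisymm ?_ ?_
      · rintro _ ⟨h, rfl⟩; exact hh h h.2
      · rintro _ ⟨t, rfl⟩; exact ⟨⟨t, mem_sup_left t.2⟩, rfl⟩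
    have e1 := (MulAction.stabilizer (T ⊔ Q : Subgroup G) l).card_mul_index
    rw [MulAction.index_stabilizer, e, ← MulAction.index_stabilizer, hH] at e1
    obtain ⟨n, hn⟩ := IsPGroup.iff_card.1 hT
    have e2 : (MulAction.stabilizer T l).index ∣ 2 ^ n := hn ▸ index_dvd_card _
    have e3 : q ∣ Nat.card (MulAction.stabilizer (T ⊔ Q : Subgroup G) l) := by
      refine Nat.Coprime.dvd_of_dvd_mul_right (k := q) ?_ (by rw [e1]; exact dvd_mul_left _ _)
      exact Nat.Coprime.coprime_dvd_right e2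
        (((Nat.coprime_primes hq Nat.prime_two).2 hq2).pow_right n)
    obtain ⟨y, hy⟩ := exists_prime_orderOf_dvd_card' q e3
    have hy' : orderOf (y.1.1 : G) = q := by rw [orderOf_coe, orderOf_coe, hy]
    obtain ⟨Q', hQ'⟩ := (IsPGroup.of_card (p := q) (n := 1) (G := zpowers (y.1.1 : G))
      (by rw [Nat.card_zpowers, hy', pow_one])).exists_le_sylow
    obtain ⟨g, rfl⟩ := MulAction.exists_smul_eq G Q Q'
    obtain ⟨s, hs, e4⟩ := hQ' (mem_zpowers _)
    change g * s * g⁻¹ = _ at e4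
    refine h1 _ (hA g⁻¹ l hl) s hs (fun h => ?_) ?_
    · rw [h, mul_one, mul_inv_cancel] at e4
      rw [← e4, orderOf_one] at hy'
      exact hq.one_lt.ne hy'
    · have e5 : (y.1.1 : G) • l = l := y.2
      rw [← e4] at e5
      rw [← smul_left_cancel_iff g, smul_inv_smul, smul_smul, smul_smul, e5]
  have h3 : ∀ l, A l → ∃ v ∈ Fx ρ T, ∀ m, wp σ m v ≠ 0 ↔ m ∈ MulAction.orbit T l := by
    rintro l ⟨w, hw⟩
    let _ : DistribMulAction T W := DistribMulAction.compHom W (ρ.comp T.subtype)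
    let X : AddSubgroup W :=
      { carrier := {w | ∀ m, m ∉ MulAction.orbit T l → wp σ m w = 0}
        add_mem' := fun ha hb m hm => by rw [map_add, ha m hm, hb m hm, add_zero]
        zero_mem' := fun m _ => map_zero _
        neg_mem' := fun ha m hm => by rw [map_neg, ha m hm, neg_zero] }
    obtain ⟨v, hv, hv0, hv1⟩ := H25.exists_fixed_vector (V := W) hT
      (fun v => by rw [← Nat.cast_smul_eq_nsmul k, CharP.cast_eq_zero, zero_smul]) X
      (fun t w hw m hm => by
        change wp σ m (ρ t w) = 0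
        rw [← smul_inv_smul (t : G) m, hc1, hw, map_zero]
        intro h
        refine hm ?_
        obtain ⟨t', ht'⟩ := h
        exact ⟨t * t', (mul_smul t t' l).trans
          ((congrArg (t • ·) ht').trans (smul_inv_smul (t : G) m))⟩)
      (w := wp σ l w) (fun m hm => wp_apply_ne σ (fun e => hm (by
        rw [e]; exact MulAction.mem_orbit_self _)) (wp_mem σ l w)) hw
    refine ⟨v, mem_Fx.2 fun t ht => hv1 ⟨t, ht⟩, fun m => ⟨fun h => by_contra fun e => h (hv m e),
      fun h => ?_⟩⟩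
    obtain ⟨m', hm'⟩ : ∃ m', wp σ m' v ≠ 0 := by
      by_contra! h
      exact hv0 (by rw [← hsum v]; exact Finset.sum_eq_zero fun l _ => h l)
    have h4 : m' ∈ MulAction.orbit T l := by_contra fun e => hm' (hv m' e)
    obtain ⟨t, rfl⟩ := h
    obtain ⟨t', rfl⟩ := h4
    have h5 : ρ (t * t'⁻¹ : T) v = v := hv1 (t * t'⁻¹)
    have h6 := hc1 (t * t'⁻¹ : T) (t' • l) v
    rw [h5] at h6
    have h7 : ((t * t'⁻¹ : T) : G) • t' • l = t • l := by
      change (t * t'⁻¹) • t' • l = t • l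
      rw [smul_smul, inv_mul_cancel_right]
    rw [h7] at h6
    change wp σ (t • l) v ≠ 0
    rw [h6]
    exact fun e => hm' (hinj _ _ e)
  obtain ⟨v, hv, hv'⟩ := h3 l hl
  refine ⟨?_, fun hinv => ?_⟩
  · obtain ⟨h, -, hh⟩ := h2 l hl
    obtain ⟨u, hu, hu'⟩ := h3 _ (hA h l hl)
    refine le_finrank ![v, u] ![wp σ l, wp σ (h • l)] _ (fun i => by fin_cases i; exacts [hv, hu])
      (fun i => ?_) fun i j hij => ?_
    · fin_cases i
      · exact (hv' l).2 (MulAction.mem_orbit_self _)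
      · exact (hu' _).2 (MulAction.mem_orbit_self _)
    · fin_cases i <;> fin_cases j
      · exact (hij rfl).elim
      · exact by_contra fun e => hh (MulAction.orbit_eq_iff.2 ((hu' l).1 e) ▸
          MulAction.mem_orbit_self _)
      · exact by_contra fun e => hh ((hv' _).1 e)
      · exact (hij rfl).elim
  have h4 : ∀ s ∈ (Q : Subgroup G), s ≠ 1 → s • l ∉ MulAction.orbit T l := fun s hs hs1 e => by
    obtain ⟨h, hh, hh'⟩ := h2 l hl
    have a1 : MulAction.orbit T l ⊆ s • MulAction.orbit T l := by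
      intro m hm
      rw [Set.mem_smul_set_iff_inv_smul_mem, ← hv']
      obtain ⟨t, rfl⟩ := MulAction.orbit_eq_iff.2 e ▸ hm
      have b1 := hc1 t (s • l) (ρ s v)
      rw [mem_Fx.1 (hinv s hs v hv) t t.2, hc1 s l v] at b1
      have b2 := hc1 s (s⁻¹ • (t : G) • s • l) v
      rw [smul_inv_smul, b1] at b2
      intro b3
      change wp σ (s⁻¹ • (t : G) • s • l) v = 0 at b3
      rw [b3, map_zero] at b2
      exact (hv' l).2 (MulAction.mem_orbit_self _) (hinj _ _ (hinj _ _ b2))
    have a2 : s ∈ MulAction.stabilizer G (MulAction.orbit T l) :=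
      (Set.eq_of_subset_of_ncard_le a1 (by rw [Set.ncard_smul_set]) (Set.toFinite _)).symm
    have a3 : T ⊔ Q ≤ MulAction.stabilizer G (MulAction.orbit T l) :=
      sup_le (fun t ht => MulAction.smul_orbit (⟨t, ht⟩ : T) l)
        (by rw [← hgen s hs hs1]; exact zpowers_le.2 a2)
    refine hh' ?_
    rw [← (a3 hh : h • MulAction.orbit T l = _)]
    exact Set.smul_mem_smul_set (MulAction.mem_orbit_self _)
  obtain ⟨x, hx⟩ := exists_prime_orderOf_dvd_card' (G := (Q : Subgroup G)) q (by rw [hQ])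
  have hq3 : 3 ≤ q := by have := hq.two_le; omega
  refine le_finrank (fun i : Fin 3 => ρ (x ^ (i : ℕ)).1 v)
    (fun i => wp σ (((x ^ (i : ℕ)).1 : G) • l)) _ (fun i => hinv _ (Subtype.prop _) v hv)
    (fun i => ?_) fun i j hij => ?_
  · rw [hc1]; exact fun e => (hv' l).2 (MulAction.mem_orbit_self _) (hinj _ _ e)
  · rw [← smul_inv_smul ((x ^ (j : ℕ)).1 : G) (((x ^ (i : ℕ)).1 : G) • l), hc1, smul_smul]
    have : wp σ (((((x ^ (j : ℕ)).1 : G))⁻¹ * (x ^ (i : ℕ)).1) • l) v = 0 := by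
      by_contra e
      refine h4 _ (mul_mem (inv_mem (Subtype.prop _)) (Subtype.prop _)) (fun h => hij ?_)
        ((hv' _).1 e)
      rw [inv_mul_eq_one] at h
      have := pow_injOn_Iio_orderOf (x := x) (by rw [hx]; exact Set.mem_Iio.2 (by omega))
        (by rw [hx]; exact Set.mem_Iio.2 (by omega)) (Subtype.ext h)
      exact Fin.ext this.symm
    rw [this, map_zero]

end H17.Ng
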