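import Cfsg.Agent.H16.LA19

/-! Sylow 2-subgroups of special orthogonal groups. -/

set_option autoImplicit false
set_option linter.unusedSectionVars false
set_option linter.unusedSimpArgs false
set_option linter.unusedVariables false

namespace H17.Oct
open Module H23 H23.Form H22 Finset H16

variable {F V ρ : Type*} {β : Type} [Field F] [Fintype F] [AddCommGroup V] [Module F V]
  [FiniteDimensional F V] [Fintype β] [Fintype ρ]

theorem ab2_so_of (ho : Odd (Fintype.card F)) {Φ : Form (RingHom.id F) V} (hΦ : Φ.Nondeg)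
    (hκ : Φ.κ = 1) (hg : GenHyp Φ) {a : F} (ha : a ≠ 0) {c : ρ → F} (hc : ∀ i, c i ≠ 0)
    [Nontrivial β] {e : ((β → Fin 2 → F) × (ρ → F)) ≃ₗ[F] V}
    (h : IsSum Φ (ofQuad (dq fun _ => a)) (ofQuad (dq c)) e)
    (hv : padicValNat 2 (Nat.card Φ.O) = Fintype.card β * padicValNat 2 (Fintype.card F ^ 2 - 1) +
      padicValNat 2 (Fintype.card β).factorial + Fintype.card ρ)
    (P : Sylow 2 (dickson hΦ hκ hg).ker) : Abp 2 P := by
  classical
  have h2 := H22.two_ne_zero_of_odd_card ho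
  obtain ⟨D, hD, hD'⟩ := exists_plane_sylow ho ha
  obtain ⟨T⟩ : Nonempty (Sylow 2 (Equiv.Perm β)) := inferInstance
  have : Finite V := Module.finite_of_finite F
  have : Finite (V ≃ₗ[F] V) := Finite.of_injective _ DFunLike.coe_injective
  let χ : Φ.O →* ℤˣ × ℤˣ := (dickson hΦ hκ hg).prod 1
  have hχ : (dickson hΦ hκ hg).ker = χ.ker := by
    ext g; rw [MonoidHom.mem_ker, MonoidHom.mem_ker, Prod.ext_iff]
    exact ⟨fun h => ⟨h, rfl⟩, fun h => h.1⟩
  have hr : ∀ v, Φ.Q v ≠ 0 → χ (refl hκ v) = (-1, 1) := fun v hv =>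
    Prod.ext (dickson_refl _ _ _ hv) rfl
  let φ := wrO (T : Subgroup (Equiv.Perm β)) h D.subtype (sgnO c)
  obtain ⟨f⟩ := sylow_normal_equiv (p := 2) φ (wrO_injective h D.subtype_injective
    (sgnO_injective h2 c)) (by
      rw [Nat.card_prod, card_wr, hD, T.card_eq_multiplicity, Nat.factorization_def _ Nat.prime_two,
        Nat.card_perm, Nat.card_fun, hv, ← pow_mul, pow_add, pow_add, mul_comm (Fintype.card β)]
      simp) _ P
  refine Abp.of_equiv ?_ f.symm
  rw [hχ, MonoidHom.comap_ker]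
  obtain ⟨i₀⟩ : Nonempty β := inferInstance
  have hw : ∀ i (d : D) u, dq (fun _ => a) u ≠ 0 → d.1 = refl (ofQuad_κ _) u →
      χ (φ (wsg _ i d, 1)) = (-1, 1) := fun i d u hu hd => by
    rw [wrO_wsg_refl h _ _ hκ rfl hd, hr]
    rwa [h.Q_single]
  refine ab2_ker_wr (χ.comp φ) (x := (-1, 1)) (y := (-1, -1)) (by simp) (by simp) (fun a b h => ?_)
    (((χ.comp φ).comp (MonoidHom.inl _ _)).comp (wsg _ i₀)) (fun i d => ?_) (fun q => ?_)
    (abp_sylow_perm T) {d : D | ∃ u, dq (fun _ => a) u ≠ 0 ∧ d.1 = refl (ofQuad_κ _) u} ?_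
    (.inl inferInstance) (fun S _ h => eq_top_iff.2 (hD' ▸ (Subgroup.closure_le _).2 h))
    _ ?_ mul_comm closure_mulSingle_neg
  · simp only [Prod.pow_mk, Prod.mk_mul_mk, one_pow, one_mul, Prod.mk_eq_one, ← pow_add,
      neg_one_pow_eq_one_iff_even (show (-1 : ℤˣ) ≠ 1 by decide)] at h
    exact ⟨(Nat.even_add.1 h.1).2 h.2, h.2⟩
  · refine DFunLike.congr_fun (MonoidHom.eq_of_eqOn_dense hD' (f := (((χ.comp φ).comp
      (MonoidHom.inl _ _)).comp (wsg _ i))) ?_) d
    rintro d ⟨u, hu, hd⟩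
    exact (hw i d u hu hd).trans (hw i₀ d u hu hd).symm
  · have : ∀ τ : Equiv.Perm β, wrO (Equiv.Perm β) h D.subtype (sgnO c) (.inr τ, 1) ∈ χ.ker := by
      intro τ
      induction τ using Equiv.Perm.swap_induction_on with
      | one => rw [map_one, Prod.mk_one_one, map_one]; exact one_mem _
      | swap_mul τ i j hij ih =>
        rw [map_mul, ← mul_one (1 : ρ → ℤˣ), ← Prod.mk_mul_mk, map_mul]
        refine mul_mem ?_ ih
        obtain ⟨h1, h3⟩ := wrO_swap h D.subtype (sgnO c) hκ (u := Pi.single 0 1)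
          (u' := Pi.single 1 1) (by rw [dq_B_single]; simp) (fun x => by
            simp only [dq_B_single, ofQuad_Q, dq_single]
            ext k; fin_cases k <;> simp <;> field_simp) hij
        rw [h1, MonoidHom.mem_ker, map_mul, hr _ (by simp [h3, dq_single, h2, ha]),
          hr _ (by simp [h3, dq_single, h2, ha])]
        simp
    exact this q.1
  · rintro d ⟨u, hu, hd⟩
    exact ⟨Subtype.ext (by rw [Subgroup.coe_mul, hd]; exact refl_mul_self _ _),
      .inl (hw i₀ d u hu hd)⟩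
  · rintro _ ⟨i, rfl⟩
    refine ⟨by rw [← Pi.mulSingle_mul]; simp, ?_⟩
    rw [MonoidHom.comp_apply, wrO_inr_refl h _ _ hκ rfl (sgnO_single (hc i)), hr]
    · exact .inl rfl
    · simp [h.Q, dq_single, hc]

theorem ab2_so (ho : Odd (Fintype.card F)) {Q : QuadraticForm F V}
    (hQ : (ofQuad Q).Nondeg) (hg : GenHyp (ofQuad Q)) (hV : finrank F V = 4)
    (hr : scal _ (-1) (by simp) ∈ commutator (ofQuad Q).O)
    (P : Sylow 2 (dickson hQ (ofQuad_κ Q) hg).ker) : Abp 2 P := by
  classical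
  have h2 := H22.two_ne_zero_of_odd_card ho
  have hv := (val_O_even ho hQ (m := 1) hV).1 hr
  obtain ⟨α, hα⟩ := FiniteField.exists_nonsquare (H22.ringChar_ne_two h2)
  obtain ⟨b, h1, h3, h4⟩ := exists_symm_basis h2 rfl hQ (n := 3) hV hα
  have h5 : ∀ i, Q (b i) = 2⁻¹ * (ofQuad Q).B (b i) (b i) := fun i => by
    rw [B_self_quad (ofQuad_κ Q), ofQuad_Q]; field_simp
  have h6 : ∀ i, Q (b i) ≠ 0 := fun i => by
    rw [h5]
    refine mul_ne_zero (inv_ne_zero h2) ?_
    by_cases h : i = Fin.last 3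
    · rcases h4 with h4 | h4 <;> rw [h, h4]
      · exact one_ne_zero
      · rintro rfl; simp at hα
    · rw [h3 i h]; exact one_ne_zero
  let g : (Fin 2 × Fin 2) ⊕ Fin 0 ≃ Fin (3 + 1) :=
    ((finProdFinEquiv.sumCongr (.refl _)).trans finSumFinEquiv).trans (finCongr rfl)
  have h7 : ∀ x, Q (b x) = 2⁻¹ := fun x => by
    by_cases h : x = Fin.last 3
    · rcases h4 with h4 | h4
      · rw [h5, h, h4, mul_one]
      have h8 := ((neg_mem_commutator_iff hQ h2 b h1 h6 (by simp [hV]) rfl).1 hr).2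
      simp only [ofQuad_Q, h5, prod_mul_distrib, Fin.prod_univ_castSucc, h4,
        fun i : Fin 3 => h3 _ (Fin.castSucc_ne_last i), prod_const_one, one_mul, prod_const,
        card_univ, Fintype.card_fin, add_zero] at h8
      refine (hα ?_).elim
      obtain ⟨t, ht⟩ := h8
      rw [inv_pow] at ht
      exact ⟨t * 2 ^ 2, by field_simp at ht; linear_combination ht⟩
    · rw [h5, h3 _ h, mul_one]
  obtain ⟨e, he⟩ := exists_isSum (b.reindex g.symm) (fun i j h => by
    simpa using h1 _ _ (g.injective.ne h)) (a := fun _ => 2⁻¹) (fun i k => by simpa using h7 _)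
  exact ab2_so_of ho hQ rfl hg (inv_ne_zero h2) (fun i => by simpa using h6 _) he
    (by simpa using hv) P

end H17.Oct
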