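import Cfsg.Agent.H16.CV2
import Cfsg.Agent.H23.Nd1

/-! Involutions of the split octonions. -/

set_option autoImplicit false
set_option linter.unusedSectionVars false
set_option linter.unusedSimpArgs false
set_option linter.unusedVariables false
set_option linter.unnecessarySeqFocus false

namespace H17.Oct
open Module H23 H23.Form H22 H16 H16.CV Cfsg.Lie

variable {F : Type*} [Field F]

/-- the action on the octonions -/
def ev (F : Type*) [Field F] : G2 F →* End F (Fin 8 → F) :=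
  ((lin _ F).comp (Units.coeHom _)).comp (G2 F).subtype

theorem ev_za (g : G2 F) : ZA (ev F g) := ⟨(g.1.isUnit.map (lin _ F)), g.2⟩

theorem ev_surj {f : End F (Fin 8 → F)} (hf : ZA f) : ∃ g, ev F g = f := by
  obtain ⟨x, hx⟩ := exists_GL_of_inj ((Module.End.isUnit_iff f).1 hf.1).1
  exact ⟨⟨x, by subst hx; exact hf.2⟩, hx⟩

theorem ev_inj : Function.Injective (ev F) := fun a b h =>
  Subtype.ext (Units.ext (Matrix.toLin'.injective h))

theorem ev_mul (g h : G2 F) (x : Fin 8 → F) : ev F (g * h) x = ev F g (ev F h x) := by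
  rw [map_mul]; rfl

theorem ev_inv (g : G2 F) (x : Fin 8 → F) : ev F g⁻¹ (ev F g x) = x := by
  rw [← ev_mul, inv_mul_cancel, map_one]; rfl

theorem ev_inv' (g : G2 F) (x : Fin 8 → F) : ev F g (ev F g⁻¹ x) = x := by
  rw [← ev_mul, mul_inv_cancel, map_one]; rfl

/-- basis vectors -/
def bE (F : Type*) [Field F] (i : Fin 8) : Fin 8 → F := Pi.single i 1

theorem za_ext {f g : End F (Fin 8 → F)} (hf : ZA f) (hg : ZA g) (h1 : f (bE F 1) = g (bE F 1))
    (h2 : f (bE F 2) = g (bE F 2)) (h3 : f (bE F 3) = g (bE F 3)) : f = g := by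
  have e4 : bE F 4 = zornMul (bE F 2) (bE F 3) := by
    ext i; fin_cases i <;> simp [zornMul, dot3, cross3, bE]
  have e5 : bE F 5 = zornMul (bE F 3) (bE F 1) := by
    ext i; fin_cases i <;> simp [zornMul, dot3, cross3, bE]
  have e6 : bE F 6 = zornMul (bE F 1) (bE F 2) := by
    ext i; fin_cases i <;> simp [zornMul, dot3, cross3, bE]
  have e0 : bE F 0 = zornMul (bE F 1) (bE F 4) := by
    ext i; fin_cases i <;> simp [zornMul, dot3, cross3, bE]
  have e7 : bE F 7 = zornMul (bE F 4) (bE F 1) := by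
    ext i; fin_cases i <;> simp [zornMul, dot3, cross3, bE]
  have h4 : f (bE F 4) = g (bE F 4) := by rw [e4, hf.2, hg.2, h2, h3]
  have h5 : f (bE F 5) = g (bE F 5) := by rw [e5, hf.2, hg.2, h1, h3]
  have h6 : f (bE F 6) = g (bE F 6) := by rw [e6, hf.2, hg.2, h1, h2]
  have h0 : f (bE F 0) = g (bE F 0) := by rw [e0, hf.2, hg.2, h1, h4]
  have h7 : f (bE F 7) = g (bE F 7) := by rw [e7, hf.2, hg.2, h1, h4]
  refine (Pi.basisFun F (Fin 8)).ext fun i => ?_
  rw [Pi.basisFun_apply]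
  fin_cases i
  exacts [h0, h1, h2, h3, h4, h5, h6, h7]

theorem idem {u : Fin 8 → F} (h1 : u 0 + u 7 = 1) (hu : zN u = 0) : ∃ x, ZA x ∧ x u = bE F 0 := by
  have s1 : ∀ u : Fin 8 → F, u 0 = 1 → u 7 = 0 → zN u = 0 → ∃ x, ZA x ∧ x u = bE F 0 :=
    fun u a1 a2 a3 => by
    have a4 : u 1 * u 4 + u 2 * u 5 + u 3 * u 6 = 0 := by
      rw [zN, a2] at a3; linear_combination -a3
    refine ⟨_, za_S.mul ((za_X (u 4) (u 5) (u 6)).mul (za_S.mul (za_X (u 1) (u 2) (u 3)))), ?_⟩
    ext i; fin_cases i <;> simp [zS, zX, bE, a1, a2, a4] <;> ring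
  by_cases a3 : u 4 ≠ 0 ∨ u 5 ≠ 0 ∨ u 6 ≠ 0
  · obtain ⟨p, q, r, h⟩ : ∃ p q r, u 0 + (p * u 4 + q * u 5 + r * u 6) = 1 := by
      rcases a3 with a | a | a
      · exact ⟨(1 - u 0) / u 4, 0, 0, by field_simp; ring⟩
      · exact ⟨0, (1 - u 0) / u 5, 0, by field_simp; ring⟩
      · exact ⟨0, 0, (1 - u 0) / u 6, by field_simp; ring⟩
    obtain ⟨x, hx, e⟩ := s1 (zX p q r u) h (by
      change u 7 - (p * u 4 + q * u 5 + r * u 6) = 0; linear_combination h1 - h)
      (by rw [(za_X p q r).norm, hu])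
    exact ⟨_, hx.mul (za_X p q r), e⟩
  push Not at a3
  have a4 : u 0 * u 7 = 0 := by
    rw [zN, a3.1, a3.2.1, a3.2.2] at hu; linear_combination hu
  rcases mul_eq_zero.1 a4 with a | a
  · obtain ⟨x, hx, e⟩ := s1 (zS F u) (by change u 7 = 1; linear_combination h1 - a) a
      (by rw [za_S.norm, hu])
    exact ⟨_, hx.mul za_S, e⟩
  · exact s1 u (by linear_combination h1 - a) a hu

/-- the norm form -/
noncomputable def zQ (F : Type*) [Field F] : QuadraticForm F (Fin 8 → F) :=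
  QuadraticMap.proj 0 7 - (QuadraticMap.proj 1 4 + QuadraticMap.proj 2 5 + QuadraticMap.proj 3 6)

theorem zQ_apply (x : Fin 8 → F) : zQ F x = zN x := by simp [zQ, zN]

/-- the polar form -/
def zP (x y : Fin 8 → F) : F := zN (x + y) - zN x - zN y

theorem ZA.polar {f : End F (Fin 8 → F)} (hf : ZA f) (x y : Fin 8 → F) :
    zP (f x) (f y) = zP x y := by rw [zP, zP, ← map_add, hf.norm, hf.norm, hf.norm]

theorem ZA.tr {f : End F (Fin 8 → F)} (hf : ZA f) (x : Fin 8 → F) :
    f x 0 + f x 7 = x 0 + x 7 := by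
  have h : ∀ y : Fin 8 → F, zP y (zE F) = y 0 + y 7 := fun y => by simp [zP, zN, zE]; ring
  rw [← h, ← h, ← ZA.polar hf x, hf.one]

theorem fix_idem [Finite F] (h2 : (2 : F) ≠ 0) {z : End F (Fin 8 → F)} (hz : ZA z)
    (hzz : ∀ x, z (z x) = x) : ∃ u, z u = u ∧ u 0 + u 7 = 1 ∧ zN u = 0 := by
  obtain ⟨n, s, hs, hn, h0, h1⟩ : ∃ (n : Fin 8 → F) (s : F), s * s = 1 ∧ z n = s • n ∧ zN n = 0 ∧
      n ≠ 0 := by
    have h := LinearMap.finrank_range_add_finrank_ker (z - 1)
    rw [Module.finrank_fin_fun] at h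
    by_cases h3 : 3 ≤ finrank F (LinearMap.ker (z - 1))
    · obtain ⟨n, hn, a, b⟩ := Nd.exists_sing (Φ := ofQuad (zQ F)) rfl h3
      refine ⟨n, 1, one_mul _, ?_, (zQ_apply n).symm.trans a, b⟩
      rw [LinearMap.mem_ker, LinearMap.sub_apply, sub_eq_zero] at hn
      rw [hn, one_smul]; rfl
    · obtain ⟨n, ⟨y, hn⟩, a, b⟩ := Nd.exists_sing (Φ := ofQuad (zQ F))
        (D := LinearMap.range (z - 1)) rfl (by omega)
      refine ⟨n, -1, by ring, ?_, (zQ_apply n).symm.trans a, b⟩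
      rw [← hn, LinearMap.sub_apply, map_sub, hzz]; simp
  obtain ⟨y0, hy0⟩ : ∃ y0, zP n y0 ≠ 0 := by
    by_contra! hc
    refine h1 ?_
    ext i
    have := hc (Pi.single (![7, 4, 5, 6, 1, 2, 3, 0] i) 1)
    fin_cases i <;> simp [zP, zN] at this ⊢ <;>
      first | linear_combination this | linear_combination -this
  obtain ⟨y, hy, hy'⟩ : ∃ y, z y = s • y ∧ zP n y ≠ 0 := by
    refine ⟨y0 + s • z y0, ?_, ?_⟩
    · rw [map_add, map_smul, hzz, smul_add, smul_smul, hs, one_smul, add_comm]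
    · have e1 : zP n (y0 + s • z y0) = zP n y0 + zP (s • n) (z y0) := by
        simp [zP, zN]; ring
      rw [e1, ← hn, ZA.polar hz, ← two_mul]
      exact mul_ne_zero h2 hy0
  have ht : (s - 1) * (y 0 + y 7) = 0 := by
    have := ZA.tr hz y
    rw [hy] at this
    simp only [Pi.smul_apply, smul_eq_mul] at this
    linear_combination this
  refine ⟨(zP n y)⁻¹ • zornMul n ((y 0 + y 7) • zE F - y), ?_, ?_, ?_⟩
  · rw [map_smul, hz.2, map_sub, map_smul, hz.one, hn, hy]
    congr 1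
    have e : (y 0 + y 7) • zE F - s • y = s • ((y 0 + y 7) • zE F - y) := by
      rw [smul_sub, smul_smul, show s * (y 0 + y 7) = y 0 + y 7 by linear_combination ht]
    rw [e]
    generalize (y 0 + y 7) • zE F - y = w
    have e2 : zornMul (s • n) (s • w) = (s * s) • zornMul n w := by
      ext i; fin_cases i <;> simp [zornMul, dot3, cross3] <;> ring
    rw [e2, hs, one_smul]
  · simp only [Pi.smul_apply, smul_eq_mul]
    rw [← mul_add, inv_mul_eq_one₀ hy']
    simp only [zornMul, dot3, cross3, zP, zN, zE, Matrix.cons_val, Pi.sub_apply, Pi.add_apply,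
      Pi.smul_apply, smul_eq_mul]
    ring
  · generalize (y 0 + y 7) • zE F - y = w
    generalize (zP n y)⁻¹ = c
    have e : zN (c • zornMul n w) = c ^ 2 * zN n * zN w := by
      simp [zornMul, dot3, cross3, zN]; ring
    rw [e, h0]; ring

/-- the standard involution -/
def zZ (F : Type*) [Field F] : End F (Fin 8 → F) where
  toFun x := ![x 0, x 1, -x 2, -x 3, x 4, -x 5, -x 6, x 7]
  map_add' x y := by ext i; fin_cases i <;> simp <;> ring
  map_smul' c x := by ext i; fin_cases i <;> simp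

theorem za_Z : ZA (zZ F) :=
  ⟨IsUnit.of_mul_eq_one (zZ F) (LinearMap.ext fun x => by ext i; fin_cases i <;> simp [zZ]),
    fun x y => by ext i; fin_cases i <;> simp [zZ, zornMul, dot3, cross3] <;> ring⟩

/-- the upper Peirce component -/
def vA (a : Fin 3 → F) : Fin 8 → F := ![0, a 0, a 1, a 2, 0, 0, 0, 0]

theorem vA_det (a b c : Fin 3 → F) :
    zornMul (vA a) (zornMul (vA b) (vA c)) = dot3 a (cross3 b c) • bE F 0 := by
  ext i; fin_cases i <;> simp [zornMul, dot3, cross3, vA, bE]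

theorem fix_vA {z : End F (Fin 8 → F)} (hz : ZA z) (h0 : z (bE F 0) = bE F 0) (a : Fin 3 → F) :
    z (vA a) = vA (zA F (z (vA a))) := by
  have e1 : zornMul (bE F 0) (vA a) = vA a := by
    ext i; fin_cases i <;> simp [zornMul, dot3, cross3, vA, bE]
  have e2 : zornMul (vA a) (bE F 0) = 0 := by
    ext i; fin_cases i <;> simp [zornMul, dot3, cross3, vA, bE]
  have h1 := hz.2 (bE F 0) (vA a)
  have h2 := hz.2 (vA a) (bE F 0)
  rw [e1, h0] at h1
  rw [e2, h0, map_zero] at h2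
  generalize z (vA a) = w at h1 h2
  have a0 := congrFun h2 0
  have a4 := congrFun h1 4
  have a5 := congrFun h1 5
  have a6 := congrFun h1 6
  have a7 := congrFun h1 7
  simp [zornMul, dot3, cross3, bE] at a0 a4 a5 a6 a7
  ext i; fin_cases i <;> simp [vA, ← a0, a4, a5, a6, a7]

theorem conj_zZ0 (h2 : (2 : F) ≠ 0) {z : End F (Fin 8 → F)} (hz : ZA z)
    (hzz : ∀ x, z (z x) = x) (h1 : z ≠ 1) (h0 : z (bE F 0) = bE F 0) :
    ∃ g, ZA g ∧ z * g = g * zZ F := by
  let M : (Fin 3 → F) → Fin 3 → F := fun a => zA F (z (vA a))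
  have hM : ∀ a, z (vA a) = vA (M a) := fix_vA hz h0
  have hd : ∀ a b c, dot3 (M a) (cross3 (M b) (M c)) = dot3 a (cross3 b c) := fun a b c => by
    have h := congrArg z (vA_det a b c)
    rw [hz.2, hz.2, hM, hM, hM, vA_det, map_smul, h0] at h
    simpa [bE] using congrFun h 0
  have inj : ∀ a b : Fin 3 → F, vA a = vA b → a = b := fun a b h => by
    ext i; fin_cases i
    exacts [congrFun h 1, congrFun h 2, congrFun h 3]
  have add : ∀ a b : Fin 3 → F, vA (a + b) = vA a + vA b := fun a b => by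
    ext i; fin_cases i <;> simp [vA]
  have smul : ∀ (s : F) (a : Fin 3 → F), vA (s • a) = s • vA a := fun a b => by
    ext i; fin_cases i <;> simp [vA]
  have key : ∀ (s : F) (a : Fin 3 → F), s * s = 1 → M (a + s • M a) = s • (a + s • M a) :=
    fun s a hs => inj _ _ (by
      rw [← hM, smul, add, smul, map_add, map_smul, ← hM, hzz, smul_add, smul_smul, hs, one_smul,
        add_comm])
  have b1 : bE F 1 = vA ![1, 0, 0] := by ext i; fin_cases i <;> simp [vA, bE]
  have b2 : bE F 2 = vA ![0, 1, 0] := by ext i; fin_cases i <;> simp [vA, bE]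
  have b3 : bE F 3 = vA ![0, 0, 1] := by ext i; fin_cases i <;> simp [vA, bE]
  obtain ⟨c1, hc1, hc1'⟩ : ∃ c1, c1 ≠ 0 ∧ M c1 = (-1 : F) • c1 := by
    by_contra! hc
    have h : ∀ a, M a = a := fun a => by
      by_contra h
      refine hc _ (fun e => h ?_) (key (-1) a (by ring))
      linear_combination (norm := module) -e
    refine h1 (za_ext hz ⟨isUnit_one, fun _ _ => rfl⟩ ?_ ?_ ?_) <;>
      simp only [b1, b2, b3, hM, h, Module.End.one_apply]
  obtain ⟨c0, hc0, hc0'⟩ : ∃ c0, c0 ≠ 0 ∧ M c0 = (1 : F) • c0 := by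
    by_contra! hc
    have h : ∀ a, M a = -a := fun a => by
      by_contra h
      refine hc _ (fun e => h ?_) (key 1 a (by ring))
      linear_combination (norm := module) e
    have := hd ![1, 0, 0] ![0, 1, 0] ![0, 0, 1]
    rw [h, h, h] at this
    simp [dot3, cross3] at this
    exact h2 (by linear_combination -this)
  obtain ⟨d, hd'⟩ : ∃ d, dot3 c0 (cross3 c1 d) = 1 := by
    by_contra! hc
    have h : ∀ d, dot3 c0 (cross3 c1 d) = 0 := fun d => by
      by_contra h
      refine hc ((dot3 c0 (cross3 c1 d))⁻¹ • d) ?_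
      rw [← inv_mul_cancel₀ h]
      generalize (dot3 c0 (cross3 c1 d))⁻¹ = t
      simp [dot3, cross3]; ring
    have a0 := h ![1, 0, 0]
    have a1 := h ![0, 1, 0]
    have a2 := h ![0, 0, 1]
    simp [dot3, cross3] at a0 a1 a2
    obtain ⟨i, hi⟩ := Function.ne_iff.1 hc0
    have e : c0 i • c1 = c1 i • c0 := by
      ext j; fin_cases i <;> fin_cases j <;> simp <;>
        first | ring1 | linear_combination a0 | linear_combination -a0 | linear_combination a1 |
          linear_combination -a1 | linear_combination a2 | linear_combination -a2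
    have e2 := congrArg (fun a => z (vA a)) e
    simp only [smul, map_smul, hM, hc0', hc1'] at e2
    have e3 := congrArg vA e
    simp only [smul] at e3
    have e4 : (2 * c0 i) • vA c1 = 0 := by linear_combination (norm := module) e3 - e2
    rw [smul_eq_zero, mul_eq_zero] at e4
    rcases e4 with (e4 | e4) | e4
    · exact h2 e4
    · exact hi e4
    · exact hc1 (inj _ _ (e4.trans (by ext i; fin_cases i <;> simp [vA])))
  obtain ⟨c2, hc2, hc2'⟩ : ∃ c2, dot3 c0 (cross3 c1 c2) = 1 ∧ M c2 = (-1 : F) • c2 := by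
    refine ⟨(2 : F)⁻¹ • (d + (-1 : F) • M d), ?_, inj _ _ ?_⟩
    · have e := hd c0 c1 d
      rw [hc0', hc1'] at e
      simp only [dot3, cross3, Matrix.cons_val, Pi.add_apply, Pi.smul_apply, smul_eq_mul] at e hd' ⊢
      field_simp
      linear_combination e + 2 * hd'
    · rw [← hM, smul, map_smul, hM, key _ _ (by ring), ← smul, smul_comm]
  have hg : ZA (zL ![c0 0, c1 0, c2 0] ![c0 1, c1 1, c2 1] ![c0 2, c1 2, c2 2]) := za_L (by
    simp only [dot3, cross3, Matrix.cons_val] at hc2 ⊢; linear_combination hc2)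
  have g1 : zL ![c0 0, c1 0, c2 0] ![c0 1, c1 1, c2 1] ![c0 2, c1 2, c2 2] (bE F 1) = vA c0 := by
    ext i; fin_cases i <;> simp [zL, vA, bE, dot3]
  have g2 : zL ![c0 0, c1 0, c2 0] ![c0 1, c1 1, c2 1] ![c0 2, c1 2, c2 2] (bE F 2) = vA c1 := by
    ext i; fin_cases i <;> simp [zL, vA, bE, dot3]
  have g3 : zL ![c0 0, c1 0, c2 0] ![c0 1, c1 1, c2 1] ![c0 2, c1 2, c2 2] (bE F 3) = vA c2 := by
    ext i; fin_cases i <;> simp [zL, vA, bE, dot3]
  have z1 : zZ F (bE F 1) = bE F 1 := by ext i; fin_cases i <;> simp [zZ, bE]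
  have z2 : zZ F (bE F 2) = (-1 : F) • bE F 2 := by ext i; fin_cases i <;> simp [zZ, bE]
  have z3 : zZ F (bE F 3) = (-1 : F) • bE F 3 := by ext i; fin_cases i <;> simp [zZ, bE]
  refine ⟨_, hg, za_ext (hz.mul hg) (hg.mul za_Z) ?_ ?_ ?_⟩ <;>
    simp only [Module.End.mul_apply, z1, z2, z3, map_smul, g1, g2, g3, hM, hc0', hc1', hc2', smul,
      one_smul]

theorem conj_zZ [Finite F] (h2 : (2 : F) ≠ 0) {z : G2 F} (hzz : z * z = 1) (h1 : z ≠ 1) :
    ∃ g : G2 F, ev F (g⁻¹ * z * g) = zZ F := by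
  obtain ⟨u, hu, a1, a2⟩ := fix_idem h2 (ev_za z) fun x => by rw [← ev_mul, hzz, map_one]; rfl
  obtain ⟨x, hx, e⟩ := idem a1 a2
  obtain ⟨x, rfl⟩ := ev_surj hx
  obtain ⟨g, hg, e'⟩ := conj_zZ0 h2 (ev_za (x * z * x⁻¹)) (fun y => by
      rw [← ev_mul, show x * z * x⁻¹ * (x * z * x⁻¹) = x * (z * z) * x⁻¹ by group, hzz]; simp)
    (fun h => h1 (by
      have := ev_inj (h.trans (map_one (ev F)).symm)
      rwa [mul_inv_eq_one, mul_eq_left] at this))
    (by rw [ev_mul, ev_mul, ← e, ev_inv, hu])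
  obtain ⟨g, rfl⟩ := ev_surj hg
  refine ⟨x⁻¹ * g, ?_⟩
  rw [show (x⁻¹ * g)⁻¹ * z * (x⁻¹ * g) = g⁻¹ * (x * z * x⁻¹ * g) by group, map_mul, map_mul, e',
    ← mul_assoc, ← map_mul, inv_mul_cancel, map_one, one_mul]

end H17.Oct
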