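import Cfsg.Agent.H17.Oct1
import Cfsg.Agent.H17.Oct2

/-! The centraliser of an involution of `G₂` in odd characteristic is `SO₄⁺`. -/

set_option autoImplicit false
set_option linter.unusedSectionVars false
set_option linter.unusedSimpArgs false
set_option linter.unusedVariables false
set_option linter.unnecessarySeqFocus false

namespace H17.Oct
open Module H23 H23.Form H22 H16 H16.CV Cfsg.Lie

variable {F : Type*} [Field F]

/-- two by two matrices -/
abbrev M2 (F : Type*) := Matrix (Fin 2) (Fin 2) F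

/-- adjugate -/
def ad (A : M2 F) : M2 F := !![A 1 1, -A 0 1; -A 1 0, A 0 0]

/-- determinant -/
def dt (A : M2 F) : F := A 0 0 * A 1 1 - A 0 1 * A 1 0

theorem ad_mul (A B : M2 F) : ad (A * B) = ad B * ad A := by
  ext i j; fin_cases i <;> fin_cases j <;> simp [ad, Matrix.mul_apply, Fin.sum_univ_two] <;> ring

theorem ad_ad (A : M2 F) : ad (ad A) = A := by
  ext i j; fin_cases i <;> fin_cases j <;> simp [ad]

theorem ad_smul (c : F) (A : M2 F) : ad (c • A) = c • ad A := by
  ext i j; fin_cases i <;> fin_cases j <;> simp [ad]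

theorem ad_mul_self (A X : M2 F) : ad A * (A * X) = dt A • X := by
  ext i j; fin_cases i <;> fin_cases j <;>
    simp [ad, dt, Matrix.mul_apply, Fin.sum_univ_two] <;> ring

theorem self_mul_ad (A X : M2 F) : A * (ad A * X) = dt A • X := by
  ext i j; fin_cases i <;> fin_cases j <;>
    simp [ad, dt, Matrix.mul_apply, Fin.sum_univ_two, Matrix.vecMul, dotProduct] <;> ring

theorem ad_mul_self' (A : M2 F) : ad A * A = dt A • (1 : M2 F) := by
  simpa using ad_mul_self A 1

theorem dt_mul (A B : M2 F) : dt (A * B) = dt A * dt B := by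
  simp [dt, Matrix.mul_apply, Fin.sum_univ_two]; ring

theorem dt_ad (A : M2 F) : dt (ad A) = dt A := by
  simp [dt, ad]; ring

/-- the quaternion part -/
def mH : (Fin 8 → F) →ₗ[F] M2 F where
  toFun x := !![x 0, x 1; x 4, x 7]
  map_add' x y := by ext i j; fin_cases i <;> fin_cases j <;> simp
  map_smul' c x := by ext i j; fin_cases i <;> fin_cases j <;> simp

/-- the complementary part -/
def mX : (Fin 8 → F) →ₗ[F] M2 F where
  toFun x := !![x 2, x 6; x 3, -x 5]
  map_add' x y := by ext i j; fin_cases i <;> fin_cases j <;> simp <;> ring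
  map_smul' c x := by ext i j; fin_cases i <;> fin_cases j <;> simp

/-- the octonion with given parts -/
def bk : (M2 F × M2 F) →ₗ[F] (Fin 8 → F) where
  toFun x := ![x.1 0 0, x.1 0 1, x.2 0 0, x.2 1 0, x.1 1 0, -x.2 1 1, x.2 0 1, x.1 1 1]
  map_add' x y := by ext i; fin_cases i <;> simp <;> ring
  map_smul' c x := by ext i; fin_cases i <;> simp

theorem mH_bk (x : M2 F × M2 F) : mH (bk x) = x.1 := by
  ext i j; fin_cases i <;> fin_cases j <;> simp [mH, bk]

theorem mX_bk (x : M2 F × M2 F) : mX (bk x) = x.2 := by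
  ext i j; fin_cases i <;> fin_cases j <;> simp [mX, bk]

theorem bk_m (x : Fin 8 → F) : bk (mH x, mX x) = x := by
  ext i; fin_cases i <;> simp [mX, mH, bk]

theorem m_ext {x y : Fin 8 → F} (h1 : mH x = mH y) (h2 : mX x = mX y) : x = y := by
  rw [← bk_m x, h1, h2, bk_m]

theorem mH_mul (x y : Fin 8 → F) : mH (zornMul x y) = mH x * mH y - ad (mX y) * mX x := by
  ext i j; fin_cases i <;> fin_cases j <;>
    simp [ad, mH, mX, zornMul, dot3, cross3, Matrix.mul_apply, Fin.sum_univ_two] <;> ring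

theorem mX_mul (x y : Fin 8 → F) : mX (zornMul x y) = mX y * mH x + mX x * ad (mH y) := by
  ext i j; fin_cases i <;> fin_cases j <;>
    simp [ad, mH, mX, zornMul, dot3, cross3, Matrix.mul_apply, Fin.sum_univ_two] <;> ring

theorem mH_Z (x : Fin 8 → F) : mH (zZ F x) = mH x := by
  ext i j; fin_cases i <;> fin_cases j <;> simp [mH, zZ]

theorem mX_Z (x : Fin 8 → F) : mX (zZ F x) = -mX x := by
  ext i j; fin_cases i <;> fin_cases j <;> simp [mX, zZ]

theorem zN_bk (X : M2 F) : zN (bk (0, X)) = dt X := by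
  simp [zN, bk, dt]; ring

/-- automorphisms centralising the standard involution -/
def zF (p q : M2 F) (n : F) : End F (Fin 8 → F) where
  toFun x := bk (n • (p * (mH x * ad p)), n • (q * (mX x * ad p)))
  map_add' x y := by
    rw [← map_add]; simp only [map_add, mul_add, add_mul, smul_add, Prod.mk_add_mk]
  map_smul' c x := by
    rw [← map_smul]
    simp only [map_smul, Matrix.mul_smul, Matrix.smul_mul, RingHom.id_apply, Prod.smul_mk,
      smul_comm c n]

theorem mH_F (p q : M2 F) (n : F) (x : Fin 8 → F) :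
    mH (zF p q n x) = n • (p * (mH x * ad p)) := mH_bk _

theorem mX_F (p q : M2 F) (n : F) (x : Fin 8 → F) :
    mX (zF p q n x) = n • (q * (mX x * ad p)) := mX_bk _

theorem za_F {p q : M2 F} {n : F} (hp : n * dt p = 1) (hq : n * dt q = 1) : ZA (zF p q n) := by
  have h : ∀ A : M2 F, A * ad A = dt A • (1 : M2 F) := fun A => by simpa using self_mul_ad A 1
  refine ⟨IsUnit.of_mul_eq_one (zF (ad p) (ad q) n) (LinearMap.ext fun x => m_ext ?_ ?_),
    fun x y => m_ext ?_ ?_⟩
  · simp only [Module.End.mul_apply, mH_F, ad_ad, Matrix.mul_smul, Matrix.smul_mul,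
      Matrix.mul_assoc, self_mul_ad, h, smul_smul, Matrix.mul_one, Module.End.one_apply]
    match_scalars; linear_combination (n * dt p + 1) * hp
  · simp only [Module.End.mul_apply, mX_F, ad_ad, Matrix.mul_smul, Matrix.smul_mul,
      Matrix.mul_assoc, self_mul_ad, h, smul_smul, Matrix.mul_one, Module.End.one_apply]
    match_scalars; linear_combination (n * dt p) * hq + hp
  · simp only [mH_mul, mH_F, mX_F, ad_ad, ad_mul, ad_smul, Matrix.mul_smul, Matrix.smul_mul,
      Matrix.mul_assoc, ad_mul_self, smul_smul, Matrix.mul_sub, Matrix.sub_mul]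
    match_scalars
    · linear_combination -n * hp
    · linear_combination n * hq
  · simp only [mX_mul, mH_F, mX_F, ad_ad, ad_mul, ad_smul, Matrix.mul_smul, Matrix.smul_mul,
      Matrix.mul_assoc, ad_mul_self, smul_smul, Matrix.mul_add, Matrix.add_mul]
    match_scalars
    · linear_combination -n * hp
    · linear_combination -n * hp

theorem zF_comm (p q : M2 F) (n : F) : zZ F * zF p q n = zF p q n * zZ F :=
  LinearMap.ext fun x => m_ext (by simp only [Module.End.mul_apply, mH_Z, mH_F])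
    (by simp only [Module.End.mul_apply, mX_Z, mX_F]; simp)

/-- determinant as a quadratic form -/
noncomputable def dQ (F : Type*) [Field F] : QuadraticForm F (M2 F) :=
  QuadraticMap.linMulLin (Matrix.entryLinearMap F F 0 0) (Matrix.entryLinearMap F F 1 1) -
    QuadraticMap.linMulLin (Matrix.entryLinearMap F F 0 1) (Matrix.entryLinearMap F F 1 0)

theorem dQ_apply (X : M2 F) : dQ F X = dt X := by simp [dQ, dt]

theorem dQ_B (X Y : M2 F) : (ofQuad (dQ F)).B X Y =
    X 0 0 * Y 1 1 + X 1 1 * Y 0 0 - X 0 1 * Y 1 0 - X 1 0 * Y 0 1 := by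
  simp only [ofQuad_B, QuadraticMap.polar, dQ_apply, dt, Matrix.add_apply]; ring

theorem dQ_nd : (ofQuad (dQ F)).Nondeg := fun x hx => by
  have a := hx !![1, 0; 0, 0]
  have b := hx !![0, 1; 0, 0]
  have c := hx !![0, 0; 1, 0]
  have d := hx !![0, 0; 0, 1]
  rw [dQ_B] at a b c d
  simp at a b c d
  ext i j; fin_cases i <;> fin_cases j <;> simp [a, b, c, d]

theorem dQ_refl {u : M2 F} (hu : dt u ≠ 0) (X : M2 F) :
    (refl (ofQuad_κ (dQ F)) u).1 X = -(dt u)⁻¹ • (u * (ad X * u)) := by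
  rw [refl_apply, dQ_B, ofQuad_Q, dQ_apply]
  have h : (dt u)⁻¹ * dt u = 1 := inv_mul_cancel₀ hu
  generalize (dt u)⁻¹ = t at h
  rw [dt] at h
  ext i j; fin_cases i <;> fin_cases j <;>
    simp [ad, Matrix.mul_apply, Fin.sum_univ_two, Matrix.vecMul, dotProduct]
  · linear_combination -X 0 0 * h
  · linear_combination -X 0 1 * h
  · linear_combination -X 1 0 * h
  · linear_combination -X 1 1 * h

theorem dQ_neg [Fintype F] (h2 : (2 : F) ≠ 0) :
    scal _ (-1) (by simp) ∈ commutator (ofQuad (dQ F)).O := by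
  classical
  rw [neg_mem_commutator_iff dQ_nd h2
    ![!![1, 0; 0, 1], !![1, 0; 0, -1], !![0, 1; 1, 0], !![0, 1; -1, 0]] (fun i j h => by
      rw [dQ_B]; fin_cases i <;> fin_cases j <;> simp at h ⊢)
    (fun i => by rw [ofQuad_Q, dQ_apply]; fin_cases i <;> simp [dt])
    (by simp [Module.finrank_matrix]) rfl]
  simp [Module.finrank_matrix, Fin.prod_univ_four, dQ_apply, dt]
  decide

section cent
variable (h2 : (2 : F) ≠ 0) {z : G2 F} (hz : ev F z = zZ F)

include h2 hz in
theorem cent_bk (g : Subgroup.centralizer {z}) (X : M2 F) :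
    ev F g (bk (0, X)) = bk (0, mX (ev F g (bk (0, X)))) := by
  have h1 : z * g = g * z := g.2 z rfl
  have h3 : zZ F (bk (0, X)) = -bk (0, X) := m_ext (by simp [mH_Z, mH_bk]) (by simp [mX_Z])
  have h4 := congrArg (fun a => mH (ev F a (bk (0, X)))) h1
  simp only [ev_mul, hz, h3, mH_Z, map_neg] at h4
  refine m_ext ?_ (by rw [mX_bk])
  rw [mH_bk]
  have h5 : (2 : F) • mH (ev F g (bk (0, X))) = 0 := by linear_combination (norm := module) h4
  exact (smul_eq_zero.1 h5).resolve_left h2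

/-- the restriction to the complementary part -/
def rh0 (g : G2 F) : M2 F →ₗ[F] M2 F := mX ∘ₗ ev F g ∘ₗ bk ∘ₗ LinearMap.inr F _ _

theorem rh0_apply (g : G2 F) (X : M2 F) : rh0 g X = mX (ev F g (bk (0, X))) := rfl

include h2 hz in
theorem rh0_mul (g : G2 F) (h : Subgroup.centralizer {z}) (X : M2 F) :
    rh0 (g * h.1) X = rh0 g (rh0 h.1 X) := by
  rw [rh0_apply, rh0_apply, rh0_apply, ← cent_bk h2 hz, ev_mul]

theorem rh0_one (X : M2 F) : rh0 (1 : G2 F) X = X := by
  rw [rh0_apply, map_one, Module.End.one_apply, mX_bk]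

/-- the restriction as an isometry -/
noncomputable def rh1 (g : Subgroup.centralizer {z}) : (ofQuad (dQ F)).O :=
  ⟨LinearEquiv.ofLinearMap (rh0 g.1) (rh0 (g⁻¹).1)
      (LinearMap.ext fun X => by
        rw [LinearMap.comp_apply, ← rh0_mul h2 hz]; simp [rh0_one])
      (LinearMap.ext fun X => by
        rw [LinearMap.comp_apply, ← rh0_mul h2 hz]; simp [rh0_one]),
    mem_O_quad (ofQuad_κ _) fun X => by
      rw [ofQuad_Q, ofQuad_Q, dQ_apply, dQ_apply, ← zN_bk, ← zN_bk X, ← (ev_za g.1).norm (bk (0, X)),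
        cent_bk h2 hz g X]
      rfl⟩

theorem rh1_apply (g : Subgroup.centralizer {z}) (X : M2 F) : (rh1 h2 hz g).1 X = rh0 g.1 X := rfl

/-- the restriction homomorphism -/
noncomputable def rho : Subgroup.centralizer {z} →* (ofQuad (dQ F)).O :=
  MonoidHom.mk' (rh1 h2 hz) fun a b => O_ext _ fun X => by
    rw [O_mul_apply, rh1_apply, rh1_apply, rh1_apply, Subgroup.coe_mul, rh0_mul h2 hz]

theorem rho_apply (g : Subgroup.centralizer {z}) (X : M2 F) :
    ev F g (bk (0, X)) = bk (0, (rho h2 hz g).1 X) := cent_bk h2 hz g X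

theorem rho_inj : Function.Injective (rho h2 hz) := by
  refine (injective_iff_map_eq_one _).2 fun g hg => Subtype.ext (ev_inj ?_)
  have h : ∀ X, ev F g (bk (0, X)) = bk (0, X) := fun X => by rw [rho_apply h2 hz, hg]; rfl
  have e2 : bE F 2 = bk (0, !![1, 0; 0, 0]) := by ext i; fin_cases i <;> simp [bE, bk]
  have e3 : bE F 3 = bk (0, !![0, 0; 1, 0]) := by ext i; fin_cases i <;> simp [bE, bk]
  have e1 : bE F 1 = zornMul (bk (0, !![0, 0; 0, 1])) (bk (0, !![0, 1; 0, 0])) := by
    ext i; fin_cases i <;> simp [bE, bk, zornMul, dot3, cross3]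
  refine za_ext (ev_za _) (ev_za _) ?_ ?_ ?_
  · rw [e1, (ev_za _).2, h, h]; simp
  · rw [e2, h]; simp
  · rw [e3, h]; simp

theorem rho_range (hg : GenHyp (ofQuad (dQ F))) :
    (rho h2 hz).range = (dickson dQ_nd (ofQuad_κ _) hg).ker := by
  have h1 : (dickson dQ_nd (ofQuad_κ _) hg).ker ≤ (rho h2 hz).range := by
    rw [ker_dickson_eq_closure, Subgroup.closure_le]
    rintro _ ⟨u, v, hu, hv, rfl⟩
    rw [ofQuad_Q, dQ_apply] at hu hv
    obtain ⟨g, e⟩ := ev_surj (za_F (p := ad u * v) (q := u * ad v) (n := (dt u * dt v)⁻¹)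
      (by rw [dt_mul, dt_ad]; field_simp) (by rw [dt_mul, dt_ad]; field_simp))
    refine ⟨⟨g, ?_⟩, O_ext _ fun X => ?_⟩
    · rintro _ rfl
      exact ev_inj (by rw [map_mul, map_mul, hz, e, zF_comm])
    · change mX (ev F g (bk (0, X))) = _
      rw [e, mX_F, mX_bk, O_mul_apply, dQ_refl hu, dQ_refl hv]
      simp only [ad_ad, ad_mul, ad_smul, Matrix.mul_smul, Matrix.smul_mul, Matrix.mul_assoc,
        smul_smul]
      congr 1
      field_simp
  refine le_antisymm ?_ h1
  rintro _ ⟨g, rfl⟩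
  refine (Int.units_eq_one_or _).resolve_right fun hd => ?_
  have hu : dt (1 : M2 F) ≠ 0 := by simp [dt]
  obtain ⟨k, hk⟩ : refl (ofQuad_κ (dQ F)) 1 ∈ (rho h2 hz).range := by
    rw [← inv_mul_cancel_right (refl (ofQuad_κ (dQ F)) 1) (rho h2 hz g)]
    refine mul_mem (h1 ?_) ⟨g, rfl⟩
    rw [MonoidHom.mem_ker, map_mul, map_inv, hd,
      dickson_refl _ _ _ (by rwa [ofQuad_Q, dQ_apply]), mul_inv_cancel]
  have h : ∀ X, ev F k (bk (0, X)) = bk (0, -ad X) := fun X => by
    rw [rho_apply h2 hz, hk, dQ_refl hu]; simp [dt]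
  have e : bk (0, !![1, 0; 0, 0]) = zornMul (zornMul (bk (0, !![0, 0; 1, 0]))
      (bk (0, !![0, 1; 0, 0]))) (bk ((0 : M2 F), !![1, 0; 0, 0])) := by
    ext i; fin_cases i <;> simp [bk, zornMul, dot3, cross3]
  have e' := congrArg (ev F k) e
  rw [(ev_za _).2, (ev_za _).2, h, h, h] at e'
  have := congrFun e' 5
  simp [bk, zornMul, dot3, cross3, ad] at this

end cent

theorem ab2_G2 [Fintype F] (ho : Odd (Fintype.card F)) (P : Sylow 2 (G2 F)) : Abp 2 P := by
  classical
  have h2 := H22.two_ne_zero_of_odd_card ho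
  rcases subsingleton_or_nontrivial P with hP | hP
  · intro x; rw [Subsingleton.elim (x ^ 2) 1]; exact one_mem _
  have hc := P.2.center_nontrivial
  obtain ⟨c, hc2⟩ := exists_prime_orderOf_dvd_card' (G := Subgroup.center P) 2 (by
    obtain ⟨n, hn, e⟩ := (P.2.to_subgroup (Subgroup.center P)).nontrivial_iff_card.1 hc
    rw [e]; exact dvd_pow_self 2 hn.ne')
  have hc3 : orderOf (c.1.1 : G2 F) = 2 := by rw [Subgroup.orderOf_coe, Subgroup.orderOf_coe, hc2]
  obtain ⟨g, hg⟩ := conj_zZ h2 (z := c.1.1) (by have := pow_orderOf_eq_one (c.1.1 : G2 F); rwa [hc3, sq] at this)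
    (fun h => by rw [h, orderOf_one] at hc3; omega)
  have hG := genHyp_of_two_ne_zero (dQ_nd (F := F)) (ofQuad_κ _) h2
  have hle : ((g⁻¹ • P : Sylow 2 (G2 F)) : Subgroup (G2 F)) ≤
      Subgroup.centralizer {g⁻¹ * c.1.1 * g} := by
    rintro _ ⟨x, hx, rfl⟩ _ rfl
    have := congrArg Subtype.val (Subgroup.mem_center_iff.1 c.2 ⟨x, hx⟩)
    simp only [Subgroup.coe_mul] at this
    change g⁻¹ * c.1.1 * g * (g⁻¹ * x * g⁻¹⁻¹) = g⁻¹ * x * g⁻¹⁻¹ * (g⁻¹ * c.1.1 * g)
    rw [inv_inv, show g⁻¹ * c.1.1 * g * (g⁻¹ * x * g) = g⁻¹ * (c.1.1 * x) * g by group, ← this]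
    group
  have h := abp_sylow_of_equiv ((MonoidHom.ofInjective (rho_inj h2 hg)).trans
    (MulEquiv.subgroupCongr (rho_range h2 hg hG)))
    (ab2_so ho dQ_nd hG (by simp [Module.finrank_matrix]) (dQ_neg h2)) ((g⁻¹ • P).subtype hle)
  exact (h.of_equiv (Subgroup.subgroupOfEquivOfLe hle)).of_equiv (Sylow.equiv _ P)

end H17.Oct
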