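import Mathlib

/-! Limits of conjugates of an additive subgroup of a finite ring by `1 + tβ`, `β² = 0`. -/

set_option autoImplicit false
set_option linter.unusedSectionVars false

namespace H17.Ol

open Polynomial

variable {R : Type*} [Ring R]

def poly (U : AddSubgroup R) : AddSubgroup R[X] where
  carrier := {g | ∀ n, g.coeff n ∈ U}
  zero_mem' := fun n => by simp
  add_mem' := fun ha hb n => by rw [coeff_add]; exact add_mem (ha n) (hb n)
  neg_mem' := fun ha n => by rw [coeff_neg]; exact neg_mem (ha n)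

theorem mem_poly {U : AddSubgroup R} {g : R[X]} : g ∈ poly U ↔ ∀ n, g.coeff n ∈ U := Iff.rfl

theorem poly_X {U : AddSubgroup R} {g : R[X]} (h : g ∈ poly U) (k : ℕ) : g * X ^ k ∈ poly U :=
  fun n => by
    rw [coeff_mul_X_pow']
    split_ifs
    · exact h _
    · exact zero_mem _

theorem poly_C {U : AddSubgroup R} {u : R} (h : u ∈ U) : C u ∈ poly U := fun n => by
  rw [coeff_C]
  split_ifs
  · exact h
  · exact zero_mem _

noncomputable def P (β : R) : R[X] := 1 + C β * X

theorem P_mul {β : R} (h : β * β = 0) : P β * P (-β) = 1 := by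
  have : (C β * X) * (C β * X) = 0 := by
    rw [mul_assoc, ← mul_assoc X, X_mul_C, ← mul_assoc, ← mul_assoc, ← C_mul, h]; simp
  simp only [P, C_neg, neg_mul, mul_add, add_mul, one_mul, mul_one, mul_neg, this]
  abel

theorem P_mul' {β : R} (h : β * β = 0) : P (-β) * P β = 1 := by
  have := P_mul (β := -β) (by rw [neg_mul_neg, h])
  rwa [neg_neg] at this

theorem expand (β : R) (g : R[X]) : P (-β) * g * P β =
    g + (g * C β - C β * g) * X ^ 1 - (C β * g * C β) * X ^ 2 := by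
  have e : ∀ f : R[X], X * f = f * X := fun f => X_mul
  simp only [P, C_neg, neg_mul, mul_add, add_mul, one_mul, mul_one, sub_mul, pow_one, sq,
    mul_assoc]
  rw [e g, e (g * (C β * X))]
  simp only [mul_assoc]
  abel

theorem conj_mem {β : R} {U W : AddSubgroup R} (h0 : U ≤ W) (h1 : ∀ u ∈ U, u * β - β * u ∈ W)
    (h2 : ∀ u ∈ U, β * u * β ∈ W) {g : R[X]} (hg : g ∈ poly U) : P (-β) * g * P β ∈ poly W := by
  rw [expand]
  refine sub_mem (add_mem (fun n => h0 (hg n)) (poly_X (fun n => ?_) 1)) (poly_X (fun n => ?_) 2)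
  · rw [coeff_sub, coeff_mul_C, coeff_C_mul]; exact h1 _ (hg n)
  · rw [coeff_mul_C, coeff_C_mul]; exact h2 _ (hg n)

noncomputable def Mod (β : R) (U : AddSubgroup R) : AddSubgroup R[X] :=
  (poly U).map (((AddMonoidHom.mulRight (P β))).comp (AddMonoidHom.mulLeft (P (-β))))

theorem mem_Mod {β : R} {U : AddSubgroup R} {f : R[X]} :
    f ∈ Mod β U ↔ ∃ g ∈ poly U, P (-β) * g * P β = f := Iff.rfl

theorem Mod_X {β : R} {U : AddSubgroup R} {f : R[X]} (h : f ∈ Mod β U) (k : ℕ) :
    f * X ^ k ∈ Mod β U := by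
  obtain ⟨g, hg, rfl⟩ := mem_Mod.1 h
  refine mem_Mod.2 ⟨_, poly_X hg k, ?_⟩
  simp only [mul_assoc]
  rw [X_pow_mul]

noncomputable def lim (β : R) (U : AddSubgroup R) : AddSubgroup R where
  carrier := {w | ∃ n, ∃ f ∈ Mod β U, (∀ k, n < k → f.coeff k = 0) ∧ f.coeff n = w}
  zero_mem' := ⟨0, 0, zero_mem _, by simp, by simp⟩
  add_mem' := by
    rintro _ _ ⟨n, f, hf, h1, rfl⟩ ⟨m, g, hg, h2, rfl⟩
    refine ⟨n + m, f * X ^ m + g * X ^ n, add_mem (Mod_X hf m) (Mod_X hg n), fun k hk => ?_, ?_⟩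
    · rw [coeff_add, coeff_mul_X_pow', coeff_mul_X_pow', if_pos (by omega), if_pos (by omega),
        h1 _ (by omega), h2 _ (by omega), add_zero]
    · rw [coeff_add, coeff_mul_X_pow, add_comm n m, coeff_mul_X_pow]
  neg_mem' := by
    rintro _ ⟨n, f, hf, h1, rfl⟩
    exact ⟨n, -f, neg_mem hf, fun k hk => by rw [coeff_neg, h1 k hk, neg_zero], coeff_neg _ _⟩

theorem lim_mono {β : R} {U U' : AddSubgroup R} (h : U ≤ U') : lim β U ≤ lim β U' := by
  rintro _ ⟨n, f, ⟨g, hg, e⟩, h1, rfl⟩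
  exact ⟨n, f, ⟨g, fun k => h (hg k), e⟩, h1, rfl⟩

theorem lim_mul {β : R} (hβ : β * β = 0) {U U' : AddSubgroup R}
    (h : ∀ u ∈ U, ∀ u' ∈ U', u * u' = 0) : ∀ w ∈ lim β U, ∀ w' ∈ lim β U', w * w' = 0 := by
  rintro _ ⟨n, f, hf, h1, rfl⟩ _ ⟨m, f', hf', h2, rfl⟩
  obtain ⟨g, hg, rfl⟩ := mem_Mod.1 hf
  obtain ⟨g', hg', rfl⟩ := mem_Mod.1 hf'
  have e : g * g' = 0 := by
    ext k
    rw [coeff_mul, coeff_zero]
    exact Finset.sum_eq_zero fun x _ => h _ (hg _) _ (hg' _)
  rw [← coeff_mul_add_eq_of_natDegree_le (natDegree_le_iff_coeff_eq_zero.2 h1)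
    (natDegree_le_iff_coeff_eq_zero.2 h2)]
  have : P (-β) * g * P β * (P (-β) * g' * P β) = P (-β) * (g * (P β * P (-β)) * g') * P β := by
    simp only [mul_assoc]
  rw [this, P_mul hβ, mul_one, e]
  simp

theorem lim_le {β : R} {U W : AddSubgroup R} (h0 : U ≤ W) (h1 : ∀ u ∈ U, u * β - β * u ∈ W)
    (h2 : ∀ u ∈ U, β * u * β ∈ W) : lim β U ≤ W := by
  rintro _ ⟨n, f, hf, -, rfl⟩
  obtain ⟨g, hg, rfl⟩ := mem_Mod.1 hf
  exact conj_mem h0 h1 h2 hg n

theorem poly_le_Mod {β : R} (hβ : β * β = 0) {U : AddSubgroup R}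
    (h1 : ∀ u ∈ U, u * β - β * u ∈ U) (h2 : ∀ u ∈ U, β * u * β ∈ U) : poly U ≤ Mod β U := by
  intro g hg
  refine mem_Mod.2 ⟨P (- -β) * g * P (-β), conj_mem le_rfl (fun u hu => ?_) (fun u hu => ?_) hg, ?_⟩
  · have := neg_mem (h1 u hu)
    convert this using 1; noncomm_ring
  · have := h2 u hu
    convert this using 1; noncomm_ring
  · rw [neg_neg, ← mul_assoc, ← mul_assoc, P_mul' hβ, one_mul, mul_assoc, P_mul' hβ, mul_one]

theorem le_lim {β : R} (hβ : β * β = 0) {U : AddSubgroup R}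
    (h1 : ∀ u ∈ U, u * β - β * u ∈ U) (h2 : ∀ u ∈ U, β * u * β ∈ U) : U ≤ lim β U :=
  fun u hu => ⟨0, C u, poly_le_Mod hβ h1 h2 (poly_C hu),
    fun k hk => by rw [coeff_C, if_neg (by omega)], coeff_C_zero⟩

theorem strict {β : R} (hβ : β * β = 0) {U U' : AddSubgroup R} (h : U' ≤ U)
    (h1 : ∀ u ∈ U', u * β - β * u ∈ U') (h2 : ∀ u ∈ U', β * u * β ∈ U') {u : R} (hu : u ∈ U) :
    β * u * β ∈ lim β U ∧ (β * u * β ∈ U' → u * β - β * u ∈ lim β U) := by
  have hf : P (-β) * C u * P β ∈ Mod β U := mem_Mod.2 ⟨_, poly_C hu, rfl⟩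
  rw [expand, ← C_mul, ← C_mul, ← C_mul, ← C_sub] at hf
  constructor
  · refine neg_mem_iff.1 ⟨2, _, hf, fun k hk => ?_, ?_⟩
    · simp only [coeff_sub, coeff_add, coeff_C_mul_X_pow, coeff_C]
      rw [if_neg (by omega), if_neg (by omega), if_neg (by omega)]; simp
    · simp only [coeff_sub, coeff_add, coeff_C_mul_X_pow, coeff_C]
      simp
  · intro k
    have h3 : C (β * u * β) * X ^ 2 ∈ Mod β U := by
      obtain ⟨g, hg, e⟩ := poly_le_Mod hβ h1 h2 (poly_X (poly_C k) 2)
      exact ⟨g, fun n => h (hg n), e⟩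
    have h4 := add_mem hf h3
    rw [sub_add_cancel] at h4
    refine ⟨1, _, h4, fun k hk => ?_, ?_⟩
    · simp only [coeff_add, coeff_C_mul_X_pow, coeff_C]
      rw [if_neg (by omega), if_neg (by omega)]; simp
    · simp only [coeff_add, coeff_C_mul_X_pow, coeff_C]
      simp

def Dg (R : Type*) [Ring R] (n : ℕ) : AddSubgroup R[X] where
  carrier := {g | ∀ k, n ≤ k → g.coeff k = 0}
  zero_mem' := fun n _ => by simp
  add_mem' := fun ha hb k hk => by rw [coeff_add, ha k hk, hb k hk, add_zero]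
  neg_mem' := fun ha k hk => by rw [coeff_neg, ha k hk, neg_zero]

theorem pow_ineq {u l : ℕ} (hl : 0 < l) (h : ∀ n, u ^ n ≤ l ^ (n + 2)) : u ≤ l := by
  by_contra hn
  have h1 : (l + 1) ^ (l ^ 3) ≤ l ^ (l ^ 3 + 2) :=
    (Nat.pow_le_pow_left (by omega) _).trans (h _)
  have h2 : ((l : ℝ) + 1) ^ (l ^ 3) ≤ (l : ℝ) ^ (l ^ 3 + 2) := by exact_mod_cast h1
  have hl' : (0 : ℝ) < l := by exact_mod_cast hl
  have h3 := one_add_mul_le_pow (a := 1 / (l : ℝ)) (by
    have : (0 : ℝ) < 1 / l := by positivity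
    linarith) (l ^ 3)
  have h4 : ((l : ℝ) + 1) = l * (1 + 1 / l) := by field_simp
  rw [h4, mul_pow, pow_add] at h2
  have h5 := le_of_mul_le_mul_left h2 (by positivity)
  have h6 : ((l ^ 3 : ℕ) : ℝ) * (1 / l) = l ^ 2 := by push_cast; field_simp
  rw [h6] at h3
  linarith

theorem card_le_lim [Finite R] {β : R} (hβ : β * β = 0) (U : AddSubgroup R) :
    Nat.card U ≤ Nat.card (lim β U) := by
  classical
  have up : ∀ n, Finite (Mod β U ⊓ Dg R n : AddSubgroup R[X]) ∧
      Nat.card (Mod β U ⊓ Dg R n : AddSubgroup R[X]) ≤ Nat.card (lim β U) ^ n := by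
    intro n
    have hf : Finite (Mod β U ⊓ Dg R n : AddSubgroup R[X]) := by
      refine Finite.of_injective (fun f (i : Fin n) => (f : R[X]).coeff i) fun f g e => ?_
      ext k
      by_cases hk : k < n
      · exact congrFun e ⟨k, hk⟩
      · rw [f.2.2 k (by omega), g.2.2 k (by omega)]
    refine ⟨hf, ?_⟩
    clear hf
    induction n with
    | zero =>
      have : (Mod β U ⊓ Dg R 0 : AddSubgroup R[X]) = ⊥ := by
        rw [eq_bot_iff]
        intro f hf
        rw [AddSubgroup.mem_bot]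
        ext k
        exact hf.2 k (by omega)
      rw [this]; simp
    | succ n ih =>
      let φ : (Mod β U ⊓ Dg R (n + 1) : AddSubgroup R[X]) →+ lim β U :=
        { toFun := fun f => ⟨(f : R[X]).coeff n, n, f, f.2.1, fun k hk => f.2.2 k hk, rfl⟩
          map_zero' := by ext; simp
          map_add' := fun f g => by ext; simp }
      have e := AddSubgroup.card_eq_card_quotient_mul_card_addSubgroup φ.ker
      have e1 : Nat.card (_ ⧸ φ.ker) ≤ Nat.card (lim β U) :=
        Nat.card_le_card_of_injective _ (QuotientAddGroup.kerLift_injective φ)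
      have e2 : Nat.card φ.ker = Nat.card (Mod β U ⊓ Dg R n : AddSubgroup R[X]) := by
        refine Nat.card_congr
          { toFun := fun f => ⟨f.1.1, f.1.2.1, fun k hk => ?_⟩
            invFun := fun f => ⟨⟨f.1, f.2.1, fun k hk => f.2.2 k (by omega)⟩,
              Subtype.ext (f.2.2 n le_rfl)⟩
            left_inv := fun f => rfl
            right_inv := fun f => rfl }
        rcases hk.eq_or_lt with rfl | hk
        · exact congrArg Subtype.val f.2
        · exact f.1.2.2 k hk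
      rw [e, e2, pow_succ, mul_comm]
      exact Nat.mul_le_mul ih e1
  refine pow_ineq Nat.card_pos fun n => le_trans ?_ (up (n + 2)).2
  have := (up (n + 2)).1
  have hs : ∀ (v : Fin n → U) (k : ℕ), (∑ i : Fin n, monomial i (v i : R)).coeff k =
      if h : k < n then (v ⟨k, h⟩ : R) else 0 := by
    intro v k
    rw [finsetSum_coeff]
    split_ifs with h
    · rw [Finset.sum_eq_single ⟨k, h⟩ (fun b _ hb => by
        rw [coeff_monomial, if_neg (fun e => hb (Fin.ext e))]) (by simp), coeff_monomial, if_pos rfl]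
    · exact Finset.sum_eq_zero fun i _ => by rw [coeff_monomial, if_neg (by omega)]
  let ψ : (Fin n → U) → (Mod β U ⊓ Dg R (n + 2) : AddSubgroup R[X]) := fun v =>
    ⟨P (-β) * (∑ i : Fin n, monomial i (v i : R)) * P β, mem_Mod.2 ⟨_, fun k => by
      rw [hs]; split_ifs
      · exact (v _).2
      · exact zero_mem _, rfl⟩, fun k hk => by
      rw [expand, coeff_sub, coeff_add, coeff_mul_X_pow', coeff_mul_X_pow', if_pos (by omega),
        if_pos (by omega), coeff_sub, coeff_mul_C, coeff_C_mul, coeff_mul_C, coeff_C_mul, hs, hs, hs,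
        dif_neg (by omega), dif_neg (by omega), dif_neg (by omega)]
      simp⟩
  have hψ : Function.Injective ψ := by
    intro v w e
    have e1 := congrArg (fun f : (Mod β U ⊓ Dg R (n + 2) : AddSubgroup R[X]) =>
      P β * (f : R[X]) * P (-β)) e
    have k : ∀ g : R[X], P β * (P (-β) * g * P β) * P (-β) = g := fun g => by
      rw [← mul_assoc, ← mul_assoc, P_mul hβ, one_mul, mul_assoc, P_mul hβ, mul_one]
    simp only [ψ, k] at e1
    funext i
    have e2 := congrArg (fun f : R[X] => f.coeff i) e1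
    simp only [hs, dif_pos i.2] at e2
    exact Subtype.ext e2
  have := Nat.card_le_card_of_injective ψ hψ
  rwa [Nat.card_pi, Finset.prod_const, Finset.card_univ, Fintype.card_fin] at this

end H17.Ol
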