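import Cfsg.Agent.H17.Ol1
import Cfsg.Agent.H5.SigBasic

/-! Two-subnormal quadratic offenders, ring version. -/

set_option autoImplicit false
set_option linter.unusedSectionVars false

namespace H17.Ol

variable {R : Type*} [Ring R] [Finite R] {G : Type*} [Group G] [Finite G] {p : ℕ} [Fact p.Prime]

theorem half (hp : p ≠ 2) (hR : ∀ x : R, p • x = 0) (x : R) : ((p + 1) / 2) • (x + x) = x := by
  obtain ⟨k, hk⟩ := (Fact.out : p.Prime).odd_of_ne_two hp
  have : (p + 1) / 2 * 2 = p + 1 := by omega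
  rw [← two_nsmul, ← mul_nsmul', this, add_nsmul, hR, zero_add, one_nsmul]

theorem half_mem (hp : p ≠ 2) (hR : ∀ x : R, p • x = 0) {U : AddSubgroup R} {x : R}
    (h : x + x ∈ U) : x ∈ U := by
  rw [← half hp hR x]; exact nsmul_mem h _

theorem half_eq (hp : p ≠ 2) (hR : ∀ x : R, p • x = 0) {x y : R} (h : x + x = y + y) : x = y := by
  rw [← half hp hR x, h, half hp hR]

theorem exists_half (hp : p ≠ 2) (hR : ∀ x : R, p • x = 0) {U : AddSubgroup R} {x : R}
    (h : x ∈ U) : ∃ k ∈ U, k + k = x :=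
  ⟨((p + 1) / 2) • x, nsmul_mem h _, by rw [← nsmul_add, half hp hR]⟩

/-- the product formula -/
theorem prod_formula (hp : p ≠ 2) (hR : ∀ x : R, p • x = 0) {U₀ U₁ U₂ : AddSubgroup R}
    (z0 : ∀ a ∈ U₀, ∀ b ∈ U₀, a * b = 0) (z1 : ∀ a ∈ U₁, ∀ b ∈ U₁, a * b = 0)
    (z2 : ∀ a ∈ U₂, ∀ b ∈ U₂, a * b = 0)
    (c01 : ∀ a ∈ U₀, ∀ b ∈ U₁, a * b - b * a ∈ U₀ ⊓ U₁)
    (c02 : ∀ a ∈ U₀, ∀ b ∈ U₂, a * b - b * a ∈ U₀ ⊓ U₂)
    (c12 : ∀ a ∈ U₁, ∀ b ∈ U₂, a * b - b * a ∈ U₁ ⊓ U₂)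
    {x y z : R} (hx : x ∈ U₀) (hy : y ∈ U₁) (hz : z ∈ U₂) (h : (x + y + z) * (x + y + z) = 0) :
    ∃ a ∈ U₀, ∃ b ∈ U₀, ∃ c ∈ U₁,
      (1 + x) * (1 + y) * (1 + z) * (1 + a) * (1 + b) * (1 + c) = 1 + (x + y + z) := by
  obtain ⟨k1, m1, e1⟩ := exists_half hp hR (c01 x hx y hy)
  obtain ⟨k2, m2, e2⟩ := exists_half hp hR (c02 x hx z hz)
  obtain ⟨k3, m3, e3⟩ := exists_half hp hR (c12 y hy z hz)
  have xx := z0 x hx x hx
  have yy := z1 y hy y hy
  have zz := z2 z hz z hz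
  have t : ∀ {a b : R}, a * a = 0 → a * (a * b - b * a) = 0 → a * b * a = 0 := by
    intro a b h1 h2
    rwa [mul_sub, ← mul_assoc, h1, zero_mul, zero_sub, neg_eq_zero, ← mul_assoc] at h2
  have t' : ∀ {a b : R}, b * b = 0 → b * (a * b - b * a) = 0 → b * a * b = 0 := by
    intro a b h1 h2
    rwa [mul_sub, ← mul_assoc b b, h1, zero_mul, sub_zero, ← mul_assoc] at h2
  have xyx := t xx (z0 _ hx _ (c01 x hx y hy).1)
  have yxy := t' yy (z1 _ hy _ (c01 x hx y hy).2)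
  have xzx := t xx (z0 _ hx _ (c02 x hx z hz).1)
  have zxz := t' zz (z2 _ hz _ (c02 x hx z hz).2)
  have yzy := t yy (z1 _ hy _ (c12 y hy z hz).1)
  have zyz := t' zz (z2 _ hz _ (c12 y hy z hz).2)
  have S : x * y + y * x + x * z + z * x + y * z + z * y = 0 := by
    have : (x + y + z) * (x + y + z) =
        x * x + y * y + z * z + (x * y + y * x + x * z + z * x + y * z + z * y) := by noncomm_ring
    rwa [this, xx, yy, zz, zero_add, zero_add, zero_add] at h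
  have f1 : x * y * z + x * z * y = 0 := by
    have := congrArg (x * ·) S
    simpa only [mul_add, mul_zero, ← mul_assoc, xx, xyx, xzx, zero_mul, zero_add, add_zero]
      using this
  have f2 : x * y * z + y * x * z = 0 := by
    have := congrArg (· * z) S
    simpa only [add_mul, zero_mul, mul_assoc x z z, mul_assoc y z z, zz, zxz, zyz, mul_zero,
      zero_add, add_zero] using this
  have f3 : y * x * z + y * z * x = 0 := by
    have := congrArg (y * ·) S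
    simpa only [mul_add, mul_zero, ← mul_assoc, yy, yxy, yzy, zero_mul, zero_add, add_zero]
      using this
  have f4 : x * z * y + z * x * y = 0 := by
    have := congrArg (· * y) S
    simpa only [add_mul, zero_mul, mul_assoc x y y, mul_assoc z y y, yy, yxy, yzy, mul_zero,
      zero_add, add_zero] using this
  have f5 : z * x * y + z * y * x = 0 := by
    have := congrArg (z * ·) S
    simpa only [mul_add, mul_zero, ← mul_assoc, zz, zxz, zyz, zero_mul, zero_add, add_zero]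
      using this
  have g1 : x * y + x * z + y * z = k1 + k2 + k3 := by
    refine half_eq hp hR ?_
    have : k1 + k2 + k3 + (k1 + k2 + k3) = (k1 + k1) + (k2 + k2) + (k3 + k3) := by abel
    rw [this, e1, e2, e3, ← sub_eq_zero, ← S]
    abel
  have g2 : z * k1 + y * k2 + x * k3 = x * y * z := by
    refine half_eq hp hR ?_
    have : z * k1 + y * k2 + x * k3 + (z * k1 + y * k2 + x * k3) =
        z * (k1 + k1) + y * (k2 + k2) + x * (k3 + k3) := by noncomm_ring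
    rw [this, e1, e2, e3]
    simp only [mul_sub, ← mul_assoc]
    rw [eq_neg_of_add_eq_zero_right f5, eq_neg_of_add_eq_zero_right f4,
      eq_neg_of_add_eq_zero_right f3, eq_neg_of_add_eq_zero_right f2,
      eq_neg_of_add_eq_zero_right f1]
    abel
  have g3 : y * z * k1 = 0 := by
    have a1 := z1 _ hy _ (c12 k1 m1.2 z hz).1
    rwa [mul_sub, ← mul_assoc, z1 _ hy _ m1.2, zero_mul, zero_sub, neg_eq_zero, ← mul_assoc] at a1
  refine ⟨-k1, neg_mem m1.1, -k2, neg_mem m2.1, -k3, neg_mem m3.1, ?_⟩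
  have a : (1 + x) * (1 + y) * (1 + z) = 1 + (x + y + z) + (k1 + k2 + k3) + x * y * z := by
    rw [← g1]; noncomm_ring
  have b : (1 + -k1) * (1 + -k2) * (1 + -k3) = 1 - (k1 + k2 + k3) := by
    have : (1 + -k1) * (1 + -k2) * (1 + -k3) =
      1 - (k1 + k2 + k3) + k1 * k2 + k1 * k3 + k2 * k3 - k1 * k2 * k3 := by noncomm_ring
    rw [this, z0 _ m1.1 _ m2.1, z1 _ m1.2 _ m3.1, z2 _ m2.2 _ m3.2]; simp
  rw [mul_assoc _ (1 + -k1), mul_assoc _ (_ * _) (1 + -k3), a, b]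
  have c : (1 + (x + y + z) + (k1 + k2 + k3) + x * y * z) * (1 - (k1 + k2 + k3)) =
      1 + (x + y + z) + x * y * z - (z * k1 + y * k2 + x * k3) - (x * k1 + y * k1 + x * k2 + z * k2 +
        y * k3 + z * k3) - (k1 * k1 + k1 * k2 + k1 * k3 + k2 * k1 + k2 * k2 + k2 * k3 + k3 * k1 +
        k3 * k2 + k3 * k3) - (x * (y * z * k1) + x * y * (z * k2) + x * y * (z * k3)) := by
    noncomm_ring
  rw [c, g2, g3, z0 _ hx _ m1.1, z1 _ hy _ m1.2, z0 _ hx _ m2.1, z2 _ hz _ m2.2, z1 _ hy _ m3.1,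
    z2 _ hz _ m3.2, z0 _ m1.1 _ m1.1, z0 _ m1.1 _ m2.1, z1 _ m1.2 _ m3.1, z0 _ m2.1 _ m1.1,
    z0 _ m2.1 _ m2.1, z2 _ m2.2 _ m3.2, z1 _ m3.1 _ m1.2, z2 _ m3.2 _ m2.2, z1 _ m3.1 _ m3.1]
  simp

/-- conjugation -/
def cj (ρ : G →* R) (g : G) : R →+ R :=
  (AddMonoidHom.mulRight (ρ g⁻¹)).comp (AddMonoidHom.mulLeft (ρ g))

theorem cj_apply (ρ : G →* R) (g : G) (x : R) : cj ρ g x = ρ g * x * ρ g⁻¹ := rfl

theorem cj_mul (ρ : G →* R) (g h : G) (x : R) : cj ρ (g * h) x = cj ρ g (cj ρ h x) := by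
  simp only [cj_apply, mul_inv_rev, map_mul, mul_assoc]

theorem cj_one (ρ : G →* R) (x : R) : cj ρ 1 x = x := by simp [cj_apply]

theorem cj_inj (ρ : G →* R) (g : G) : Function.Injective (cj ρ g) := fun x y h => by
  rw [← cj_one ρ x, ← cj_one ρ y, ← inv_mul_cancel g, cj_mul, cj_mul, h]

theorem cj_mul' (ρ : G →* R) (g : G) (x y : R) : cj ρ g x * cj ρ g y = cj ρ g (x * y) := by
  simp only [cj_apply, mul_assoc]
  rw [← mul_assoc (ρ g⁻¹), ← map_mul, inv_mul_cancel, map_one, one_mul]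

theorem cj_rho (ρ : G →* R) (g h : G) : cj ρ g (ρ h) = ρ (g * h * g⁻¹) := by
  simp only [cj_apply, map_mul]

def Inv (ρ : G →* R) (E : AddSubgroup R) : Prop := ∀ g, ∀ x ∈ E, cj ρ g x ∈ E

theorem drop (hG : IsPGroup p G) (hR : ∀ x : R, p • x = 0) (ρ : G →* R) {E : AddSubgroup R}
    (hE : Inv ρ E) (h0 : E ≠ ⊥) :
    ∃ E' < E, Inv ρ E' ∧ ∀ g, ∀ x ∈ E, cj ρ g x - x ∈ E' := by
  obtain ⟨E', ⟨h1, h2⟩, hmax⟩ := (Set.toFinite {E' | E' < E ∧ Inv ρ E'}).exists_maximal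
    ⟨⊥, bot_lt_iff_ne_bot.2 h0, fun g x hx => by
      rw [AddSubgroup.mem_bot.1 hx, map_zero]; exact zero_mem _⟩
  refine ⟨E', h1, h2, ?_⟩
  let F : AddSubgroup R :=
    { carrier := {x | x ∈ E ∧ ∀ g, cj ρ g x - x ∈ E'}
      zero_mem' := ⟨zero_mem _, fun g => by simp⟩
      add_mem' := fun {a b} ha hb => ⟨add_mem ha.1 hb.1, fun g => by
        have := add_mem (ha.2 g) (hb.2 g)
        rw [map_add]; convert this using 1; abel⟩
      neg_mem' := fun {a} ha => ⟨neg_mem ha.1, fun g => by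
        have := neg_mem (ha.2 g)
        rw [map_neg]; convert this using 1; abel⟩ }
  have hF : Inv ρ F := fun g x hx => ⟨hE g x hx.1, fun k => by
    have := sub_mem (hx.2 (k * g)) (hx.2 g)
    rw [← cj_mul]; convert this using 1; abel⟩
  have hle : E' ≤ F := fun x hx => ⟨h1.le hx, fun g => sub_mem (h2 g x hx) hx⟩
  by_contra hn
  have hFE : F < E := lt_of_le_of_ne (fun x hx => hx.1) fun e => hn fun g x hx => (e.ge hx).2 g
  have hFE' : F ≤ E' := hmax ⟨hFE, hF⟩ hle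
  let π := QuotientAddGroup.mk' E'
  let m : G → R ⧸ E' →+ R ⧸ E' := fun g => QuotientAddGroup.map E' E' (cj ρ g) (h2 g)
  have hm : ∀ g x, m g (π x) = π (cj ρ g x) := fun _ _ => rfl
  letI : MulAction G (E.map π) :=
    { smul := fun g q => ⟨m g q, by
        obtain ⟨_, x, hx, rfl⟩ := q
        exact ⟨_, hE g x hx, rfl⟩⟩
      one_smul := by
        rintro ⟨_, x, hx, rfl⟩
        exact Subtype.ext ((hm 1 x).trans (by rw [cj_one]))
      mul_smul := by
        rintro g k ⟨_, x, hx, rfl⟩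
        exact Subtype.ext ((hm _ x).trans (by rw [cj_mul]; rfl)) }
  obtain ⟨x, hx, hx'⟩ := SetLike.exists_of_lt h1
  have hd : p ∣ Nat.card (E.map π) := by
    have : addOrderOf (⟨π x, x, hx, rfl⟩ : E.map π) = p := by
      refine addOrderOf_eq_prime (Subtype.ext ?_) fun e => hx' ?_
      · change p • π x = 0
        rw [← map_nsmul, hR, map_zero]
      · exact (QuotientAddGroup.eq_zero_iff x).1 (congrArg Subtype.val e)
    rw [← this]; exact addOrderOf_dvd_natCard _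
  obtain ⟨⟨_, y, hy, rfl⟩, hb, hne⟩ := hG.exists_fixed_point_of_prime_dvd_card_of_fixed_point
    (E.map π) hd (a := 0) (fun g => Subtype.ext (map_zero (m g)))
  refine hne (Subtype.ext ((QuotientAddGroup.eq_zero_iff y).2 (hFE' ⟨hy, fun g => ?_⟩)).symm)
  have := congrArg Subtype.val (hb g)
  exact QuotientAddGroup.eq_iff_sub_mem.1 this

end H17.Ol
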