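import Cfsg.Agent.H17.Ol2

/-! Two-subnormal quadratic offenders, ring version. -/

set_option autoImplicit false
set_option linter.unusedSectionVars false

namespace H17.Ol

variable {R : Type*} [Ring R] [Finite R] {G : Type*} [Group G] [Finite G] {p : ℕ} [Fact p.Prime]

def ann (U : AddSubgroup R) : AddSubgroup R where
  carrier := {y | ∀ x ∈ U, x * y = 0}
  zero_mem' := fun x _ => mul_zero x
  add_mem' := fun ha hb x hx => by rw [mul_add, ha x hx, hb x hx, add_zero]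
  neg_mem' := fun ha x hx => by rw [mul_neg, ha x hx, neg_zero]

structure Fam (ρ : G →* R) (n m : ℕ) (U : AddSubgroup R) : Prop where
  sq : ∀ x ∈ U, ∀ y ∈ U, x * y = 0
  ex : ∀ x ∈ U, ∃ g, ρ g = 1 + x
  c1 : n ≤ Nat.card U
  c2 : m ≤ Nat.card (ann U)

theorem rho_inv (ρ : G →* R) {g : G} {x : R} (h : ρ g = 1 + x) (hx : x * x = 0) :
    ρ g⁻¹ = 1 - x := by
  have e : (1 + x) * (1 - x) = 1 := by
    have : (1 + x) * (1 - x) = 1 - x * x := by noncomm_ring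
    rw [this, hx, sub_zero]
  calc ρ g⁻¹ = ρ g⁻¹ * (ρ g * (1 - x)) := by rw [h, e, mul_one]
    _ = 1 - x := by rw [← mul_assoc, ← map_mul, inv_mul_cancel, map_one, one_mul]

def grp (ρ : G →* R) (U : AddSubgroup R) (h : ∀ x ∈ U, ∀ y ∈ U, x * y = 0) : Subgroup G where
  carrier := {g | ρ g - 1 ∈ U}
  one_mem' := by simp
  mul_mem' := fun {a b} ha hb => by
    have e : ρ (a * b) - 1 = (ρ a - 1) + (ρ b - 1) + (ρ a - 1) * (ρ b - 1) := by
      rw [map_mul]; noncomm_ring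
    change ρ (a * b) - 1 ∈ U
    rw [e, h _ ha _ hb, add_zero]; exact add_mem ha hb
  inv_mem' := fun {a} ha => by
    change ρ a⁻¹ - 1 ∈ U
    rw [rho_inv ρ (x := ρ a - 1) (by abel) (h _ ha _ ha), sub_sub_cancel_left]
    exact neg_mem ha

open Classical in
noncomputable def wt (ρ : G →* R) (U : AddSubgroup R) : ℕ :=
  ∏ E ∈ (Set.toFinite {E | Inv ρ E}).toFinset, Nat.card (U ⊓ E : AddSubgroup R)

theorem card_le_map (ρ : G →* R) (g : G) {U W : AddSubgroup R} (h : ∀ x ∈ U, cj ρ g x ∈ W) :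
    Nat.card U ≤ Nat.card W :=
  Nat.card_le_card_of_injective (fun x : U => (⟨cj ρ g x, h x x.2⟩ : W))
    fun _ _ e => Subtype.ext (cj_inj ρ g (congrArg Subtype.val e))

theorem Fam.map {ρ : G →* R} {n m : ℕ} {U : AddSubgroup R} (h : Fam ρ n m U) (g : G) :
    Fam ρ n m (U.map (cj ρ g)) := by
  refine ⟨?_, ?_, h.c1.trans (card_le_map ρ g fun x hx => ⟨x, hx, rfl⟩),
    h.c2.trans (card_le_map ρ g ?_)⟩
  · rintro _ ⟨x, hx, rfl⟩ _ ⟨y, hy, rfl⟩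
    rw [cj_mul', h.sq x hx y hy, map_zero]
  · rintro _ ⟨x, hx, rfl⟩
    obtain ⟨k, hk⟩ := h.ex x hx
    exact ⟨g * k * g⁻¹, by rw [← cj_rho, hk, map_add, ← map_one ρ, cj_rho]; simp⟩
  · rintro y hy _ ⟨x, hx, rfl⟩
    rw [cj_mul', hy x hx, map_zero]

theorem wt_map (ρ : G →* R) (U : AddSubgroup R) (g : G) : wt ρ U ≤ wt ρ (U.map (cj ρ g)) :=
  Finset.prod_le_prod' fun E hE => card_le_map ρ g fun x hx =>
    ⟨⟨x, hx.1, rfl⟩, (Set.Finite.mem_toFinset _).1 hE g x hx.2⟩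

theorem comm_mem (hp : p ≠ 2) (hR : ∀ x : R, p • x = 0) {ρ : G →* R} {n m : ℕ}
    {U U' : AddSubgroup R} (h' : Fam ρ n m U')
    (hn : ∀ g, ρ g - 1 ∈ U' → ∀ x ∈ U, cj ρ g x ∈ U) {x y : R} (hx : x ∈ U) (hy : y ∈ U') :
    x * y - y * x ∈ U := by
  obtain ⟨g, hg⟩ := h'.ex y hy
  have hi := rho_inv ρ hg (h'.sq y hy y hy)
  have k1 := hn g (by rw [hg, add_sub_cancel_left]; exact hy) x hx
  have k2 := hn g⁻¹ (by rw [hi, sub_sub_cancel_left]; exact neg_mem hy) x hx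
  rw [cj_apply, hg, hi] at k1
  rw [cj_apply, inv_inv, hg, hi] at k2
  refine half_mem hp hR ?_
  have := sub_mem k2 k1
  convert this using 1
  noncomm_ring

theorem step (hp : p ≠ 2) (hG : IsPGroup p G) (hR : ∀ x : R, p • x = 0) {ρ : G →* R} {n m : ℕ}
    {U : AddSubgroup R} (h : Fam ρ n m U) {b : G} (hb : (ρ b - 1) * (ρ b - 1) = 0)
    (hn : ∀ s ∈ Subgroup.zpowers b, ∀ t ∈ Subgroup.zpowers b, ∀ g, ρ g - 1 ∈ U.map (cj ρ t) →
      ∀ x ∈ U.map (cj ρ s), cj ρ g x ∈ U.map (cj ρ s))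
    (hU : ¬ ∀ x ∈ U, cj ρ b x ∈ U) : ∃ L, Fam ρ n m L ∧ wt ρ U < wt ρ L := by
  classical
  set β := ρ b - 1 with hβ
  have e1 : ρ b = 1 + β := by rw [hβ]; abel
  have e2 := rho_inv ρ e1 hb
  have c1 : ∀ x, cj ρ b x = x - (x * β - β * x) - β * x * β := fun x => by
    rw [cj_apply, e1, e2]; noncomm_ring
  have c2 : ∀ x, cj ρ b⁻¹ x = x + (x * β - β * x) - β * x * β := fun x => by
    rw [cj_apply, inv_inv, e1, e2]; noncomm_ring
  have dl : ∀ (W : AddSubgroup R) (x : R), cj ρ b x - x ∈ W → cj ρ b⁻¹ x - x ∈ W →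
      x * β - β * x ∈ W ∧ β * x * β ∈ W := by
    intro W x k1 k2
    rw [c1] at k1
    rw [c2] at k2
    refine ⟨half_mem hp hR ?_, half_mem hp hR ?_⟩
    · convert sub_mem k2 k1 using 1; abel
    · convert neg_mem (add_mem k2 k1) using 1; abel
  have inv : ∀ E, Inv ρ E → ∀ x ∈ E, x * β - β * x ∈ E ∧ β * x * β ∈ E := fun E hE x hx =>
    dl E x (sub_mem (hE _ x hx) hx) (sub_mem (hE _ x hx) hx)
  have hsq := lim_mul hb h.sq
  have b0 := one_mem (Subgroup.zpowers b)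
  have b1 := Subgroup.mem_zpowers b
  have b2 := inv_mem b1
  have cm : ∀ s ∈ Subgroup.zpowers b, ∀ t ∈ Subgroup.zpowers b, ∀ x ∈ U.map (cj ρ s),
      ∀ y ∈ U.map (cj ρ t), x * y - y * x ∈ U.map (cj ρ s) ⊓ U.map (cj ρ t) :=
    fun s hs t ht x hx y hy => ⟨comm_mem hp hR (h.map t) (hn s hs t ht) hx hy, by
      have := AddSubgroup.neg_mem _ (comm_mem hp hR (h.map s) (hn t ht s hs) hy hx)
      rwa [neg_sub] at this⟩
  have hW : lim β U ≤ U.map (cj ρ 1) ⊔ U.map (cj ρ b) ⊔ U.map (cj ρ b⁻¹) := by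
    have k0 : ∀ x ∈ U, x ∈ U.map (cj ρ 1) ⊔ U.map (cj ρ b) ⊔ U.map (cj ρ b⁻¹) := fun x hx =>
      AddSubgroup.mem_sup_left (AddSubgroup.mem_sup_left ⟨x, hx, cj_one ρ x⟩)
    have k : ∀ x ∈ U, _ := fun x hx => dl (U.map (cj ρ 1) ⊔ U.map (cj ρ b) ⊔ U.map (cj ρ b⁻¹)) x
      (sub_mem (AddSubgroup.mem_sup_left (AddSubgroup.mem_sup_right ⟨x, hx, rfl⟩)) (k0 x hx))
      (sub_mem (AddSubgroup.mem_sup_right ⟨x, hx, rfl⟩) (k0 x hx))
    exact lim_le k0 (fun x hx => (k x hx).1) fun x hx => (k x hx).2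
  refine ⟨lim β U, ⟨hsq, fun w hw => ?_, h.c1.trans (card_le_lim hb U), h.c2.trans
    ((card_le_lim hb _).trans (AddSubgroup.card_le_of_le fun y hy x hx =>
      lim_mul hb (U' := ann U) (fun u hu u' hu' => hu' u hu) x hx y hy))⟩, ?_⟩
  · obtain ⟨v, hv, z, hz, rfl⟩ := AddSubgroup.mem_sup.1 (hW hw)
    obtain ⟨x, hx, y, hy, rfl⟩ := AddSubgroup.mem_sup.1 hv
    obtain ⟨a, ha, a', ha', c, hc, e⟩ := prod_formula hp hR (h.map 1).sq (h.map b).sq (h.map b⁻¹).sq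
      (cm _ b0 _ b1) (cm _ b0 _ b2) (cm _ b1 _ b2) hx hy hz (hsq _ hw _ hw)
    obtain ⟨g1, f1⟩ := (h.map _).ex x hx
    obtain ⟨g2, f2⟩ := (h.map _).ex y hy
    obtain ⟨g3, f3⟩ := (h.map _).ex z hz
    obtain ⟨g4, f4⟩ := (h.map _).ex a ha
    obtain ⟨g5, f5⟩ := (h.map _).ex a' ha'
    obtain ⟨g6, f6⟩ := (h.map _).ex c hc
    exact ⟨g1 * g2 * g3 * g4 * g5 * g6, by simp only [map_mul, f1, f2, f3, f4, f5, f6, e]⟩
  · obtain ⟨E, ⟨hE, hE1⟩, hmin⟩ := (Set.toFinite {E | Inv ρ E ∧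
      ¬ ∀ x ∈ U ⊓ E, x * β - β * x ∈ U ∧ β * x * β ∈ U}).exists_minimal
      ⟨⊤, fun _ _ _ => trivial, fun k => hU fun x hx => by
        rw [c1]; exact sub_mem (sub_mem hx (k x ⟨hx, trivial⟩).1) (k x ⟨hx, trivial⟩).2⟩
    obtain ⟨E', h1, h2, h3⟩ := drop hG hR ρ hE (by
      rintro rfl
      refine hE1 fun x hx => ?_
      rw [AddSubgroup.mem_bot.1 hx.2]; simp)
    have h4 : ∀ x ∈ U ⊓ E', x * β - β * x ∈ U ∧ β * x * β ∈ U := by
      by_contra k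
      exact h1.not_ge (hmin ⟨h2, k⟩ h1.le)
    have h5 : ∀ x ∈ U ⊓ E', x * β - β * x ∈ U ⊓ E' := fun x hx =>
      ⟨(h4 x hx).1, (inv _ h2 x hx.2).1⟩
    have h6 : ∀ x ∈ U ⊓ E', β * x * β ∈ U ⊓ E' := fun x hx => ⟨(h4 x hx).2, (inv _ h2 x hx.2).2⟩
    refine Finset.prod_lt_prod (fun _ _ => Nat.card_pos) (fun F hF => ?_)
      ⟨E', (Set.Finite.mem_toFinset _).2 h2, ?_⟩
    · have hF' : Inv ρ F := (Set.Finite.mem_toFinset _).1 hF
      exact (card_le_lim hb _).trans (AddSubgroup.card_le_of_le (le_inf (lim_mono inf_le_left)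
        (lim_le inf_le_right (fun x hx => (inv _ hF' x hx.2).1) fun x hx => (inv _ hF' x hx.2).2)))
    · have k1 : U ⊓ E' ≤ lim β U ⊓ E' :=
        le_inf ((le_lim hb h5 h6).trans (lim_mono inf_le_left)) inf_le_right
      refine lt_of_le_of_ne (AddSubgroup.card_le_of_le k1) fun e => hE1 fun x hx => ?_
      have k2 := AddSubgroup.eq_of_le_of_card_ge k1 e.ge
      obtain ⟨s1, s2⟩ := strict hb inf_le_left h5 h6 hx.1
      obtain ⟨d1, d2⟩ := dl E' x (h3 _ x hx.2) (h3 _ x hx.2)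
      have k3 := k2.ge ⟨s1, d2⟩
      exact ⟨(k2.ge ⟨s2 k3, d1⟩).1, k3.1⟩

theorem main (hp : p ≠ 2) (hG : IsPGroup p G) (hR : ∀ x : R, p • x = 0) {ρ : G →* R} {n m : ℕ}
    {U₀ : AddSubgroup R} (h0 : Fam ρ n m U₀) :
    ∃ U, Fam ρ n m U ∧ ∀ k g, ρ g - 1 ∈ U → ∀ x ∈ U, cj ρ (k * g * k⁻¹) x ∈ U := by
  obtain ⟨U₁, h1, hmax⟩ := Set.exists_max_image {U | Fam ρ n m U} (wt ρ) (Set.toFinite _) ⟨U₀, h0⟩
  have hc : ∀ {U : AddSubgroup R} {k g : G}, ρ g - 1 ∈ U → ρ (k * g * k⁻¹) - 1 ∈ U.map (cj ρ k) :=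
    fun {U k g} hg => ⟨_, hg, by rw [map_sub, cj_rho, ← map_one ρ, cj_rho]; simp⟩
  have key : ∀ (c : ℕ) (U U' : AddSubgroup R) (h : Fam ρ n m U) (h' : Fam ρ n m U'),
      wt ρ U₁ ≤ wt ρ U → wt ρ U₁ ≤ wt ρ U' →
      Nat.card (grp ρ U h.sq ⊔ grp ρ U' h'.sq : Subgroup G) = c →
      ∀ g, ρ g - 1 ∈ U' → ∀ x ∈ U, cj ρ g x ∈ U := by
    intro c
    induction c using Nat.strong_induction_on with
    | _ c ih =>
    intro U U' h h' w w' hcard b hb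
    by_contra hn
    set H := grp ρ U h.sq ⊔ grp ρ U' h'.sq with hH
    have hne : grp ρ U h.sq ≠ H := by
      intro e
      have hbU : ρ b - 1 ∈ U := (e.ge ((le_sup_right : _ ≤ H) hb) : b ∈ grp ρ U h.sq)
      refine hn fun x hx => ?_
      have e1 : ρ b = 1 + (ρ b - 1) := by abel
      rw [cj_apply, rho_inv ρ e1 (h.sq _ hbU _ hbU), e1, add_mul, h.sq _ hbU _ hx, add_zero, one_mul,
        mul_sub, mul_one, add_sub_cancel_left, h.sq _ hx _ hbU, sub_zero]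
      exact hx
    obtain ⟨K, ⟨k1, k2⟩, k3, kmax⟩ := H1.exists_maximal_ge (fun K : Subgroup G => K ≤ H ∧ K ≠ H)
      (N := grp ρ U h.sq) ⟨le_sup_left, hne⟩
    have hN : H ≤ Subgroup.normalizer (K : Set G) := by
      by_contra k4
      refine H5.not_normalizer_inf_le (hG.to_subgroup H) k1 k2 (kmax _ ⟨inf_le_right, fun e => ?_⟩
        (le_inf Subgroup.le_normalizer k1)).le
      exact k4 (e.ge.trans inf_le_left)
    have hK : ∀ s ∈ H, grp ρ _ (h.map s).sq ≤ K := by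
      rintro s hs g ⟨x, hx, e⟩
      have : s⁻¹ * g * s⁻¹⁻¹ ∈ grp ρ U h.sq := by
        change ρ _ - 1 ∈ U
        have e2 := congrArg (cj ρ s⁻¹) e
        rw [← cj_mul, inv_mul_cancel, cj_one, map_sub, cj_rho, ← map_one ρ, cj_rho] at e2
        simp only [mul_one, mul_inv_cancel, map_one] at e2
        rw [← e2]; exact hx
      exact (Subgroup.mem_normalizer_iff.1 (hN (inv_mem hs)) g).2 (k3 this)
    have hb' : Subgroup.zpowers b ≤ H := Subgroup.zpowers_le.2 ((le_sup_right : _ ≤ H) hb)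
    have hlt : ∀ s, ∀ hs : s ∈ H, ∀ t, ∀ ht : t ∈ H,
        Nat.card (grp ρ _ (h.map s).sq ⊔ grp ρ _ (h.map t).sq : Subgroup G) < c := by
      intro s hs t ht
      rw [← hcard]
      refine lt_of_le_of_ne (Subgroup.card_le_of_le ((sup_le (hK s hs) (hK t ht)).trans k1))
        fun e => k2 (le_antisymm k1 ?_)
      exact (Subgroup.eq_of_le_of_card_ge ((sup_le (hK s hs) (hK t ht)).trans k1)
        e.ge).ge.trans (sup_le (hK s hs) (hK t ht))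
    obtain ⟨L, l1, l2⟩ := step hp hG hR h (h'.sq _ hb _ hb) (fun s hs t ht => ih _
      (hlt s (hb' hs) t (hb' ht)) _ _ (h.map s)
      (h.map t) (w.trans (wt_map ρ U s)) (w.trans (wt_map ρ U t)) rfl) hn
    exact (w.trans_lt l2).not_ge (hmax L l1)
  exact ⟨U₁, h1, fun k g hg => key _ U₁ _ h1 (h1.map k) le_rfl (wt_map ρ U₁ k) rfl _ (hc hg)⟩

end H17.Ol
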