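import Cfsg.Agent.H17.Ol3
import Cfsg.Agent.H4.Replace

/-! Two-subnormal quadratic offenders. -/

set_option autoImplicit false
set_option linter.unusedSectionVars false

namespace H17.Ol

open Subgroup _root_.Cfsg
open scoped commutatorElement

theorem card_ann {F M : Type*} [Field F] [AddCommGroup M] [Module F M] [Finite M]
    (U : AddSubgroup (Module.End F M)) :
    Nat.card (ann U) = Nat.card {v : M // ∀ x ∈ U, x v = 0} ^ Module.finrank F M := by
  let K : Submodule F M :=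
    { carrier := {v | ∀ x ∈ U, x v = 0}
      zero_mem' := fun x _ => map_zero x
      add_mem' := fun ha hb x hx => by rw [map_add, ha x hx, hb x hx, add_zero]
      smul_mem' := fun c v hv x hx => by rw [map_smul, hv x hx, smul_zero] }
  have e : ann U ≃ (M →ₗ[F] K) :=
    { toFun := fun y => y.1.codRestrict K fun v x hx => LinearMap.congr_fun (y.2 x hx) v
      invFun := fun f => ⟨K.subtype.comp f, fun x hx => LinearMap.ext fun v => (f v).2 x hx⟩
      left_inv := fun y => rfl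
      right_inv := fun f => rfl }
  rw [Nat.card_congr e, ← Nat.card_congr ((Module.finBasis F M).constr ℕ (M' := K)).toEquiv,
    Nat.card_pi, Finset.prod_const, Finset.card_univ, Fintype.card_fin]
  rfl

theorem ex_rep {p : ℕ} {X W : Type*} [Group X] [CommGroup W] [Module (ZMod p) (Additive W)]
    (φ : X →* MulAut W) : ∃ ρ : X →* Module.End (ZMod p) (Additive W),
      ∀ x (v : Additive W), ρ x v = Additive.ofMul (φ x v.toMul) := by
  let f : X → Module.End (ZMod p) (Additive W) :=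
    fun x => (MonoidHom.toAdditive (φ x).toMonoidHom).toZModLinearMap p
  have hf : ∀ x (v : Additive W), f x v = Additive.ofMul (φ x v.toMul) := fun _ _ => rfl
  refine ⟨{ toFun := f, map_one' := LinearMap.ext fun v => ?_,
            map_mul' := fun x y => LinearMap.ext fun v => ?_ }, fun _ _ => rfl⟩
  · rw [hf, map_one]; rfl
  · rw [Module.End.mul_apply, hf, hf, hf, map_mul]; rfl

variable {Ω : Type*} [Group Ω] [Finite Ω] {p : ℕ} [Fact p.Prime] {V G : Subgroup Ω}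

theorem exists_quad (hV : IsElementaryAbelian p V) (hGV : G ≤ normalizer (V : Set Ω))
    (hfaith : G ⊓ centralizer (V : Set Ω) = ⊥) {E : Subgroup Ω} (h1 : E ≤ G) (h2 : E ≠ ⊥)
    (h3 : IsElementaryAbelian p E) (h4 : Nat.card V ≤ H4.meas V E) :
    ∃ A ≤ G, A ≠ ⊥ ∧ Nat.card V ≤ H4.meas V A ∧ ⁅⁅V, A⁆, A⁆ = ⊥ := by
  obtain ⟨A, ⟨k1, k2⟩, hmax⟩ := Set.exists_max_image {A : Subgroup Ω | A ≤ E ∧ A ≠ ⊥}
    (H4.meas V) (Set.toFinite _) ⟨E, le_rfl, h2⟩
  have hA := H4.elemAb_of_le h3 k1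
  have hb : IsBestOffenderOn p V A := by
    refine ⟨fun B hB => ?_, by rw [H4.elemAb_commutator_self hA]; exact bot_le,
      fun a ha => by rw [hA.2 a ha]; exact one_mem _⟩
    by_cases h0 : B = ⊥
    · subst h0
      exact (H4.meas_bot V).le.trans (h4.trans (hmax E ⟨le_rfl, h2⟩))
    · exact hmax B ⟨hB.trans k1, h0⟩
  obtain ⟨t1, -, t3⟩ := H4.timmesfeld hV (k1.trans (h1.trans hGV)) hb le_rfl
  refine ⟨_, inf_le_left.trans (k1.trans h1), fun e => t3 (fun e' => k2 ?_) ?_,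
    (H4.meas_bot V).ge.trans (H4.bestOffender_meas t1 bot_le), ?_⟩
  · rw [eq_bot_iff, ← hfaith]
    exact le_inf (k1.trans h1) (le_centralizer_iff.1 (commutator_eq_bot_iff_le_centralizer.1 e'))
  · rw [e, commutator_bot_right]
  · rw [commutator_comm, commutator_eq_bot_iff_le_centralizer]
    exact inf_le_right.trans (H4.centralizer_anti (commutator_mono le_rfl inf_le_left))

theorem final (hp : p ≠ 2) (hV : IsElementaryAbelian p V) (hG : IsPGroup p G)
    (hGV : G ≤ normalizer (V : Set Ω)) (hfaith : G ⊓ centralizer (V : Set Ω) = ⊥)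
    {A₀ : Subgroup Ω} (h1 : A₀ ≤ G) (h2 : A₀ ≠ ⊥) (h4 : Nat.card V ≤ H4.meas V A₀)
    (h5 : ⁅⁅V, A₀⁆, A₀⁆ = ⊥) {M : Type*} [AddCommGroup M] [Module (ZMod p) M] [Finite M]
    (ι : M ≃ V) (hι : ∀ v w, (ι (v - w) : Ω) = ι v * (ι w : Ω)⁻¹)
    (ρ : G →* Module.End (ZMod p) M) (hρ' : ∀ (g : G) v, (ι (ρ g v) : Ω) = g * ι v * (g : Ω)⁻¹) :
    ∃ A ≤ G, A ≠ ⊥ ∧ IsElementaryAbelian p A ∧
      Nat.card V ≤ H4.meas V A ∧ ⁅⁅V, A⁆, A⁆ = ⊥ ∧
      ∀ h ∈ G, ∀ b ∈ A, ∀ a ∈ A, (h * b * h⁻¹) * a * (h * b * h⁻¹)⁻¹ ∈ A := by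
  have hs : ∀ (g : G) (v : M), (ι ((ρ g - 1) v) : Ω) = ⁅(g : Ω), (ι v : Ω)⁆ :=
    fun g v => by
      rw [LinearMap.sub_apply, hι, hρ']; rfl
  have h0 : (ι 0 : Ω) = 1 := by rw [← sub_self (0 : M), hι, mul_inv_cancel]
  have hz : ∀ (g : G) (v : M), (ρ g - 1) v = 0 ↔ g * (ι v : Ω) = ι v * g :=
    fun g v => by
      rw [← commutatorElement_eq_one_iff_mul_comm, ← hs]
      exact ⟨fun h => by rw [h, h0], fun h => ι.injective (Subtype.ext (h.trans h0.symm))⟩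
  have hz' : ∀ (g : G) (v : Ω) (hv : v ∈ V), (ρ g - 1) (ι.symm ⟨v, hv⟩) = 0 ↔ g * v = v * g :=
    fun g v hv => by rw [hz, Equiv.apply_symm_apply]
  have hinj : Function.Injective ρ := by
    rw [injective_iff_map_eq_one]
    intro g hg
    have : (g : Ω) ∈ G ⊓ centralizer (V : Set Ω) := ⟨g.2, fun v hv =>
      ((hz' g v hv).1 (by rw [hg, sub_self]; rfl)).symm⟩
    rw [hfaith] at this
    exact Subtype.ext this
  have : Finite (Module.End (ZMod p) M) := DFunLike.finite _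
  have hR : ∀ x : Module.End (ZMod p) M, p • x = 0 := fun x => by
    rw [← Nat.cast_smul_eq_nsmul (ZMod p), ZMod.natCast_self, zero_smul]
  have cnt : ∀ (U : AddSubgroup (Module.End (ZMod p) M)) (A : Subgroup Ω), A ≤ G →
      (∀ x ∈ U, ∃ g, ρ g = 1 + x) → (∀ g : G, (g : Ω) ∈ A ↔ ρ g - 1 ∈ U) →
      Nat.card A = Nat.card U ∧ Nat.card (ann U) =
        Nat.card (V ⊓ centralizer (A : Set Ω) : Subgroup Ω) ^ Module.finrank (ZMod p) M := by
    intro U A hA hx hg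
    refine ⟨Nat.card_eq_of_bijective (fun a => ⟨ρ ⟨a, hA a.2⟩ - 1, (hg _).1 a.2⟩)
      ⟨fun a b e => ?_, fun x => ?_⟩, ?_⟩
    · have := hinj (sub_left_injective (congrArg Subtype.val e))
      exact Subtype.ext (congrArg (fun g : G => (g : Ω)) this)
    · obtain ⟨g, e⟩ := hx x x.2
      have e' : ρ g - 1 = x := by rw [e, add_sub_cancel_left]
      exact ⟨⟨g, (hg g).2 (e' ▸ x.2)⟩, Subtype.ext e'⟩
    · rw [card_ann]
      congr 1
      refine Nat.card_congr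
        { toFun := fun v => ⟨ι v.1, (ι v.1).2, fun a ha =>
            (hz ⟨a, hA ha⟩ v.1).1 (v.2 _ ((hg _).1 ha))⟩
          invFun := fun v => ⟨ι.symm ⟨v.1, v.2.1⟩, fun x hx' => ?_⟩
          left_inv := fun v => Subtype.ext (ι.symm_apply_apply v.1)
          right_inv := fun v => Subtype.ext
            (congrArg (fun g : V => (g : Ω)) (ι.apply_symm_apply ⟨v.1, v.2.1⟩)) }
      obtain ⟨g, e⟩ := hx x hx'
      have e' : ρ g - 1 = x := by rw [e, add_sub_cancel_left]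
      rw [← e', hz']
      exact v.2.2 g ((hg g).2 (e' ▸ hx'))
  have sq0 : ∀ a b : G, (a : Ω) ∈ A₀ → (b : Ω) ∈ A₀ → (ρ a - 1) * (ρ b - 1) = 0 := by
    intro a b ha hb
    ext1 v
    rw [Module.End.mul_apply, LinearMap.zero_apply, hz, hs]
    have : ⁅(b : Ω), (ι v : Ω)⁆ ∈ ⁅V, A₀⁆ := by
      rw [commutator_comm]; exact commutator_mem_commutator hb (ι v).2
    exact commutator_eq_bot_iff_le_centralizer.1 h5 this a ha
  let U₀ : AddSubgroup (Module.End (ZMod p) M) :=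
    { carrier := {x | ∃ a : G, (a : Ω) ∈ A₀ ∧ ρ a - 1 = x}
      zero_mem' := ⟨1, one_mem _, by simp⟩
      add_mem' := by
        rintro _ _ ⟨a, ha, rfl⟩ ⟨b, hb, rfl⟩
        refine ⟨a * b, mul_mem ha hb, ?_⟩
        have e : ρ (a * b) - 1 = (ρ a - 1) + (ρ b - 1) + (ρ a - 1) * (ρ b - 1) := by
          rw [map_mul]; noncomm_ring
        rw [e, sq0 a b ha hb, add_zero]
      neg_mem' := by
        rintro _ ⟨a, ha, rfl⟩
        refine ⟨a⁻¹, inv_mem ha, ?_⟩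
        rw [rho_inv ρ (x := ρ a - 1) (by abel) (sq0 a a ha ha), sub_sub_cancel_left] }
  have ex0 : ∀ x ∈ U₀, ∃ g, ρ g = 1 + x := by
    rintro _ ⟨a, -, rfl⟩
    exact ⟨a, by abel⟩
  obtain ⟨c1, c2⟩ := cnt U₀ A₀ h1 ex0 fun g => ⟨fun h => ⟨g, h, rfl⟩, by
    rintro ⟨a, ha, e⟩
    rwa [← hinj (sub_left_injective e)]⟩
  obtain ⟨U, hU, hn⟩ := main hp hG hR (ρ := ρ) (U₀ := U₀) ⟨by
    rintro _ ⟨a, ha, rfl⟩ _ ⟨b, hb, rfl⟩
    exact sq0 a b ha hb, ex0, le_rfl, le_rfl⟩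
  set A := (grp ρ U hU.sq).map G.subtype with hA
  have hm : ∀ g : G, (g : Ω) ∈ A ↔ ρ g - 1 ∈ U := fun g =>
    ⟨by rintro ⟨k, hk, e⟩; rwa [← Subtype.ext e], fun h => ⟨g, h, rfl⟩⟩
  have hAG : A ≤ G := map_subtype_le _
  obtain ⟨d1, d2⟩ := cnt U A hAG hU.ex hm
  have i1 : Nat.card A₀ ≤ Nat.card A := by rw [c1, d1]; exact hU.c1
  have hq : ⁅⁅V, A⁆, A⁆ = ⊥ := by
    rw [commutator_eq_bot_iff_le_centralizer, commutator_comm, commutator_le]
    intro b hb v hv a ha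
    have := LinearMap.congr_fun (hU.sq _ ((hm ⟨a, hAG ha⟩).1 ha) _ ((hm ⟨b, hAG hb⟩).1 hb))
      (ι.symm ⟨v, hv⟩)
    rw [Module.End.mul_apply, LinearMap.zero_apply, hz, hs, Equiv.apply_symm_apply] at this
    exact this
  refine ⟨A, hAG, fun e => h2 ?_, H4.elemAb_iff.2 ⟨fun a ha b hb => ?_, fun a ha => ?_⟩,
    h4.trans (Nat.mul_le_mul i1 ?_), hq, fun h hh b hb a ha => ?_⟩
  · rw [e, card_bot] at i1
    exact eq_bot_of_card_le _ i1
  · rw [← commutatorElement_eq_one_iff_mul_comm, ← mem_bot, ← hfaith]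
    exact ⟨hAG (commutator_le_self A (commutator_mem_commutator ha hb)),
      H4.commutator_le_centralizer_of_quadratic hq (commutator_mem_commutator ha hb)⟩
  · rw [← mem_bot, ← hfaith]
    exact ⟨hAG (pow_mem ha p), H4.pow_mem_centralizer_of_quadratic hV.2 (hGV (hAG ha))
      fun v hv => H4.commute_of_quadratic hq hv ha ha⟩
  · have k := hU.c2
    rw [c2, d2] at k
    by_cases h00 : Module.finrank (ZMod p) M = 0
    · have : Subsingleton M := Module.finrank_zero_iff.1 h00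
      have e : V = ⊥ := eq_bot_iff.2 fun v hv => congrArg Subtype.val
        (ι.symm.injective (Subsingleton.elim (ι.symm (⟨v, hv⟩ : V)) (ι.symm 1)))
      simp only [e, bot_inf_eq, le_refl]
    · exact (Nat.pow_le_pow_iff_left h00).1 k
  · have := hn ⟨h, hh⟩ ⟨b, hAG hb⟩ ((hm _).1 hb) _ ((hm ⟨a, hAG ha⟩).1 ha)
    rw [map_sub, cj_rho, ← map_one ρ, cj_rho, mul_one, mul_inv_cancel, map_one] at this
    exact (hm _).2 this

theorem final' (hp : p ≠ 2) (hV : IsElementaryAbelian p V) (hG : IsPGroup p G)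
    (hGV : G ≤ normalizer (V : Set Ω)) (hfaith : G ⊓ centralizer (V : Set Ω) = ⊥)
    {E : Subgroup Ω} (h1 : E ≤ G) (h2 : E ≠ ⊥)
    (h3 : IsElementaryAbelian p E) (h4 : Nat.card V ≤ H4.meas V E) :
    ∃ A ≤ G, A ≠ ⊥ ∧ IsElementaryAbelian p A ∧
      Nat.card V ≤ H4.meas V A ∧ ⁅⁅V, A⁆, A⁆ = ⊥ ∧
      ∀ h ∈ G, ∀ b ∈ A, ∀ a ∈ A, (h * b * h⁻¹) * a * (h * b * h⁻¹)⁻¹ ∈ A := by
  obtain ⟨A₀, k1, k2, k3, k4⟩ := exists_quad hV hGV hfaith h1 h2 h3 h4
  let _ : CommGroup V := { (inferInstance : Group V) with mul_comm := hV.1.1.1 }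
  have : NeZero p := ⟨(Fact.out : p.Prime).ne_zero⟩
  let _ : Module (ZMod p) (Additive V) :=
    AddCommGroup.zmodModule fun x => Additive.toMul.injective (Subtype.ext (hV.2 _ x.toMul.2))
  obtain ⟨ρ, hρ⟩ := ex_rep (p := p) (V.normalizerMonoidHom.comp (inclusion hGV))
  exact final hp hV hG hGV hfaith k1 k2 k3 k4 (M := Additive V) Additive.toMul
    (fun v w => by rw [toMul_sub, div_eq_mul_inv]; rfl) ρ (fun g v => by rw [hρ]; rfl)

end H17.Ol
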