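import Cfsg.Agent.H17.GB4
import Cfsg.Agent.H14.Wall3

/-! The centraliser of an involution in `PGU₃(q)`, `q` even. -/

set_option autoImplicit false
set_option linter.unusedSectionVars false

open Cfsg Subgroup H16 Matrix H6

namespace H17.PG

attribute [-simp] H23.conj_apply

/-- a normal subgroup of odd index isomorphic to `U`, self-centralising, with central involutions -/
structure Gd (U : Type*) [Group U] {X : Type*} [Group X] (C Q : Subgroup X) : Prop where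
  le : Q ≤ C
  norm : C ≤ N[Q]
  iso : Nonempty (Q ≃* U)
  odd : ∀ g ∈ C, ∃ n, Odd n ∧ g ^ n ∈ Q
  cent : C ⊓ C[Q] ≤ Q
  cen : ∀ u ∈ Q, u * u = 1 → u ∈ C[C]

theorem Gd.transfer {U X Y : Type*} [Group U] [Group X] [Group Y] {C Q : Subgroup X} {C' : Subgroup Y}
    (h : Gd U C Q) (e : C' ≃* C) : ∃ Q', Gd U C' Q' := by
  let f : C →* Y := C'.subtype.comp e.symm
  have hf : Function.Injective f := C'.subtype_injective.comp e.symm.injective
  have hs : ∀ g ∈ C', ∃ c, f c = g := fun g hg => ⟨e ⟨g, hg⟩, by simp [f]⟩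
  refine ⟨(Q.subgroupOf C).map f, ?_, le_norm_iff.2 ?_, ⟨(equivMapOfInjective _ f hf).symm.trans
    ((subgroupOfEquivOfLe h.le).trans h.iso.some)⟩, fun g hg => ?_, fun g hg => ?_, ?_⟩
  · rintro _ ⟨c, -, rfl⟩
    exact (e.symm c).2
  · rintro g hg _ ⟨x, hx, rfl⟩
    obtain ⟨c, rfl⟩ := hs g hg
    exact ⟨c * x * c⁻¹, mem_subgroupOf.2 (conj_mem (h.norm c.2) (mem_subgroupOf.1 hx)), by simp⟩
  · obtain ⟨c, rfl⟩ := hs g hg
    obtain ⟨n, h1, h2⟩ := h.odd c c.2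
    exact ⟨n, h1, c ^ n, h2, map_pow _ _ _⟩
  · obtain ⟨c, rfl⟩ := hs g hg.1
    refine ⟨c, h.cent ⟨c.2, mem_cent.2 fun x hx => ?_⟩, rfl⟩
    have := mem_cent.1 hg.2 (f ⟨x, h.le hx⟩) ⟨_, hx, rfl⟩
    rw [← map_mul, ← map_mul] at this
    exact congrArg Subtype.val (hf this)
  · rintro _ ⟨x, hx, rfl⟩ e1
    rw [← map_mul, ← map_one f] at e1
    refine mem_cent.2 fun g hg => ?_
    obtain ⟨c, rfl⟩ := hs g hg
    rw [← map_mul, ← map_mul]
    exact congrArg f (Subtype.ext (mem_cent.1 (h.cen x hx (congrArg Subtype.val (hf e1))) c c.2))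

variable {E : Type*} [Field E] [Fintype E] [CharP E 2] {q : ℕ} {hE : Fintype.card E = q ^ 2} {α β : E}

/-- the inclusion -/
def sG : SU 3 E q →* GU 3 E q := ((SpecialLinearGroup.toGL).comp (SU 3 E q).subtype).codRestrict _ fun g => g.2

/-- the diagonal elements -/
def dg (hβ : H23.conj hE β * β = 1) : GU 3 E q :=
  ⟨GeneralLinearGroup.mkOfDetNeZero !![1, 0, 0; 0, 1, 0; 0, 0, β] (by
    simpa [det_fin_three] using right_ne_zero_of_mul_eq_one hβ), (H13.mem_GU_iff_mat hE).2 (by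
    ext i j
    fin_cases i <;> fin_cases j <;> simp [Matrix.mul_apply, Fin.sum_univ_three, mul_comm β, hβ])⟩

/-- the action of the diagonal elements -/
def sc (hβ : H23.conj hE β * β = 1) (x : UG hE) : UG hE := ⟨β * x.a, x.s, by
  rw [x.tr, map_mul]; linear_combination (-H23.conj hE x.a * x.a) * hβ⟩

theorem dg_pv (hβ : H23.conj hE β * β = 1) (o : Option (UG hE)) :
    (dg hβ).1.1 *ᵥ pv α o = pv α (o.map (sc hβ)) := by
  cases o <;> ext i <;> fin_cases i <;> simp [dg, sc, pv, mulVec, dotProduct, Fin.sum_univ_three]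

theorem dg_mul (hβ : H23.conj hE β * β = 1) (x : UG hE) : dg hβ * sG (UG.toSU x) = sG (UG.toSU (sc hβ x)) * dg hβ := by
  refine Subtype.ext (Units.ext ?_)
  change (dg hβ).1.1 * x.mat = (sc hβ x).mat * (dg hβ).1.1
  ext i j
  fin_cases i <;> fin_cases j <;> simp [dg, sc, UG.mat, Matrix.mul_apply, Fin.sum_univ_three] <;>
    linear_combination (-H23.conj hE x.a) * hβ

theorem dg_pow (hβ : H23.conj hE β * β = 1) : dg hβ ^ (q + 1) = 1 := by
  refine Subtype.ext (Units.ext ?_)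
  have : (dg hβ).1.1 = diagonal ![1, 1, β] := by
    ext i j; fin_cases i <;> fin_cases j <;> simp [dg]
  change (dg hβ).1.1 ^ (q + 1) = 1
  rw [this, diagonal_pow, ← diagonal_one]
  congr 1
  ext i; fin_cases i <;> simp [pow_succ, ← H23.conj_apply hE, hβ]

theorem exists_al (hE : Fintype.card E = q ^ 2) : ∃ α : E, H23.conj hE α = α + 1 := by
  have := H23.card_trace_eq hE (μ := 1) (one_pow q)
  obtain ⟨α, e⟩ := (Nat.card_ne_zero.1 (this ▸ (H23.two_le_of_card_eq_sq hE).trans_lt' two_pos |>.ne')).1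
  exact ⟨α, by rw [H23.conj_apply, ← e, ← add_assoc, CharTwo.add_self_eq_zero, zero_add]⟩

/-- the central involution -/
def z1 (hE : Fintype.card E = q ^ 2) : UG hE := ⟨0, 1, by simp [CharTwo.add_self_eq_zero]⟩

variable (hα : H23.conj hE α = α + 1)
include hα

/-- an element with non-zero image -/
def x1 : UG hE := ⟨1, α, by rw [hα, ← add_assoc, CharTwo.add_self_eq_zero]; simp⟩

theorem scal_of_fix {A : Matrix (Fin 3) (Fin 3) E} (h : ∀ o : Option (UG hE), ∃ l : E, A *ᵥ pv α o = l • pv α o) :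
    ∃ c : E, A = c • 1 := by
  have t0 : (2 : E) = 0 := CharTwo.two_eq_zero
  obtain ⟨l1, e1⟩ := h none
  obtain ⟨l2, e2⟩ := h (some 1)
  obtain ⟨l3, e3⟩ := h (some (z1 hE))
  obtain ⟨l4, e4⟩ := h (some (x1 hα))
  obtain ⟨l5, e5⟩ := h (some (x1 hα * z1 hE))
  refine ⟨l1, ?_⟩
  simp only [funext_iff, Fin.forall_fin_succ, mulVec, dotProduct, Fin.sum_univ_three, pv, z1, x1] at e1 e2 e3 e4 e5
  simp at e1 e2 e3 e4 e5
  ext i j
  fin_cases i <;> fin_cases j <;> simp <;> grind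

omit hα

theorem cent_form {A : GU 3 E q} (h : A * sG (UG.toSU (z1 hE)) = sG (UG.toSU (z1 hE)) * A) :
    ∃ (x : UG hE) (β : E) (hβ : H23.conj hE β * β = 1) (c : E), A.1.1 = c • (sG (UG.toSU x) * dg hβ).1.1 := by
  have t0 : (2 : E) = 0 := CharTwo.two_eq_zero
  have h1 : A.1.1 * (z1 hE).mat = (z1 hE).mat * A.1.1 := congrArg (·.1.1) h
  have h2 := (H13.mem_GU_iff_mat hE).1 A.2
  generalize A.1.1 = M at h1 h2
  simp only [← ext_iff, Fin.forall_fin_succ, Matrix.mul_apply, Fin.sum_univ_three] at h1 h2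
  simp [z1, UG.mat, CharTwo.add_self_eq_zero] at h1 h2
  obtain ⟨⟨a1, -, a2⟩, ⟨a3, -, -⟩, a4, -⟩ := h1
  rw [← a1, ← a2, ← a3, a4] at h2
  refine ⟨⟨M 2 0 * H23.conj hE (M 0 0 + M 0 1), M 0 1 * H23.conj hE (M 0 0 + M 0 1), by
    simp only [map_mul, map_add, H23.conj_conj]; grind⟩, M 2 2 * H23.conj hE (M 0 0 + M 0 1), by
    simp only [map_mul, map_add, H23.conj_conj]; grind, M 0 0 + M 0 1, ?_⟩
  change M = _ • (UG.mat _ * !![1, 0, 0; 0, 1, 0; 0, 0, _])
  ext i j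
  fin_cases i <;> fin_cases j <;> simp [UG.mat, H23.conj_conj] <;> grind

/-- the projection -/
abbrev pr (E : Type*) [Field E] (q : ℕ) : GU 3 E q →* GU 3 E q ⧸ center (GU 3 E q) := QuotientGroup.mk' _

theorem pr_eq (hE : Fintype.card E = q ^ 2) {A B : GU 3 E q} : pr E q A = pr E q B ↔ ∃ c : E, B.1.1 = c • A.1.1 := by
  refine QuotientGroup.eq.trans ((H14.Wall.mem_center_GU_iff hE _).trans (exists_congr fun c => ?_))
  change A.1⁻¹.1 * B.1.1 = _ ↔ _
  rw [Units.inv_mul_eq_iff_eq_mul, Matrix.mul_smul, mul_one]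

/-- the embedding of the unipotent group -/
def uP (hE : Fintype.card E = q ^ 2) : UG hE →* GU 3 E q ⧸ center (GU 3 E q) := (pr E q).comp (sG.comp UG.toSU)

theorem uP_inj : Function.Injective (uP hE) := fun x y e => by
  obtain ⟨c, e1⟩ := (pr_eq hE).1 e
  change y.mat = c • x.mat at e1
  have h1 := congrFun (congrFun e1 2) 2
  simp [UG.mat] at h1
  rw [← h1, one_smul] at e1
  exact UG.ext (congrFun (congrFun e1 2) 0).symm (congrFun (congrFun e1 0) 1).symm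

theorem z1_ord : orderOf (uP hE (z1 hE)) = 2 := by
  rw [orderOf_injective _ uP_inj]
  exact orderOf_eq_prime (pow_two (z1 hE) ▸ UG.mul_self_eq_one.2 rfl) fun e => one_ne_zero (congrArg UG.s e)

theorem cent_uP {g : GU 3 E q ⧸ center (GU 3 E q)} (hg : g ∈ C1[uP hE (z1 hE)]) :
    ∃ (x : UG hE) (β : E) (hβ : H23.conj hE β * β = 1), g = uP hE x * pr E q (dg hβ) := by
  obtain ⟨A, rfl⟩ := QuotientGroup.mk'_surjective _ g
  have h1 : pr E q (sG (UG.toSU (z1 hE))) = pr E q (A * sG (UG.toSU (z1 hE)) * A⁻¹) := by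
    rw [map_mul, map_mul, map_inv, eq_mul_inv_iff_mul_eq]; exact (mem_cent1.1 hg).symm
  obtain ⟨c, e⟩ := (pr_eq hE).1 h1
  have h2 : sG (UG.toSU (z1 hE)) * sG (UG.toSU (z1 hE)) = 1 := by
    rw [← map_mul, ← map_mul, UG.mul_self_eq_one.2 rfl, map_one, map_one]
  have h3 : (A * sG (UG.toSU (z1 hE)) * A⁻¹).1.1 * (A * sG (UG.toSU (z1 hE)) * A⁻¹).1.1 = 1 :=
    congrArg (·.1.1) (show A * sG (UG.toSU (z1 hE)) * A⁻¹ * (A * sG (UG.toSU (z1 hE)) * A⁻¹) = 1 by
      rw [conj_mul, h2]; simp)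
  have h4 : (sG (UG.toSU (z1 hE))).1.1 * (sG (UG.toSU (z1 hE))).1.1 = 1 := congrArg (·.1.1) h2
  rw [e, smul_mul_smul_comm, h4] at h3
  have h5 := congrFun (congrFun h3 0) 0
  simp [mul_self_eq_one_iff, CharTwo.neg_eq] at h5
  rw [h5, one_smul] at e
  obtain ⟨x, β, hβ, c, e1⟩ := cent_form (mul_inv_eq_iff_eq_mul.1 (Subtype.ext (Units.ext e)))
  exact ⟨x, β, hβ, ((pr_eq hE).2 ⟨c, e1⟩).symm.trans (map_mul _ _ _)⟩

theorem dg_uP (hβ : H23.conj hE β * β = 1) (x : UG hE) : pr E q (dg hβ) * uP hE x = uP hE (sc hβ x) * pr E q (dg hβ) :=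
  (map_mul _ _ _).symm.trans ((congrArg _ (dg_mul hβ x)).trans (map_mul _ _ _))

theorem comm0 {u : UG hE} (hu : u.a = 0) (x : UG hE) : x * u = u * x := by
  ext <;> simp [hu, add_comm]

theorem even_q (hE : Fintype.card E = q ^ 2) : Even q := by
  obtain ⟨n, -, e⟩ := FiniteField.card E 2
  exact (Nat.even_pow' two_ne_zero).1 (hE ▸ e ▸ (Nat.even_pow' n.ne_zero).2 even_two)

theorem gd : Gd (UG hE) C1[uP hE (z1 hE)] (uP hE).range := by
  obtain ⟨α, hα⟩ := exists_al hE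
  have k1 : ∀ {β} (hβ : H23.conj hE β * β = 1), pr E q (dg hβ) ∈ N[(uP hE).range] := fun hβ =>
    mem_norm_of_cj_le (cj_le_forall.2 (by
      rintro _ ⟨x, rfl⟩
      exact ⟨sc hβ x, by rw [dg_uP, mul_inv_cancel_right]⟩))
  have k2 : C1[uP hE (z1 hE)] ≤ N[(uP hE).range] := fun g hg => by
    obtain ⟨x, β, hβ, rfl⟩ := cent_uP hg
    exact mul_mem (le_norm _ ⟨x, rfl⟩) (k1 hβ)
  refine ⟨?_, k2, ⟨(MonoidHom.ofInjective uP_inj).symm⟩, fun g hg => ⟨q + 1, (even_q hE).add_one, ?_⟩, fun g hg => ?_, ?_⟩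
  · rintro _ ⟨x, rfl⟩
    exact mem_cent1.2 (by rw [← map_mul, ← map_mul, comm0 (u := z1 hE) rfl])
  · obtain ⟨x, β, hβ, rfl⟩ := cent_uP hg
    have : ∀ n, (uP hE x * pr E q (dg hβ)) ^ n * (pr E q (dg hβ) ^ n)⁻¹ ∈ (uP hE).range := fun n => by
      induction n with
      | zero => simp
      | succ n ih =>
        have := mul_mem ih (conj_mem (pow_mem (k1 hβ) n) ⟨x, rfl⟩)
        convert this using 1
        rw [pow_succ, pow_succ]; group
    have := this (q + 1)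
    rwa [← map_pow, dg_pow, map_one, inv_one, mul_one] at this
  · obtain ⟨x, β, hβ, rfl⟩ := cent_uP hg.1
    have e := mem_cent.1 hg.2 _ ⟨x1 hα, rfl⟩
    rw [mul_assoc, dg_uP, ← mul_assoc, ← mul_assoc, mul_left_inj, ← map_mul, ← map_mul] at e
    have e1 := congrArg UG.a (uP_inj e)
    simp [x1, sc, add_comm x.a] at e1
    subst e1
    rw [show dg hβ = 1 from Subtype.ext (Units.ext (by ext i j; fin_cases i <;> fin_cases j <;> simp [dg]))]
    simp
  · rintro _ ⟨u, rfl⟩ e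
    rw [← map_mul, ← map_one (uP hE)] at e
    have hu := UG.mul_self_eq_one.1 (uP_inj e)
    refine mem_cent.2 fun g hg => ?_
    obtain ⟨x, β, hβ, rfl⟩ := cent_uP hg
    rw [mul_assoc, dg_uP, show sc hβ u = u from UG.ext (by simp [sc, hu]) rfl, ← mul_assoc, ← mul_assoc, ← map_mul,
      ← map_mul, comm0 hu]

end H17.PG
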