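import Cfsg.Agent.H17.PG1

/-! Recognition of `PGU₃(q)`, `q` even. -/

set_option autoImplicit false
set_option linter.unusedSectionVars false

open Cfsg MulAction Subgroup H16 H26 Matrix H6

namespace H17.PG

attribute [-simp] H23.conj_apply

variable {G Ω : Type*} [Group G] [Finite G] [MulAction G Ω] {a : Ω} {t : G} {Q : Subgroup G} {s r ζ : G}

theorem exists_iso (h : U3 G Ω a t Q s ζ) {F : Type*} [Field F] [Fintype F] [CharP F 2]
    (hF : Fintype.card F = Nat.card (Q0 Q) ^ 2) : ∃ φ : Q ≃* UG hF, (∀ x y : Q, x ≠ 1 →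
      t • (x : G) • t • a = (y : G) • t • a → (φ y).a = (φ x).a / (φ x).s ∧ (φ y).s = (φ x).s⁻¹) ∧
      ∀ w ∈ WW a t Q, ∃ β, H23.conj hF β * β = 1 ∧ ∀ x y : Q, (y : G) = w⁻¹ * x * w → (φ y).a = β * (φ x).a := by
  obtain ⟨E, _, _, π, χ, z, ω, y, c, h4⟩ := h.exists_uf
  have h3 := h4.toUO
  have h1 := h3.toUC
  have t0 : (2 : F) = 0 := CharTwo.two_eq_zero
  let j : E ≃+* F := FiniteField.ringEquivOfCardEq (h1.cardE.trans hF.symm)
  have hi := congrArg j (mul_inv_cancel₀ h1.z_ne)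
  rw [map_mul, map_one] at hi
  have hb : ∀ e, H23.conj hF (j e) = j (h1.bar e) := fun e => (map_pow j e _).symm
  let φ : Q →* UG hF := MonoidHom.mk' (fun x => ⟨j ((z + 1) * π x), j (c x), by
    rw [hb, hb, ← map_add, h4.c_tr x.2]
    simp only [map_mul, map_add, map_one, h1.bar_z]; grind⟩) fun x y => UG.ext
      (by simp only [UG.mul_a, coe_mul, h1.add _ x.2 _ y.2, mul_add, map_add]) (by
      simp only [UG.mul_s, coe_mul, h4.c_mul x.2 y.2, hb]
      simp only [map_mul, map_add, map_one, h1.bar_z]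
      grind)
  refine ⟨MulEquiv.ofBijective φ ((Nat.bijective_iff_injective_and_card φ).2
    ⟨fun x y e => Subtype.ext (h4.ext x.2 y.2 (mul_left_cancel₀ h3.z_add_one (j.injective (congrArg UG.a e)))
      (j.injective (congrArg UG.s e))), by rw [UG.card, h.card]⟩), fun x y hx e => ?_, fun w hw => ?_⟩
  · have hx1 : (x : G) ≠ 1 := fun e => hx (Subtype.ext e)
    have hx2 := inv_ne_one.2 hx1
    have h5 := t_pt h.r1 (inv_mem x.2) hx2
    have hf := ff_mem h.r1 (inv_mem x.2) hx2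
    rw [inv_inv, e] at h5
    obtain ⟨e1, e2⟩ := h4.P_all (inv_mem x.2) hx2
    change j ((z + 1) * π y) = j ((z + 1) * π x) / j (c x) ∧ j (c y) = (j (c x))⁻¹
    rw [h.r1.eq_of_smul_eq y.2 (inv_mem hf) h.r1.b_ne h5, h1.inv hf, h4.c_inv hf, e1, e2, h4.c_inv x.2,
      h1.inv x.2, map_inv₀, h1.bar_bar, ← map_div₀, mul_div_assoc, map_inv₀]
    exact ⟨rfl, rfl⟩
  · obtain ⟨β, e1, e2⟩ := h4.W_scalar hw
    refine ⟨j β, by rw [hb, ← map_mul, e1, map_one], fun x y e => ?_⟩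
    change j ((z + 1) * π y) = j β * j ((z + 1) * π x)
    rw [e, e2 x x.2, ← map_mul, mul_left_comm]

theorem exists_hom [FaithfulSMul G Ω] (h : SR G Ω a t Q s r) {E : Type*} [Field E] [Fintype E] [CharP E 2]
    {q : ℕ} {hE : Fintype.card E = q ^ 2} (hq : q ≠ 2) (φ : Q ≃* UG hE) (hφ : ∀ x y : Q, x ≠ 1 →
      t • (x : G) • t • a = (y : G) • t • a → (φ y).a = (φ x).a / (φ x).s ∧ (φ y).s = (φ x).s⁻¹)
    (hW : ∀ w ∈ WW a t Q, ∃ β, H23.conj hE β * β = 1 ∧ ∀ x y : Q, (y : G) = w⁻¹ * x * w → (φ y).a = β * (φ x).a)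
    (hV : VV a t ≤ WW a t Q) : ∃ ψ : G →* GU 3 E q ⧸ center (GU 3 E q), Function.Injective ψ ∧
      (∀ A : SU 3 E q, pr E q (sG A) ∈ ψ.range) ∧ ∀ x : Q, ψ x = uP hE (φ x) := by
  obtain ⟨α, hα⟩ := exists_al hE
  let vec : Option Q → Fin 3 → E := fun o => pv α (o.map φ)
  have hinj : ∀ {o o' : Option Q} {l : E}, vec o = l • vec o' → o = o' := fun e =>
    Option.map_injective φ.injective (pv_inj e)
  let R : GU 3 E q → G → Prop := fun A g => ∀ o o', g • h.r1.ptEquiv o = h.r1.ptEquiv o' →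
    ∃ l : E, l ≠ 0 ∧ A.1.1 *ᵥ vec o = l • vec o'
  have hmul : ∀ A B g g', R A g → R B g' → R (A * B) (g * g') := fun A B g g' h1 h2 o o' e => by
    obtain ⟨o1, e1⟩ := h.r1.ptEquiv.surjective (g' • h.r1.ptEquiv o)
    obtain ⟨l, hl, e2⟩ := h2 o o1 e1.symm
    obtain ⟨l', hl', e3⟩ := h1 o1 o' (by rw [e1, ← mul_smul, e])
    refine ⟨l * l', mul_ne_zero hl hl', ?_⟩
    change (A.1.1 * B.1.1) *ᵥ _ = _
    rw [← mulVec_mulVec, e2, mulVec_smul, e3, smul_smul]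
  have hinv : ∀ A g, R A g → R A⁻¹ g⁻¹ := fun A g h1 o o' e => by
    obtain ⟨l, hl, e2⟩ := h1 o' o (by rw [← e, smul_inv_smul])
    refine ⟨l⁻¹, inv_ne_zero hl, ?_⟩
    rw [eq_inv_smul_iff₀ hl, ← mulVec_smul, ← e2, mulVec_mulVec]
    change (A⁻¹ * A).1.1 *ᵥ _ = _
    simp
  have huniq : ∀ A B g, R A g → R B g → pr E q A = pr E q B := fun A B g h1 h2 => by
    refine QuotientGroup.eq.2 ((H14.Wall.mem_center_GU_iff hE _).2 (scal_of_fix hα fun o => ?_))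
    obtain ⟨l, -, e⟩ := hmul _ _ _ _ (hinv _ _ h1) h2 (o.map φ.symm) (o.map φ.symm) (by simp)
    exact ⟨l, by simpa [vec] using e⟩
  have hu : ∀ x : Q, R (sG (UG.toSU (φ x))) x := fun x o o' e => ⟨1, one_ne_zero, by
    obtain rfl : o.map (x * ·) = o' := h.r1.ptEquiv.injective (by
      rw [← e]
      cases o
      · exact (h.r1.fix x.2).symm
      · exact mul_smul _ _ _)
    rw [one_smul]
    refine (mat_pv _ _).trans ?_
    cases o <;> simp [vec]⟩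
  have h0 : ∀ x, x ≠ 1 → (φ x).s ≠ 0 := fun x hx e => hx (φ.injective (by
    have := (φ x).tr
    rw [e, map_zero, add_zero] at this
    rw [map_one]
    exact UG.ext (by simpa using this) e))
  have ht : R (sG (tS hα)) t := by
    rintro (_ | x) o' e
    · obtain rfl : some 1 = o' := h.r1.ptEquiv.injective (by rw [← e]; exact one_smul _ _)
      exact ⟨1, one_ne_zero, (tS_none hα).trans (by simp [vec])⟩
    by_cases hx : x = 1
    · subst hx
      obtain rfl : none = o' := h.r1.ptEquiv.injective (by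
        rw [← e]; exact (h.r1.t_smul_smul a).symm.trans (congrArg _ (one_smul _ _).symm))
      exact ⟨1, one_ne_zero, by simpa [vec] using (show (sG (tS hα)).1.1 *ᵥ _ = _ from tS_one hα)⟩
    cases o' with
    | none =>
      exact absurd (h.r1.eq_one_of_fix_b x.2 (smul_left_cancel t (Eq.trans e (h.r1.t_smul_smul a).symm)))
        fun e => hx (Subtype.ext e)
    | some y => exact ⟨_, h0 x hx, tS_some hα (h0 x hx) (hφ x y hx e).1 (hφ x y hx e).2⟩
  have hw : ∀ w ∈ WW a t Q, ∃ A, R A w := fun w hw => by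
    obtain ⟨β, e1, e2⟩ := hW w⁻¹ (inv_mem hw)
    have hD := W_le hw
    have ht := (mem_V.1 (h.W_le_V hw)).2
    let cw : Q → Q := fun x => ⟨w * x * w⁻¹, h.r1.conj hD.1 x.2⟩
    have e3 : ∀ x : Q, w • (x : G) • t • a = (cw x : G) • t • a := fun x => by
      rw [mul_smul, mul_smul, D_fix' (inv_mem hD)]
    have e4 : ∀ x, (φ (cw x)).a = β * (φ x).a := fun x => e2 x _ (by rw [inv_inv])
    have e5 : ∀ x, φ (cw x) = sc e1 (φ x) := fun x => by
      refine UG.ext (e4 x) ?_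
      by_cases e : (φ x).a = 0
      · have : x * x = 1 := φ.injective (by rw [map_mul, map_one, UG.mul_self_eq_one.2 e])
        rw [show cw x = x from Subtype.ext (mul_inv_eq_iff_eq_mul.2
          ((mem_W.1 hw).2 x (mem_Q0' x.2 (congrArg Subtype.val this))).symm)]
        rfl
      have hx : x ≠ 1 := by rintro rfl; simp at e
      have hx' : cw x ≠ 1 := fun e => hx (Subtype.ext (H16.conj_eq_one_iff.1 (congrArg Subtype.val e)))
      obtain ⟨y, hy, e6⟩ := h.r1.exists_smul_b (c := t • (x : G) • t • a) fun e => hx (Subtype.ext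
        (h.r1.eq_one_of_fix_b x.2 (smul_left_cancel t (e.trans (h.r1.t_smul_smul a).symm))))
      have e7 := (hφ (cw x) (cw ⟨y, hy⟩) hx' (by rw [← e3, ← e3, e6, ← mul_smul, ← ht, mul_smul])).1
      rw [e4, e4, (hφ x ⟨y, hy⟩ hx e6.symm).1, mul_div_assoc] at e7
      exact ((div_eq_div_iff (h0 x hx) (h0 _ hx')).1 (mul_left_cancel₀ (right_ne_zero_of_mul_eq_one e1) e7) |>
        mul_left_cancel₀ e)
    refine ⟨dg e1, fun o o' e => ⟨1, one_ne_zero, ?_⟩⟩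
    obtain rfl : o.map cw = o' := h.r1.ptEquiv.injective (by
      rw [← e]
      cases o
      · exact hD.1.symm
      · exact (e3 _).symm)
    rw [one_smul]
    refine (dg_pv _ _).trans ?_
    cases o <;> simp [vec, e5]
  have hone : R 1 1 := fun o o' e =>
    ⟨1, one_ne_zero, by rw [h.r1.ptEquiv.injective ((one_smul _ _).symm.trans e)]; simp⟩
  let M : Subgroup G := ⟨⟨⟨{g | ∃ A, R A g}, fun h1 h2 => ⟨_, hmul _ _ _ _ h1.choose_spec h2.choose_spec⟩⟩, 1, hone⟩,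
    fun h1 => ⟨_, hinv _ _ h1.choose_spec⟩⟩
  have hQ : Q ≤ M := fun x hx => ⟨_, hu ⟨x, hx⟩⟩
  have hD : DD a t ≤ M := h.K_sup_V.ge.trans (sup_le ((le_LL' _ _).trans (h.LL_le hQ ⟨_, ht⟩)) (hV.trans hw))
  have hex : ∀ g, ∃ A, R A g := fun g => show g ∈ M by
    by_cases e : g • a = a
    · obtain ⟨x, hx, d, hd, rfl⟩ := h.r1.exists_QD e
      exact mul_mem (hQ hx) (hD hd)
    · obtain ⟨x, hx, d, hd, y, hy, rfl⟩ := h.r1.exists_canon3 e
      exact mul_mem (mul_mem (mul_mem (hQ hx) (hD hd)) ⟨_, ht⟩) (hQ hy)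
  choose θ hθ using hex
  let ψ : G →* GU 3 E q ⧸ center (GU 3 E q) := MonoidHom.mk' (fun g => pr E q (θ g)) fun g g' =>
    (huniq _ _ _ (hθ _) (hmul _ _ _ _ (hθ g) (hθ g'))).trans (map_mul _ _ _)
  have h1 : ∀ x : Q, ψ x = uP hE (φ x) := fun x => huniq _ _ _ (hθ _) (hu x)
  refine ⟨ψ, (injective_iff_map_eq_one ψ).2 fun g e => eq_of_smul_eq_smul (α := Ω) fun c => ?_, fun A => ?_, h1⟩
  · obtain ⟨o, rfl⟩ := h.r1.ptEquiv.surjective c
    obtain ⟨o1, e1⟩ := h.r1.ptEquiv.surjective (g • h.r1.ptEquiv o)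
    obtain ⟨l, hl, e2⟩ := hθ g o o1 e1.symm
    obtain ⟨c, e3⟩ := (H14.Wall.mem_center_GU_iff hE _).1 ((QuotientGroup.eq_one_iff _).1 e)
    rw [e3, smul_mulVec, one_mulVec] at e2
    rw [← e1, one_smul, hinj (o := o1) (o' := o) (l := l⁻¹ * c) (by rw [mul_smul, e2, inv_smul_smul₀ hl])]
  · refine (closure_le (ψ.range.comap ((pr E q).comp sG))).2 ?_ (closure_SU hα hq ▸ mem_top A)
    rintro _ (⟨x, rfl⟩ | rfl)
    · exact ⟨φ.symm x, by rw [h1, MulEquiv.apply_symm_apply]; rfl⟩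
    · exact ⟨t, huniq _ _ _ (hθ _) ht⟩

theorem Gd.le_of_pg {U : Type*} [Group U] {C P : Subgroup G} (h : Gd U C Q) (hP : IsPGroup 2 P) (h1 : P ≤ C) : P ≤ Q :=
  fun g hg => by
    obtain ⟨n, h2, h3⟩ := h.odd g (h1 hg)
    obtain ⟨k, e⟩ := hP ⟨g, hg⟩
    have e' : g ^ 2 ^ k = 1 := congrArg Subtype.val e
    obtain ⟨m, hm⟩ := exists_pow_eq_self_of_coprime (x := g) (n := n)
      ((Nat.coprime_two_right.2 h2).pow_right k |>.coprime_dvd_right (orderOf_dvd_of_pow_eq_one e'))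
    exact hm ▸ pow_mem h3 m

theorem pgu_of {F : Type*} [Field F] [Fintype F] [CharP F 2] {q : ℕ} (hq : 2 < q) (hF : Fintype.card F = q ^ 2)
    (heven : Even (Nat.card G)) (hconj : ∀ s t : G, orderOf s = 2 → orderOf t = 2 → IsConj s t)
    (hC : ∀ (x : G) (y : GU 3 F q ⧸ center (GU 3 F q)), orderOf x = 2 → orderOf y = 2 → Nonempty (C1[x] ≃* C1[y]))
    (hS : ∀ P : Sylow 2 G, ¬ (P : Subgroup G).Normal) : Nonempty (G ≃* GU 3 F q ⧸ center (GU 3 F q)) := by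
  have hg : ∀ x : G, orderOf x = 2 → ∃ Q, Gd (UG hF) C1[x] Q := fun x hx => gd.transfer (hC x _ hx z1_ord).some
  have o2 : ∀ {x : G}, x * x = 1 → x ≠ 1 → orderOf x = 2 := fun h1 h2 => orderOf_eq_prime (by rwa [pow_two]) h2
  have s2 : ∀ {x : G}, orderOf x = 2 → x * x = 1 := fun h => by rw [← pow_two, ← h, pow_orderOf_eq_one]
  have pU : IsPGroup 2 (UG hF) := by
    obtain ⟨n, -, e⟩ := FiniteField.card F 2
    obtain ⟨k, -, e1⟩ := (Nat.dvd_prime_pow Nat.prime_two).1 (e ▸ hF ▸ dvd_pow_self q two_ne_zero)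
    exact IsPGroup.of_card (n := k * 3) (by rw [UG.card, e1, pow_mul])
  have key : ∀ S : Subgroup G, Sy[2] S ⊤ → ∀ z ∈ S, orderOf z = 2 → Gd (UG hF) C1[z] S := fun S hS => by
    have k : ∀ z, orderOf z = 2 → S ≤ C1[z] → Gd (UG hF) C1[z] S := fun z hz h1 => by
      obtain ⟨Q, h⟩ := hg z hz
      rwa [hl_max hS le_top (pg_iff.2 (pU.of_equiv h.iso.some.symm)) (h.le_of_pg (sy_pg hS) h1)] at h
    obtain ⟨x, hx, x2⟩ := exists_orderOf Nat.prime_two (((sy_pg hS).to_le inf_le_left).card_eq_or_dvd.resolve_left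
      fun e => nil_inf_cent_ne_bot (sy_nil hS) le_rfl (le_norm S)
        (sy_ne_bot hS Nat.prime_two (by simpa using heven.two_dvd)) (card_eq_one.1 e))
    have k1 := k x x2 (le_cent1.2 hx.2)
    exact fun z hz z2 => k z z2 (k1.le.trans (le_cent1.2 (k1.cen z hz (s2 z2))))
  obtain ⟨S, h1⟩ := sy_exists 2 (⊤ : Subgroup G)
  obtain ⟨x, hx, x2⟩ := exists_orderOf Nat.prime_two (dvd_hl h1 Nat.prime_two rfl (by simpa using heven.two_dvd))
  have k2 : ∀ z ∈ N[S], orderOf z = 2 → z ∈ S := fun z hz z2 => zpowers_le.1 (le_hl_of_norm' h1 le_top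
    (zpowers_le.2 hz) (pg_iff.2 (IsPGroup.of_card (n := 1) (by rw [card_zpowers, z2]; rfl))))
  have k3 : IsStronglyEmbedded N[S] := by
    refine ⟨fun e => ?_, (even_iff_two_dvd.2 (x2 ▸ orderOf_dvd_card (le_norm S hx))), fun g hg =>
      Nat.not_even_iff_odd.1 fun e => hg ?_⟩
    · obtain ⟨P, rfl⟩ := sylow_of_sy_top h1
      exact hS P (normalizer_eq_top_iff.1 e)
    obtain ⟨z, hz, z2⟩ := exists_orderOf Nat.prime_two e.two_dvd
    have e1 : z ∈ S :^ g := mem_cj.2 (k2 _ (mem_cj.1 hz.2) (by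
      rw [← z2, ← orderOf_cj z g⁻¹, inv_inv]))
    exact mem_norm_of_cj_le ((key S h1 z (k2 z hz.1 z2) z2).le_of_pg (sy_pg (hl_cj_top h1 g))
      (key _ (hl_cj_top h1 g) z e1 z2).le)
  have cQ : ∀ {C Q : Subgroup G}, Gd (UG hF) C Q → Nat.card (Q0 Q) = q := fun {C Q} h => by
    obtain ⟨e⟩ := h.iso
    have m : ∀ x, x ∈ Q0 Q ↔ x ∈ Q ∧ x * x = 1 := fun x =>
      mem_Q0_of_cen fun s hs e x hx => (mem_cent.1 (h.cen s hs e) x (h.le hx)).symm
    rw [← H23.card_trace_eq hF (μ := 0) (zero_pow (by omega))]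
    refine Nat.card_congr ⟨fun x => ⟨(e ⟨x, Q0_le x.2⟩).s, ?_⟩, fun s => ⟨e.symm ⟨0, s, s.2.trans (mul_zero _).symm⟩,
      (m _).2 ⟨(e.symm _).2, ?_⟩⟩, fun x => Subtype.ext ?_, fun s => by simp⟩
    · have := (e ⟨x, Q0_le x.2⟩).tr
      rwa [UG.mul_self_eq_one.1 (by rw [← map_mul, ← map_one e]; exact congrArg e (Subtype.ext ((m _).1 x.2).2)),
        mul_zero] at this
    · rw [← coe_mul, ← map_mul, UG.mul_self_eq_one.2 rfl, map_one, coe_one]
    · change ((e.symm _ : Q) : G) = (⟨x, Q0_le x.2⟩ : Q)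
      rw [Subtype.coe_inj, MulEquiv.symm_apply_eq]
      exact UG.ext (UG.mul_self_eq_one.1 (by
        rw [← map_mul, ← map_one e]; exact congrArg e (Subtype.ext ((m _).1 x.2).2))).symm rfl
  have hx' := key S h1 x hx x2
  have m : ∀ y, y ∈ Q0 S ↔ y ∈ S ∧ y * y = 1 := fun y =>
    mem_Q0_of_cen fun s hs e y hy => (mem_cent.1 (hx'.cen s hs e) y (hx'.le hy)).symm
  have c0 : IsMulCommutative (Q0 S) := comm_iff.2 fun y hy =>
    cent_anti (Q0_le.trans hx'.le) (hx'.cen y ((m y).1 hy).1 ((m y).1 hy).2)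
  have nc : ¬ IsCyclic (Q0 S) := fun e => by
    obtain ⟨a, ha⟩ := exists_gen e
    have := Nat.le_of_dvd two_pos (orderOf_dvd_of_pow_eq_one (pow_two a ▸ ((m a).1 (ha ▸ mem_zpowers a)).2))
    rw [← card_zpowers, ha, cQ hx'] at this
    omega
  have k4 : H15.Bd.Four (⊤ : Subgroup G) := by
    obtain ⟨y, hy, e⟩ := SetLike.not_le_iff_exists.1 fun e : Q0 S ≤ zpowers x => nc (cyclic_of_le (cyclic_zpowers x) e)
    exact ⟨x, trivial, y, trivial, x2, o2 ((m y).1 hy).2 (by rintro rfl; exact e (one_mem _)),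
      by rintro rfl; exact e (mem_zpowers _), (mem_cent1.1 (hx'.le (Q0_le hy))).symm⟩
  have k5 : pPrimeCore 2 G = ⊥ := by
    have n : ∀ X : Subgroup G, X ≤ N[pPrimeCore 2 G] := fun X => le_normalizer_of_normal
    have o : ∀ X Y : Subgroup G, IsPGroup 2 X → Y ≤ pPrimeCore 2 G → (Nat.card X).Coprime (Nat.card Y) :=
      fun X Y hX hY => by
        obtain ⟨k, e⟩ := IsPGroup.iff_card.1 hX
        exact e ▸ ((H1.coprime_card_pPrimeCore 2).coprime_dvd_left (card_dvd hY)).symm.pow_left k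
    refine le_bot_iff.1 (cop_gen_cent1 c0 nc (n _) (o _ _ ((sy_pg h1).to_le Q0_le) le_rfl) fun a ha a1 => ?_)
    have h2 := key S h1 a (Q0_le ha) (o2 ((m a).1 ha).2 a1)
    have h3 := inf_bot_of_coprime (o S _ (sy_pg h1) (inf_le_left (b := C1[a])))
    exact (le_inf ((le_inf inf_le_right (cent_symm (cent_of_inf_bot (norm_inf (n _) (h2.le.trans (le_norm _)))
      (inf_le_right.trans h2.norm) h3))).trans h2.cent) le_rfl).trans h3.le
  obtain ⟨-, hf, t, Q, h, hQ⟩ := Be.se_hom k3 k4 (f := MonoidHom.id G) Function.surjective_id (by rw [k5]; rfl)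
  obtain ⟨s, r, h⟩ := h.exists_sr
  obtain ⟨P, hP⟩ := Be.sylow_eq h.r1 hQ
  have hs := key Q (hP ▸ sy_top_of_sylow P) s h.hsQ (o2 h.ss h.s1)
  have c1 : Nat.card Q = q ^ 3 := (Nat.card_congr hs.iso.some.toEquiv).trans UG.card
  have c2 := cQ hs
  obtain ⟨-, ⟨h1, -⟩ | ⟨h1, h2, -⟩ | ⟨h1, h2, rfl, w, hw, x, hx, h3⟩⟩ := h.concl
  · rw [le_antisymm Q0_le fun x hx => mem_Q0' hx (h1 x hx), c1] at c2
    nlinarith [pow_succ q 2]
  · rw [c1, c2] at h2
    nlinarith [pow_succ q 2]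
  have hU : U3 G _ _ t Q r w := ⟨h, hf, hQ,
    (h.hig_cases le_rfl Q0_le hQ (K_le.trans h.D_norm) h1).1, h2, hw, by rintro rfl; simp at h3⟩
  subst c2
  obtain ⟨φ, f1, f2⟩ := exists_iso hU hF
  obtain ⟨ψ, g1, g2, g3⟩ := exists_hom h hq.ne' φ f1 f2 fun v hv => mem_W.2 ⟨V_le hv, fun y hy =>
    (mem_cent.1 (hs.cen y (Q0_le hy) (h.sq0 hy)) v (mem_cent1.2 (h.V_s hv))).symm⟩
  have r2 := o2 h.ss h.s1
  have r3 : orderOf (ψ r) = 2 := (orderOf_injective ψ g1 r).trans r2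
  have g4 : C1[r].map ψ = C1[ψ r] := eq_of_le_of_card (by
    rintro _ ⟨g, hg, rfl⟩
    exact mem_cent1.2 (by rw [← map_mul, mem_cent1.1 hg, map_mul])) (by
    rw [card_map_of_injective g1, Nat.card_congr (hC r _ r2 r3).some.toEquiv])
  refine ⟨MulEquiv.ofBijective ψ ⟨g1, fun g => ?_⟩⟩
  obtain ⟨A, rfl⟩ := QuotientGroup.mk'_surjective _ g
  obtain ⟨y, hy⟩ : pr F _ A * ψ r * (pr F _ A)⁻¹ ∈ ψ.range := by
    let B := A * sG (UG.toSU (φ ⟨r, h.hsQ⟩)) * A⁻¹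
    have := g2 ⟨⟨B.1.1, ?_⟩, B.2⟩
    · rw [show ψ r = pr F _ (sG (UG.toSU (φ ⟨r, h.hsQ⟩))) from g3 ⟨r, h.hsQ⟩, ← map_inv, ← map_mul, ← map_mul]
      convert this using 2
      exact Subtype.ext (Units.ext rfl)
    · exact (det_units_conj A.1 _).trans (UG.det_mat _)
  obtain ⟨c, hc⟩ := isConj_iff.1 (hconj r y r2 (by rw [← orderOf_injective ψ g1, hy, orderOf_cj, r3]))
  obtain ⟨d, -, e⟩ := g4.ge (show (ψ c)⁻¹ * pr F _ A ∈ C1[ψ r] from mem_cent1.2 (by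
    rw [← hc, map_mul, map_mul, map_inv] at hy
    rw [mul_assoc, inv_mul_eq_iff_eq_mul, ← mul_assoc, ← mul_assoc, hy, inv_mul_cancel_right]))
  exact ⟨c * d, by rw [map_mul, e, mul_inv_cancel_left]⟩

end H17.PG
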